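import Cfsg.Agent.Mon.BvWt

/-! The structure of a small module of a group of Baby Monster type, its dimension and its
irreducibility. -/

set_option autoImplicit false

namespace Cfsg.Agent.Mon.Bv

open Module Cfsg Cfsg.Agent.TT Cfsg.Agent.LES Subgroup

variable {H : Type*} [Group H] {F : Type*} [Field F] {V : Type*} [AddCommGroup V] [Module F V]
  {ρ : H →* End F V}

theorem one_dim [FiniteDimensional F V] {U : Submodule F V} (h : finrank F U ≤ 1) {v w : V}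
    (hv : v ∈ U) (h0 : v ≠ 0) (hw : w ∈ U) : ∃ c : F, w = c • v := by
  have : finrank F U ≠ 0 := fun e => h0 (by simpa [Submodule.finrank_eq_zero.1 e] using hv)
  obtain ⟨c, e⟩ := exists_smul_eq_of_finrank_eq_one (K := F) (V := U) (by omega) (x := ⟨v, hv⟩)
    (fun a => h0 (congrArg Subtype.val a)) ⟨w, hw⟩
  exact ⟨c, (congrArg Subtype.val e).symm⟩

/-- Membership in the four-group. -/
def In4 (x y r : H) : Prop := r = 1 ∨ r = x ∨ r = y ∨ r = y * x

theorem fix_pair {Q K : Subgroup H} {x t q : H} (h : XS Q x) (hK : K ≤ Q) (ht : t ∈ Q)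
    (hq : q ∈ K) (e : q * t ≠ t * q) {w : V} (hw : ∀ k ∈ K, k * t = t * k → ρ k w = w) :
    w + ρ q w ∈ Eig ρ K 1 := by
  have h1 : ∀ k ∈ K, k * t = t * k → k ∈ Fx ρ (w + ρ q w) := fun k hk a => by
    have b := h.conj (inv_mem (hK hq)) (hK hk)
    rw [mem_Fx, map_add, hw k hk a, app_app, show k * q = q * (q⁻¹ * k * q⁻¹⁻¹) by group, ← app_app,
      hw _ (mul_mem (mul_mem (inv_mem hq) hk) (inv_mem (inv_mem hq)))
        ((eqv_comm_iff h ht b).2 a)]
  have h2 : q ∈ Fx ρ (w + ρ q w) := by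
    rw [mem_Fx, map_add, app_app, hw _ (mul_mem hq hq) (h.sq_comm (hK hq) ht), add_comm]
  refine mem_Eig_one.2 fun k hk => ?_
  by_cases a : k * t = t * k
  · exact h1 k hk a
  · exact ((Fx ρ _).mul_mem_cancel_right h2).1
      (h1 _ (mul_mem hk hq) (h.mul_comm_of_not_comm ht (hK hk) (hK hq) a e))

theorem sg_mul_of_comm {Q : Subgroup H} {z k t r : H} (h : XS Q z) (hk : k ∈ Q) (ht : t ∈ Q)
    (hr : r ∈ Q) (e : k * r = r * k) : sg k (t * r) = sg k t := by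
  rw [sg_mul' h ht hr hk, sg_pos e, mul_one]

theorem sg_mul_ne {Q : Subgroup H} {z k t r : H} (h : XS Q z) (hk : k ∈ Q) (ht : t ∈ Q)
    (hr : r ∈ Q) (e : k * r ≠ r * k) : sg k t ≠ sg k (t * r) := by
  rw [sg_mul' h ht hr hk, sg_neg e]
  have := sg_sq k t
  intro a
  rw [show sg k t = 0 by omega] at this
  omega

theorem In4.comm {x y r k : H} (h : In4 x y r) (a : k * x = x * k) (b : k * y = y * k) :
    k * r = r * k := by
  rcases h with rfl | rfl | rfl | rfl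
  exacts [by simp, a, b, (comm_mul_left b.symm a.symm).symm]

variable [Finite H]

theorem cent2 {Q : Subgroup H} {x y t r : H} (h : XS Q x) (hy : y ∈ Q) (ht : t ∈ Q) (hr : r ∈ Q)
    (e : ∀ k ∈ Q, k * y = y * k → k * t = t * k → k * r = r * k) : In4 x y r ∨ In4 x y (r * t) := by
  by_cases a : ∀ k ∈ Q, k * y = y * k → k * r = r * k
  · exact .inl (h.eq_of_comm_centralizer hy hr a)
  push Not at a
  obtain ⟨q, q1, q2, q3⟩ := a
  refine .inr (h.eq_of_comm_centralizer hy (mul_mem hr ht) fun k k1 k2 => ?_)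
  by_cases b : k * t = t * k
  · exact (comm_mul_left (e k k1 k2 b).symm b.symm).symm
  · refine (h.mul_comm_of_not_comm k1 hr ht (fun c => q3 ?_) (Ne.symm b)).symm
    simpa using comm_mul_left (comm_inv_left c.symm) (e _ (mul_mem k1 q1) (comm_mul_left k2 q2)
      (h.mul_comm_of_not_comm ht k1 q1 b (mt (e q q1 q2) q3)))

variable {Pt : H → Prop} {T : H → H → Prop} {x y z s t a b : H}

theorem Geo.t4 (G : Geo Pt T) (l : Ln Pt x y) (ha : a ∈ O2C y) (h : T x a) (e : In4 x y b) :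
    T x (a * b) := by
  rcases e with rfl | rfl | rfl | rfl
  · simpa using h
  · exact G.teqv l.p h (.inr rfl)
  · exact G.tmul l ha h
  · exact G.teqv l.p (G.tmul l ha h) (.inr (mul_assoc _ _ _).symm)

theorem Geo.in4_mem (G : Geo Pt T) (l : Ln Pt x y) (e : In4 x y b) : b ∈ O2C y := by
  rcases e with rfl | rfl | rfl | rfl
  exacts [one_mem _, (G.symm l).mem, (G.xs l.q).z_mem, (G.mul' l).mem]

omit [Finite H] in
theorem Geo.in4_symm (l : Ln Pt x y) (e : In4 x y b) : In4 y x b := by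
  unfold In4 at *; rw [← l.comm]; tauto

theorem Geo.exists_nc' (G : Geo Pt T) (l : Ln Pt x y) (ha : a ∈ O2C x) (h : ¬ In4 y x a) :
    ∃ q ∈ Cq x y, q * a ≠ a * q := by
  by_contra hc
  push Not at hc
  exact h (Geo.in4_symm l ((G.xs l.p).eq_of_comm_centralizer l.mem ha fun q b c =>
    hc q (mem_Cq.2 ⟨b, c⟩)))

variable [NeZero (2 : F)] [FiniteDimensional F V]

namespace Wt

variable (G : Geo Pt T) (W : Wt Pt T ρ)
include G W

omit [Finite H] [NeZero (2 : F)] [FiniteDimensional F V] in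
theorem le_A (h : Pt x) (ha : a ∈ O2C x) (e : ¬ T x a) : Eig ρ (O2C x) a ≤ Eig ρ (O2C x) 1 := by
  by_cases b : Eig ρ (O2C x) a = ⊥
  · exact b.le.trans bot_le
  rcases W.bot h ha b with c | c | c
  exacts [c ▸ le_rfl, (Eig_eqv (G.xs h) le_rfl (.inr (by simp [c]))).le, absurd c e]

omit [FiniteDimensional F V] in
theorem fixP (l : Ln Pt x y) (l' : Ln Pt x s) (h : s ∈ O2C y) {v : V}
    (hv : v ∈ Eig ρ (Cq x y ⊓ centralizer {s}) 1) : v ∈ Eig ρ (O2C x) 1 := by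
  refine mem_of_Eig (G.xs l.p) (inf_le_left.trans inf_le_left) ⟨mem_Cq.2 ⟨(G.xs l.p).z_mem,
    l.comm.symm⟩, mem_centralizer_singleton_iff.2 l'.comm.symm⟩ (one_mem _) hv fun r hr e => ?_
  rw [one_mul]
  refine W.le_A G l.p hr fun a => ?_
  rcases cent2 (G.xs l.p) l.mem l'.mem hr fun k k1 k2 k3 =>
    e k ⟨mem_Cq.2 ⟨k1, k2⟩, mem_centralizer_singleton_iff.2 k3⟩ with b | b
  · exact G.not_four l a b
  · have := G.t4 l ((mul_mem_cancel_right h).1 (G.in4_mem l b)) a b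
    rw [← mul_assoc, (G.tne l.p a).2.1, one_mul] at this
    exact G.notT l' this

omit [FiniteDimensional F V] in
theorem fixC (l : Ln Pt x y) {v : V} (hv : v ∈ Eig ρ (Cq x y) 1) : v ∈ Eig ρ (O2C x) 1 :=
  W.fixP G l l (G.xs l.q).z_mem (Eig_mono inf_le_left 1 hv)

theorem fixF (l : Ln Pt x y) (ht : T x t) (hy : t ∈ O2C y) {v : V} (hv : v ∈ Eig ρ (O2C y) t) :
    ∀ k ∈ Cq x y, k * t = t * k → ρ k v = v := fun k hk kt => by
  by_contra hc
  have h0 : v ≠ 0 := fun e => hc (by simp [e])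
  have xs := G.xs l.p
  obtain ⟨t1, t2, -⟩ := G.tne l.p ht
  have hK : Cq x y ⊓ centralizer {t} ≤ O2C x := inf_le_left.trans inf_le_left
  have kK : k ∈ Cq x y ⊓ centralizer {t} := ⟨hk, mem_centralizer_singleton_iff.2 kt⟩
  obtain ⟨u, u1, u2, u3⟩ := exists_wt xs hK h0 (Eig.fix hv (G.symm l).mem (xs.z_comm t t1).symm)
    fun k hk => one_dim (W.one l.q (G.tswap l hy ht)).le hv h0 (by
      simpa only [conj_eq_of_comm (mem_centralizer_singleton_iff.1 hk.2)] using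
        Eig_conj' (mem_Cq.1 hk.1).2 hv)
  have ku : k * u ≠ u * k := mt (Eig.fix u3 kK) hc
  have uT : T x u := by
    rcases W.bot l.p u1 u2 with e | e | e
    exacts [absurd (by simp [e]) ku, absurd (e ▸ xs.z_comm k hk.1) ku, e]
  have h1 : v ∈ Eig ρ (Cq x y) u := mem_of_Eig xs hK ⟨mem_Cq.2 ⟨xs.z_mem, l.comm.symm⟩,
    mem_centralizer_singleton_iff.2 (xs.z_comm t t1).symm⟩ u1 u3 fun r hr e => by
    rcases cent2 xs l.mem t1 hr fun k k1 k2 k3 =>
      e k ⟨mem_Cq.2 ⟨k1, k2⟩, mem_centralizer_singleton_iff.2 k3⟩ with b | b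
    · exact (Eig_mono inf_le_left _).trans (Eig_congr (K := Cq x y) fun p hp => sg_mul_of_comm xs hp.1 u1 hr
        (b.comm (xs.z_comm p hp.1) (mem_Cq.1 hp).2)).le
    by_cases c : Eig ρ (O2C x) (u * r) = ⊥
    · exact c.le.trans bot_le
    have d := G.tc' (G.t4 l hy ht b) (xs.z_comm t t1)
    rw [inv_eq_of_mul_eq_one_right t2, ← mul_assoc, t2, one_mul, mul_assoc, t2, mul_one] at d
    have f := sg_mul_of_comm xs hk.1 u1 hr (e k kK)
    rw [sg_neg ku] at f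
    rcases W.bot l.p (mul_mem u1 hr) c with g | g | g
    · rw [g, sg_pos (by simp)] at f; omega
    · rw [g, sg_pos (xs.z_comm k hk.1)] at f; omega
    · exact absurd g (G.notTT l.p uT d)
  obtain ⟨q, q1, q2, q3⟩ := G.exists_nc l t1 (G.not_four l ht)
  obtain ⟨p, p1, p2⟩ := (G.xs l.q).exists_not_comm (G.symm l).mem xs.z_ne l.ne.symm
  have h2 := q3 ▸ Eig_conj' q2 hv
  rw [h1 q (mem_Cq.2 ⟨q1, q2⟩)] at h2
  refine h0 (eq_zero_of_sg hv ?_ p1 p1 (sg_mul_ne (G.xs l.q) p1 hy (G.symm l).mem p2.symm))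
  simpa only [smul_smul, sg_sq, one_smul] using zsmul_mem h2 (sg q u)

theorem line (l : Ln Pt x y) (ht : T x t) (hy : t ∈ O2C y) {v : V} (hv : v ∈ Eig ρ (O2C y) t)
    {q : H} (q1 : q ∈ Cq x y) (q2 : q * t * q⁻¹ = t * x) : v + ρ q v ∈ Eig ρ (O2C x) 1 ∧
      v + ρ q v ∈ Eig ρ (Cq y x) t ∧ (v ≠ 0 → v + ρ q v ≠ 0) := by
  have xs := G.xs l.p
  have h1 := q2 ▸ Eig_conj' (mem_Cq.1 q1).2 hv
  refine ⟨W.fixC G l (fix_pair xs inf_le_left (G.tne l.p ht).1 q1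
    (fun e => xs.z_ne (by simpa [e] using q2)) (W.fixF G l ht hy hv)),
    add_mem (Eig_mono inf_le_left _ hv) ((Eig_congr (K := Cq y x) fun p hp => sg_mul_of_comm (G.xs l.q) hp.1 hy
      (G.symm l).mem (mem_Cq.1 hp).2).le (Eig_mono inf_le_left _ h1)), fun h0 e => ?_⟩
  obtain ⟨p, p1, p2⟩ := (G.xs l.q).exists_not_comm (G.symm l).mem xs.z_ne l.ne.symm
  exact h0 (eq_zero_of_sg hv (eq_neg_of_add_eq_zero_left e ▸ neg_mem h1) p1 p1
    (sg_mul_ne (G.xs l.q) p1 hy (G.symm l).mem p2.symm))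

omit G [Finite H] [NeZero (2 : F)] [FiniteDimensional F V] in
theorem exists_ne (h : Pt x) (ht : T x t) : ∃ v ∈ Eig ρ (O2C x) t, v ≠ 0 :=
  (Submodule.ne_bot_iff _).1 fun e => by
    have := W.one h ht
    rw [e, finrank_bot] at this
    omega

omit W [FiniteDimensional F V] in
theorem pr_zero (l : Ln Pt x y) (ht : T x t) (hy : t ∈ O2C y) {v : V} (hv : v ∈ Eig ρ (Cq y x) t) :
    pr ρ (O2C y) 1 v = 0 := by
  obtain ⟨k, k1, k2⟩ := G.exists_nc' (G.symm l) hy (G.not_four l ht)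
  exact pr_eq_zero (ch_of (G.xs l.q) le_rfl (one_mem _)) hv k1.1 k1 (by
    rw [sg_pos (by simp), sg_neg k2]; norm_num)

theorem plane (l : Ln Pt z x) (l' : Ln Pt z y) (m : Ln Pt x y) (n : y ≠ x * z) (ha : T z a)
    (ax : a ∈ O2C x) (ay : a ∈ O2C y) : ∃ w, w ≠ 0 ∧ w ∈ Eig ρ (O2C z) 1 ⊓ Eig ρ (O2C x) 1 ∧
      pr ρ (O2C y) 1 w = 0 := by
  have xs := G.xs l.q
  have az := (G.tne l.p ha).1
  have xT := G.tswap l ax ha
  obtain ⟨v, v1, v2⟩ := W.exists_ne l'.q (G.tswap l' ay ha)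
  obtain ⟨q, q1, q2, q3⟩ := G.exists_nc l' az (G.not_four l' ha)
  obtain ⟨w1, w2, w3⟩ := W.line G l' ha ay v1 (mem_Cq.2 ⟨q1, q2⟩) q3
  obtain ⟨p, p1, p2⟩ : ∃ p ∈ Cq x z ⊓ centralizer {y}, p * a ≠ a * p := by
    by_contra hc
    push Not at hc
    rcases cent2 xs (G.symm l).mem m.mem ax fun k k1 k2 k3 =>
      hc k ⟨mem_Cq.2 ⟨k1, k2⟩, mem_centralizer_singleton_iff.2 k3⟩ with b | b
    exacts [G.not_four (G.symm l) xT b, G.not_four (G.symm l) (G.tmul m ay xT) b]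
  have pz := (mem_Cq.1 p1.1).2
  have py := mem_centralizer_singleton_iff.1 p1.2
  have w4 : ρ p (v + ρ q v) ∈ Eig ρ (Cq y z) (a * x) := xs.conj_of_ne p1.1.1 ax p2 ▸
    map_mem_Eig (fun k hk => mem_Cq.2 ⟨by simpa using (G.lx l'.q).norm _ (comm_inv_left py) k hk.1,
      comm_mul_left (comm_mul_left (comm_inv_left pz) (mem_Cq.1 hk).2) pz⟩) w2
  refine ⟨v + ρ q v + ρ p (v + ρ q v), fun e => ?_, ⟨add_mem w1 (by simpa using Eig_conj' pz w1),
    W.fixP G (G.symm l) m l'.mem (fix_pair xs (inf_le_left.trans inf_le_left) ax p1 p2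
      fun k hk e => ?_)⟩, by
    rw [map_add, pr_zero G l' ha ay w2, pr_zero G l' (G.tmul l ax ha) (mul_mem ay (G.symm m).mem) w4,
      add_zero]⟩
  · obtain ⟨k, k1, k2⟩ := G.exists_nc' (G.symm l') (G.symm m).mem (by
      rintro (b | b | b | b)
      exacts [xs.z_ne b, l.ne b, m.ne b.symm, n (by rw [b, (G.xs l.p).mul_z_z])])
    exact w3 v2 (eq_zero_of_sg w2 (eq_neg_of_add_eq_zero_left e ▸ neg_mem w4) k1 k1
      (sg_mul_ne (G.xs l'.q) k1.1 ay (G.symm m).mem k2))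
  · have k1 : k ∈ Cq x y := ⟨hk.1.1, hk.2⟩
    rw [map_add, W.fixF G m xT ay v1 k k1 e, W.fixF G m (G.tmul (G.symm l) az xT)
      (mul_mem ay (G.symm l').mem) (q3 ▸ Eig_conj' q2 v1) k k1
      (comm_mul_left e.symm (mem_Cq.1 hk.1).2.symm).symm]

open Classical in
theorem dim_A (l : Ln Pt z s) : 22 + finrank F (Eig ρ (O2C z) 1 ⊓ Eig ρ (O2C s) 1 : Submodule F V) ≤
    finrank F (Eig ρ (O2C z) 1) := by
  obtain ⟨S, t, h1, h2, h3⟩ := G.sep l
  have h4 := sum_finrank_le (ρ := ρ) S t (fun i hi => ch_of (G.xs l.q) inf_le_left (h2 i hi).2)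
    (Eig ρ (O2C z) 1 ⊓ LinearMap.ker (pr ρ (O2C s) 1)) h3
  have h5 := Finset.card_nsmul_le_sum S (fun i => finrank F (Eig ρ (O2C z) 1 ⊓
    LinearMap.ker (pr ρ (O2C s) 1) ⊓ Eig ρ (Cq s z) (t i) : Submodule F V)) 1 fun i hi => by
    obtain ⟨a, b⟩ := h2 i hi
    obtain ⟨v, v1, v2⟩ := W.exists_ne l.q (G.tswap l b a)
    obtain ⟨q, q1, q2, q3⟩ := G.exists_nc l (G.tne l.p a).1 (G.not_four l a)
    obtain ⟨w1, w2, w3⟩ := W.line G l a b v1 (mem_Cq.2 ⟨q1, q2⟩) q3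
    exact Nat.one_le_iff_ne_zero.2 (mt Submodule.finrank_eq_zero.1 ((Submodule.ne_bot_iff _).2
      ⟨_, ⟨⟨w1, pr_zero G l a b w2⟩, w2⟩, w3 v2⟩))
  have h6 := finrank_add_le (U := Eig ρ (O2C z) 1 ⊓ LinearMap.ker (pr ρ (O2C s) 1))
    (W := Eig ρ (O2C z) 1 ⊓ Eig ρ (O2C s) 1) (fun v a b =>
      (pr_id (ch_of (G.xs l.q) le_rfl (one_mem _)) b.2).symm.trans a.2) inf_le_left inf_le_left
  rw [h1, smul_eq_mul] at h5
  exact le_trans (Nat.add_le_add_right (h5.trans h4) _) h6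

open Classical in
theorem dim_V (l : Ln Pt z s) : 4348 + finrank F (Eig ρ (O2C z) 1) ≤ finrank F V := by
  obtain ⟨S, t, h1, h2, h3⟩ := G.count l.p
  have xs := G.xs l.p
  have h4 := card_le_finrank (ρ := ρ) S t (fun i hi => ch_of xs le_rfl (G.tne l.p (h2 i hi)).1)
    ((ρ z).eqLocus .id ⊓ LinearMap.ker (pr ρ (O2C z) 1)) (m := 1) (r := 2) (fun i hi => by
      obtain ⟨a, -, b, c⟩ := G.tne l.p (h2 i hi)
      obtain ⟨k, k1, k2⟩ := xs.exists_not_comm a b c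
      rw [inf_eq_right.2 fun v hv => ⟨Eig.fix hv xs.z_mem (xs.z_comm _ a).symm,
        pr_eq_zero (ch_of xs le_rfl (one_mem _)) hv k1 k1 (by
          rw [sg_pos (by simp), sg_neg k2.symm]; norm_num)⟩, W.one l.p (h2 i hi)])
    fun i hi => le_trans (Finset.card_le_card fun j hj => by
      simp only [Finset.mem_filter] at hj ⊢
      exact ⟨hj.1, eqv_of_sg xs (G.tne l.p (h2 j hj.1)).1 (G.tne l.p (h2 i hi)).1 hj.2⟩) (h3 i hi)
  have h5 := finrank_add_le (U := (ρ z).eqLocus .id ⊓ LinearMap.ker (pr ρ (O2C z) 1))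
    (W := Eig ρ (O2C z) 1) (X := (ρ z).eqLocus .id) (fun v a b =>
      (pr_id (ch_of xs le_rfl (one_mem _)) b).symm.trans a.2) inf_le_left
      fun v hv => mem_Eig_one.1 hv z xs.z_mem
  have h6 := G.two_add_le (ρ := ρ) l (W := (ρ z).eqLocus .id) fun v hv => hv
  have h7 := W.big l
  omega

theorem dim_A0 (l : Ln Pt z s) : 4371 ≤ finrank F V ∧ (finrank F V ≤ 4371 →
    finrank F (Eig ρ (O2C z) 1 ⊓ Eig ρ (O2C s) 1 : Submodule F V) ≤ 1) := by
  obtain ⟨y, a, l1, l2, n, a1, a2, a3, -⟩ := G.plane l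
  obtain ⟨w, w1, w2, -⟩ := W.plane G l l1 l2 n a1 a2 a3
  have := mt Submodule.finrank_eq_zero.1 ((Submodule.ne_bot_iff _).2 ⟨w, w2, w1⟩)
  have := W.dim_A G l
  have := W.dim_V G l
  omega

/-- The fixed space of `E`. -/
theorem fixE (l : Ln Pt z s) {v : V} (hv : v ∈ Eig ρ (O2C z ⊓ O2C s) 1) :
    v ∈ Eig ρ (O2C z) 1 ⊔ Eig ρ (O2C s) 1 ⊔ Eig ρ (O2C (s * z)) 1 := by
  have xs := G.xs l.p
  refine mem_of_Eig xs inf_le_left ⟨xs.z_mem, (G.symm l).mem⟩ (one_mem _) hv fun r hr e => ?_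
  rw [one_mul]
  by_cases h : T z r
  swap
  · exact (W.le_A G l.p hr h).trans (le_sup_left.trans le_sup_left)
  intro u hu
  have rs := G.cent_E l hr e
  have l' := G.mul l
  have rs' := G.third l hr rs
  have h1 := G.tswap l rs h
  have h2 := G.tswap l' rs' h
  obtain ⟨q, q1, q2, q3⟩ := G.exists_nc (G.symm l) rs (G.not_four (G.symm l) h1)
  obtain ⟨p, p1, p2, p3⟩ := G.exists_nc (G.symm l') rs' (G.not_four (G.symm l') h2)
  obtain ⟨a1, -, a2⟩ := W.line G (G.symm l) h1 hr hu (mem_Cq.2 ⟨q1, q2⟩) q3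
  obtain ⟨b1, -, -⟩ := W.line G (G.symm l') h2 hr hu (mem_Cq.2 ⟨p1, p2⟩) p3
  by_cases h0 : u = 0
  · exact h0 ▸ zero_mem _
  have c1 := q3 ▸ Eig_conj' q2 hu
  obtain ⟨c, hc⟩ := one_dim (W.one l.p (G.tmul l rs h)).le c1 (app_ne h0 q)
    ((Eig_eqv xs le_rfl (.inr (mul_assoc r s z).symm)).le (p3 ▸ Eig_conj' p2 hu))
  by_cases c0 : c = 1
  · rw [hc, c0, one_smul] at b1
    obtain ⟨τ, t1, -, t2⟩ := G.swap l
    have d := Eig_conj τ a1
    rw [t2, mem_Eig_one.1 b1 τ t1, mul_one, mul_inv_cancel] at d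
    have ch := ch_of xs le_rfl (one_mem _)
    have := pr_id ch d
    rw [map_add, pr_zero G (G.symm l) h1 hr (Eig_mono inf_le_left _ hu), pr_zero G (G.symm l)
      (G.teqv l.q h1 (.inr rfl)) (mul_mem hr l.mem) (Eig_mono inf_le_left _ c1), add_zero] at this
    exact absurd this.symm (a2 h0)
  · have := Submodule.smul_mem _ (1 - c)⁻¹ (sub_mem (Submodule.mem_sup_right (S := Eig ρ (O2C z) 1 ⊔
      Eig ρ (O2C s) 1) b1) (Submodule.smul_mem _ c (Submodule.mem_sup_left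
        (Submodule.mem_sup_right a1))))
    rwa [hc, smul_add, add_sub_add_right_eq_sub, show u - c • u = (1 - c) • u by
      rw [sub_smul, one_smul], smul_smul,
      inv_mul_cancel₀ (sub_ne_zero.2 (Ne.symm c0)), one_smul] at this

end Wt

theorem Geo.min_deg (G : Geo Pt T) (h : Pt x) (hx : ρ x ≠ 1) : 4371 ≤ finrank F V := by
  by_contra hc
  obtain ⟨y, l⟩ := G.exists_ln h
  exact hc ((G.wt h hx (by omega)).dim_A0 G l).1

theorem Geo.irred (G : Geo Pt T) (h : Pt x) (hx : ρ x ≠ 1) (hn : finrank F V ≤ 4371)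
    (U : Submodule F V) (hU : ∀ g, ∀ v ∈ U, ρ g v ∈ U) : U = ⊥ ∨ U = ⊤ := by
  by_contra hc
  rw [not_or] at hc
  have h1 : Representation.subrepresentation ρ U hU x = 1 := by
    by_contra e
    have := G.min_deg h e
    have := Submodule.finrank_lt hc.2
    omega
  have h2 : Representation.quotient ρ U hU x = 1 := by
    by_contra e
    have := G.min_deg h e
    have := U.finrank_quotient_add_finrank
    have := mt Submodule.finrank_eq_zero.1 hc.1
    omega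
  refine G.neg_ne h hx (eq_bot_iff.2 fun v hv => ?_)
  have h3 : ρ x v - v ∈ U := (Submodule.Quotient.eq _).1 (LinearMap.congr_fun h2 (U.mkQ v))
  rw [hv, ← neg_add', neg_mem_iff] at h3
  exact eq_zero_of_neg F ((congrArg Subtype.val (LinearMap.congr_fun h1
    ⟨v, mem_of_two_smul h3⟩)).symm.trans hv)

end Cfsg.Agent.Mon.Bv
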