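import Cfsg.Agent.Mon.BvDim

/-! Equivariant families of maps between two small modules of a group of Baby Monster type. -/

set_option autoImplicit false

namespace Cfsg.Agent.Mon.Bv

open Module Cfsg Cfsg.Agent.TT Cfsg.Agent.LES Subgroup

variable {H : Type*} [Group H] {F : Type*} [Field F] {V V' : Type*} [AddCommGroup V] [Module F V]
  [AddCommGroup V'] [Module F V'] {ρ : H →* End F V} {ρ' : H →* End F V'}
  {Pt : H → Prop} {T : H → H → Prop} {x y z s t a : H}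

theorem comm_fix [FiniteDimensional F V] {U : Submodule F V} (h : finrank F U ≤ 1) {a b : H}
    (ha : ∀ v ∈ U, ρ a v ∈ U) (hb : ∀ v ∈ U, ρ b v ∈ U) {v : V} (hv : v ∈ U) :
    ρ (a⁻¹ * b⁻¹ * a * b) v = v := by
  by_cases e : v = 0
  · simp [e]
  obtain ⟨c, hc⟩ := one_dim h hv e (ha v hv)
  obtain ⟨d, hd⟩ := one_dim h hv e (hb v hv)
  exact comm_mem_Fx hc hd

theorem A_conj (g : H) {v : V} (h : v ∈ Eig ρ (O2C x) 1) : ρ g v ∈ Eig ρ (O2C (g * x * g⁻¹)) 1 := by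
  simpa only [mul_one, mul_inv_cancel] using Eig_conj g h

theorem A_conj' {g : H} (e : g * x = x * g) {v : V} (h : v ∈ Eig ρ (O2C x) 1) :
    ρ g v ∈ Eig ρ (O2C x) 1 := by simpa only [conj_eq_of_comm e] using A_conj g h

theorem Eig_stab {c : H} (a : c * z = z * c) (b : c * t = t * c) :
    ∀ v ∈ Eig ρ (O2C z) t, ρ c v ∈ Eig ρ (O2C z) t := fun v hv => by
  simpa only [conj_eq_of_comm b] using Eig_conj' a hv

/-- An equivariant family of linear maps indexed by the points. -/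
def Fam (Pt : H → Prop) (ρ : H →* End F V) (ρ' : H →* End F V') (β : H → V →ₗ[F] V') : Prop :=
  ∀ g x, Pt x → ∀ v, β (g * x * g⁻¹) (ρ g v) = ρ' g (β x v)

theorem Fam.com {β : H → V →ₗ[F] V'} (B : Fam Pt ρ ρ' β) (h : Pt x) {c : H} (e : c * x = x * c)
    (v : V) : β x (ρ c v) = ρ' c (β x v) := by simpa only [conj_eq_of_comm e] using B c x h v

theorem Geo.exists_fam (G : Geo Pt T) (h : Pt z) {f : V →ₗ[F] V'}
    (hf : ∀ c, c * z = z * c → ∀ v, f (ρ c v) = ρ' c (f v)) : ∃ β, β z = f ∧ Fam Pt ρ ρ' β := by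
  obtain ⟨β, a, b⟩ := exists_family (ρ := Hm ρ ρ') fun c hc => mem_Fx_Hm.2 (hf c hc)
  exact ⟨β, a, fun g x hx v => by rw [← b g x ((G.conj h x).1 hx), Hm_apply, inv_app]⟩

variable [Finite H]

variable (ρ ρ') in
/-- The elements commuting with `f` on `U`. -/
def Cm (f : V →ₗ[F] V') (U : Submodule F V) : Subgroup H :=
  let S : Submonoid H :=
    { carrier := {c | ∀ v ∈ U, ρ c v ∈ U ∧ f (ρ c v) = ρ' c (f v)}
      one_mem' := fun v hv => by simpa using hv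
      mul_mem' := fun {a b} ha hb v hv => by
        rw [← app_app, ← app_app, ← (hb v hv).2]; exact ha _ (hb v hv).1 }
  { S with
    inv_mem' := fun {c} hc => (Submonoid.powers_le (P := S)).2 hc
      (mem_powers_iff_mem_zpowers.2 (inv_mem (mem_zpowers c))) }

theorem mem_Cm {f : V →ₗ[F] V'} {U : Submodule F V} {c : H} :
    c ∈ Cm ρ ρ' f U ↔ ∀ v ∈ U, ρ c v ∈ U ∧ f (ρ c v) = ρ' c (f v) := Iff.rfl

theorem pi_conj (g : H) (v : V) :
    ρ g (pr ρ (O2C x) 1 v) = pr ρ (O2C (g * x * g⁻¹)) 1 (ρ g v) := by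
  simpa only [mul_one, mul_inv_cancel] using conj_pr (fun _ => (mem_Q_conj g).symm) 1 v

omit [Finite H] in
theorem Geo.A_third (G : Geo Pt T) (l : Ln Pt z s) {v : V}
    (h : v ∈ Eig ρ (O2C z) 1 ⊓ Eig ρ (O2C s) 1) : v ∈ Eig ρ (O2C (s * z)) 1 := by
  obtain ⟨q, a, b⟩ := G.flip l
  exact b ▸ mem_Eig_one.1 h.1 q a ▸ A_conj q h.2

variable [NeZero (2 : F)]

theorem pr_neg {K : Subgroup H} (h : Ch K 1) (hx : x ∈ K) {v : V} (hv : v ∈ Neg ρ x) :
    pr ρ K 1 v = 0 := by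
  have := pr_app (ρ := ρ) h hx v
  rw [hv, map_neg, sg_pos (by simp), one_smul] at this
  exact eq_zero_of_neg F this.symm

theorem Geo.sub_pr_mem (G : Geo Pt T) (l : Ln Pt x y) {M : Submodule F V}
    (hM : ∀ p, Pt p → p ∈ O2C x → p ∈ O2C y → Neg ρ p ≤ M) (v : V) :
    v - pr ρ (O2C x ⊓ O2C y) 1 v ∈ M := by
  let K : Subgroup H :=
    { carrier := {e | ∀ v, v - ρ e v ∈ M}
      one_mem' := fun v => by simp
      mul_mem' := fun {a b} ha hb v => by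
        simpa only [app_app, sub_add_sub_cancel] using add_mem (hb v) (ha (ρ b v))
      inv_mem' := fun {a} ha v => by simpa [app_inv] using neg_mem (ha (ρ a⁻¹ v)) }
  have hK : O2C x ⊓ O2C y ≤ K := G.E_le l
    (fun v => hM x l.p (G.xs l.p).z_mem (G.symm l).mem (sub_mem_Neg (G.xs l.p).z_sq v))
    fun p a b v => hM p b.q b.mem a (sub_mem_Neg (G.xs b.q).z_sq v)
  have := M.smul_mem (Nat.card (O2C x ⊓ O2C y : Subgroup H) : F)⁻¹
    (M.sum_mem (t := fs (O2C x ⊓ O2C y)) fun e he => hK (mem_fs.1 he) v)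
  rw [Finset.sum_sub_distrib, Finset.sum_const, card_fs, smul_sub, ← Nat.cast_smul_eq_nsmul F,
    smul_smul, inv_mul_cancel₀ (card_ne ((G.xs l.p).isPGroup.to_le inf_le_left)), one_smul] at this
  simpa only [pr_apply, mul_one, one_mul, sg_pos, one_smul] using this

namespace Wt

variable (G : Geo Pt T) (W : Wt Pt T ρ)
include G W

theorem eigE (l : Ln Pt x y) (ht : T x t) (e : y * t ≠ t * y) {v : V}
    (hv : v ∈ Eig ρ (O2C x ⊓ O2C y) t) : v ∈ Eig ρ (O2C x) t := by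
  have xs := G.xs l.p
  have t1 := (G.tne l.p ht).1
  refine mem_of_Eig xs inf_le_left ⟨xs.z_mem, (G.symm l).mem⟩ t1 hv fun r hr h => ?_
  have ry := G.cent_E l hr h
  have o : y * (t * r) ≠ t * r * y := fun a => e (by
    rw [mul_assoc, comm_of_mem_O2C ry, ← mul_assoc, ← mul_assoc] at a
    exact mul_right_cancel a)
  by_cases c : Eig ρ (O2C x) (t * r) = ⊥
  · exact c.le.trans bot_le
  rcases W.bot l.p (mul_mem t1 hr) c with g | g | g
  · exact absurd (by simp [g]) o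
  · exact absurd (g ▸ l.comm) o
  obtain ⟨p, p1, p2, p3⟩ := W.orb l ht g e o
  have := G.free (G.symm l) p1 t1 e.symm (p3 ▸ Eqv.mem (G.symm l).mem ry (xs.conj t1 hr))
  exact (Eig_eqv xs le_rfl (p3 ▸ xs.conj this t1)).le

theorem spanR (l : Ln Pt z s) (ht : T s t) (e : z * t ≠ t * z) {M : Submodule F V}
    (hM : ∀ r ∈ O2C z, ∀ v ∈ M, ρ r v ∈ M) (h : Eig ρ (O2C s) t ≤ M) : Neg ρ z ≤ M := by
  have key : ∀ v ∈ Neg ρ z, ρ s v = v → v ∈ M := fun v a b =>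
    mem_of_odd (G.xs l.q) (G.symm l).mem a b fun u u1 u2 => by
      by_cases c : Eig ρ (O2C s) u = ⊥
      · exact c.le.trans bot_le
      rcases W.bot l.q u1 c with g | g | g
      · exact absurd (by simp [g]) u2
      · exact absurd (g ▸ l.comm.symm) u2
      obtain ⟨p, p1, p2, rfl⟩ := W.orb (G.symm l) g ht u2 e
      exact fun w hw => inv_app (ρ := ρ) p w ▸ hM _ (inv_mem p1) _ (h (Eig_conj' p2 hw))
  intro v hv
  have a := app_mem_Neg l.comm hv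
  refine mem_of_split (ρ := ρ) (x := s) (key _ (add_mem hv a) (add_fix (G.xs l.q).z_sq v)) ?_
  obtain ⟨q, q1, q2⟩ := G.flip l
  have b := app_mem_Neg (comm_of_mem_O2C q1) (sub_mem hv a)
  refine inv_app (ρ := ρ) q (v - ρ s v) ▸ hM _ (inv_mem q1) _ (key _ b ?_)
  have := fix_of_neg ⟨q2 ▸ map_mem_Neg (sub_mem_Neg (G.xs l.q).z_sq v) q, b⟩
  rwa [(G.xs l.p).mul_z_z] at this

theorem span (h : Pt z) {M : Submodule F V} (h1 : Eig ρ (O2C z) 1 ≤ M)
    (h2 : ∀ y, y = z ∨ Ln Pt z y → Neg ρ y ≤ M) (v : V) : v ∈ M := by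
  have xs := G.xs h
  refine mem_of_split (ρ := ρ) (x := z) (mem_of_pr xs (add_fix xs.z_sq v) fun t ht _ => ?_)
    (h2 z (.inl rfl) (sub_mem_Neg xs.z_sq v))
  have := pr_mem (ρ := ρ) (ch_of xs le_rfl ht) (v + ρ z v)
  by_cases a : T z t
  · obtain ⟨y, l, b⟩ := G.exists_odd_ln h a
    exact h2 y (.inr l) (Eig.neg this l.mem b.symm)
  · exact h1 (W.le_A G h ht a this)

theorem pi_mem (l : Ln Pt z s) {v : V} (hv : v ∈ Eig ρ (O2C z) 1) :
    pr ρ (O2C s) 1 v ∈ Eig ρ (O2C z) 1 ⊓ Eig ρ (O2C s) 1 :=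
  ⟨W.fixC G l (mem_Eig_one.2 fun k hk => by
    rw [pi_conj, conj_eq_of_comm (mem_Cq.1 hk).2, mem_Eig_one.1 hv k hk.1]),
    pr_mem (ch_of (G.xs l.q) le_rfl (one_mem _)) v⟩

theorem pi_eq (l : Ln Pt z s) {v : V} (hv : v ∈ Eig ρ (O2C z) 1) :
    pr ρ (O2C (s * z)) 1 v = pr ρ (O2C s) 1 v := by
  obtain ⟨q, a, b⟩ := G.flip l
  rw [← mem_Eig_one.1 (W.pi_mem G l hv).1 q a, pi_conj, b, mem_Eig_one.1 hv q a]

theorem pi_zero [FiniteDimensional F V] (hn : finrank F V ≤ 4371) (l : Ln Pt z x) (l' : Ln Pt z y)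
    (m : Ln Pt x y) (n : y ≠ x * z) (ha : T z a) (ax : a ∈ O2C x) (ay : a ∈ O2C y) {v : V}
    (hv : v ∈ Eig ρ (O2C z) 1 ⊓ Eig ρ (O2C x) 1) : pr ρ (O2C y) 1 v = 0 := by
  obtain ⟨w, w1, w2, w3⟩ := W.plane G l l' m n ha ax ay
  obtain ⟨c, rfl⟩ := one_dim ((W.dim_A0 G l).2 hn) w2 w1 hv
  rw [map_smul, w3, smul_zero]

end Wt

namespace Fam

variable {β : H → V →ₗ[F] V'} (B : Fam Pt ρ ρ' β) (G : Geo Pt T) (W : Wt Pt T ρ) (W' : Wt Pt T ρ')
include B G W'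

theorem mapA (l : Ln Pt x y) {v : V} (hv : v ∈ Eig ρ (O2C x) 1) : β y v ∈ Eig ρ' (O2C x) 1 :=
  W'.fixC G l (mem_Eig_one.2 fun k hk => by
    rw [← B.com l.q (mem_Cq.1 hk).2, mem_Eig_one.1 hv k hk.1])

theorem mapE (l : Ln Pt x y) (ht : T x t) (e : y * t ≠ t * y) {v : V} (hv : v ∈ Eig ρ (O2C x) t) :
    β y v ∈ Eig ρ' (O2C x) t :=
  W'.eigE G l ht e fun k hk => by rw [← B.com l.q (comm_of_mem_O2C hk.2), hv k hk.1, map_zsmul]

theorem eqA (l : Ln Pt x y) {v : V} (hv : v ∈ Eig ρ (O2C (y * x)) 1) : β x v = β y v := by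
  obtain ⟨τ, a, b, -⟩ := G.swap l
  have := B τ x l.p v
  rw [b, mem_Eig_one.1 hv τ a, mem_Eig_one.1 (B.mapA G W' (G.symm (G.mul l)) hv) τ a] at this
  exact this.symm

include W

theorem eqN (l : Ln Pt x y) {v : V} (hv : v ∈ Neg ρ x ⊓ Neg ρ y) : β x v = β y v := by
  have m := G.symm (G.mul l)
  have xs := G.xs m.p
  refine mem_of_odd (M := (β x).eqLocus (β y)) xs m.mem hv.1 (fix_of_neg ⟨hv.2, hv.1⟩)
    fun w w1 w2 => ?_
  by_cases c : Eig ρ (O2C (y * x)) w = ⊥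
  · exact c.le.trans bot_le
  rcases W.bot m.p w1 c with g | g | g
  · exact absurd (by simp [g]) w2
  · exact absurd (g ▸ m.comm) w2
  intro u hu
  have := B w x l.p u
  rw [xs.conj_of_ne w1 m.mem w2.symm, l.comm, ← mul_assoc, (G.xs l.p).z_sq, one_mul,
    Eig.fix hu w1 rfl, Eig.fix (B.mapE G W' m g w2 hu) w1 rfl] at this
  exact this.symm

theorem eqT [FiniteDimensional F V] [FiniteDimensional F V'] (l : Ln Pt z x) (l' : Ln Pt z y)
    (ht : T z t) (e : x * t ≠ t * x) (e' : y * t ≠ t * y) {v : V} (hv : v ∈ Eig ρ (O2C z) t) :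
    β x v = β y v := by
  obtain ⟨k, k1, rfl⟩ := G.transL l l'
  obtain ⟨p, p1, p2, p3⟩ := W.orb l' (G.tc' ht k1) ht (fun a => e (by
    simpa [mul_assoc] using comm_conj k⁻¹ a)) e'
  have c1 := comm_mul_left p2 k1
  have c2 : p * k * t = t * (p * k) := comm_of_conj_eq (by rw [← p3]; nth_rw 1 [p3]; group)
  have c3 : p * k * x * (p * k)⁻¹ = k * x * k⁻¹ := by
    rw [← conj_eq_of_comm (comm_of_mem_O2C p1)]; group
  have := G.gen_T (K := Cm ρ ρ' (β x) (Eig ρ (O2C z) t)) l ht e.symm (fun q a b v hv => by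
      rw [Eig.fix hv a b, Eig.fix (B.mapE G W' l ht e hv) a b]; exact ⟨hv, rfl⟩)
    (fun a b a1 b1 a2 b2 v hv => by
      rw [comm_fix (W.one l.p ht).le (Eig_stab a1 a2) (Eig_stab b1 b2) hv,
        comm_fix (W'.one l.p ht).le (Eig_stab a1 a2) (Eig_stab b1 b2) (B.mapE G W' l ht e hv)]
      exact ⟨hv, rfl⟩) (fun c a b d v hv => ⟨Eig_stab a b v hv, B.com l.q d v⟩) c1 c2
  rw [← app_inv (ρ := ρ) (p * k) v, (this _ (Eig_stab (comm_inv_left c1) (comm_inv_left c2) v hv)).2, ← c3,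
    B _ _ l.q]

end Fam

theorem Geo.exists_phi (G : Geo Pt T) [FiniteDimensional F V'] (W : Wt Pt T ρ) (W' : Wt Pt T ρ')
    (h : Pt z) : ∃ f : V →ₗ[F] V', f ≠ 0 ∧ (∀ v, f (ρ z v) = -f v) ∧
      ∀ c, c * z = z * c → ∀ v, f (ρ c v) = ρ' c (f v) := by
  have xs := G.xs h
  obtain ⟨s, l⟩ := G.exists_ln h
  obtain ⟨t, -, t1, t2, -⟩ := G.eleven (G.symm l)
  obtain ⟨a, a1, a2⟩ := W.exists_ne l.q t1
  obtain ⟨b, b1, b2⟩ := W'.exists_ne l.q t1
  have a3 := Eig.neg a1 (G.symm l).mem t2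
  have b3 := Eig.neg b1 (G.symm l).mem t2
  have zero : ∀ f : V →ₗ[F] V', (∀ v, f (ρ z v) = -f v) → (∀ c ∈ O2C z, c ∈ Fx (Hm ρ ρ') f) →
      f a = 0 → f = 0 := fun f f1 f2 f3 => LinearMap.ext fun v =>
    mem_of_split (M := LinearMap.ker f) (ρ := ρ) (x := z) (by simp [f1])
      (W.spanR G l t1 t2 (fun r hr u hu => by
        rw [LinearMap.mem_ker, mem_Fx_Hm.1 (f2 r hr), hu, map_zero]) (fun u hu => by
        have : FiniteDimensional F (Eig ρ (O2C s) t) := .of_finrank_eq_succ (W.one l.q t1)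
        obtain ⟨c, e⟩ := exists_smul_eq_of_finrank_eq_one (W.one l.q t1) (x := ⟨a, a1⟩)
          (fun e => a2 (congrArg Subtype.val e)) ⟨u, hu⟩
        rw [LinearMap.mem_ker, ← show c • a = u from congrArg Subtype.val e, map_smul, f3, smul_zero])
        (sub_mem_Neg xs.z_sq v))
  have mp : ∀ f : V →ₗ[F] V', (∀ c ∈ O2C z, c ∈ Fx (Hm ρ ρ') f) → f a ∈ Eig ρ' (O2C s) t :=
    fun f hf => W'.eigE G (G.symm l) t1 t2 fun k hk => by
      rw [← mem_Fx_Hm.1 (hf k hk.2), a1 k hk.1, map_zsmul]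
  obtain ⟨f, f0, f1, f2⟩ : ∃ f : V →ₗ[F] V', f ≠ 0 ∧ (∀ v, f (ρ z v) = -f v) ∧
      ∀ c ∈ O2C z, c ∈ Fx (Hm ρ ρ') f := by
    obtain ⟨ℓ, hℓ⟩ := not_forall.1 (mt (Module.forall_dual_apply_eq_zero_iff F a).1 a2)
    let g : V →ₗ[F] V' := (ℓ ∘ₗ (1 - ρ z)).smulRight b
    have g1 : ∀ v, g v = ℓ (v - ρ z v) • b := fun _ => rfl
    obtain ⟨u, u1, u2⟩ : ∃ u ∈ O2C z, pr (Hm ρ ρ') (O2C z) u g ≠ 0 := by
      by_contra hc
      push Not at hc
      have := LinearMap.congr_fun ((Submodule.mem_bot F).1 (mem_of_pr xs (mem_Fx_Hm.2 fun v => by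
        rw [g1, g1, map_smul, b3, app_app, xs.z_sq, map_one, End.one_apply, ← neg_sub, map_neg,
          neg_smul, smul_neg]) fun u a b => absurd (hc u a) b)) a
      rw [g1, a3, sub_neg_eq_add, map_add, add_smul, LinearMap.zero_apply,
        add_eq_zero_iff_eq_neg] at this
      exact smul_ne_zero hℓ b2 (eq_zero_of_neg F this)
    have g2 := pr_mem (ρ := Hm ρ ρ') (ch_of xs le_rfl u1) g
    have g3 : ∀ v, pr (Hm ρ ρ') (O2C z) u g v ∈ Neg ρ' z := fun v =>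
      pr_mem_of (ρ := Hm ρ ρ') (W := (Neg ρ' z).comap (LinearMap.applyₗ v)) u fun k hk =>
        app_mem_Neg (xs.z_comm k hk) (Submodule.smul_mem _ _ b3)
    generalize pr (Hm ρ ρ') (O2C z) u g = f at u2 g2 g3
    have g4 : ∀ c ∈ O2C z, c ∈ Fx (Hm ρ ρ') (ρ' u ∘ₗ f) := fun c hc => mem_Fx_Hm.2 fun v => by
      have := LinearMap.congr_fun (g2 c hc) (ρ c v)
      rw [Hm_apply, inv_app, LinearMap.smul_apply] at this
      simp only [LinearMap.comp_apply]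
      by_cases e : c * u = u * c
      · rw [app_app, e, ← app_app, this, sg_pos e, one_smul]
      · rw [app_app, xs.comm_of_ne hc u1 e, ← app_app, g3, map_neg, ← app_app, this, sg_neg e]; simp
    refine ⟨ρ' u ∘ₗ f, fun e => u2 (LinearMap.ext fun v => ?_), fun v => ?_, g4⟩
    · by_contra c
      exact app_ne c u (LinearMap.congr_fun e v)
    · exact (mem_Fx_Hm.1 (g4 z xs.z_mem) v).trans (app_mem_Neg (xs.z_comm u u1) (g3 v))
  have sc : ∀ c, c * z = z * c → ∃ d : F, Hm ρ ρ' c f = d • f := fun c hc => by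
    have h1 : ∀ k ∈ O2C z, k ∈ Fx (Hm ρ ρ') (Hm ρ ρ' c f) := fun k hk => by
      rw [mem_Fx, app_app, show k * c = c * (c⁻¹ * k * c⁻¹⁻¹) by group, ← app_app,
        f2 _ ((G.lx h).norm _ (comm_inv_left hc) k hk)]
    obtain ⟨d, hd⟩ := one_dim (W'.one l.q t1).le (mp f f2) (mt (zero f f1 f2) f0) (mp _ h1)
    refine ⟨d, sub_eq_zero.1 (zero _ (fun v => ?_) (fun k hk => ?_) (sub_eq_zero.2 hd))⟩
    · simp only [LinearMap.sub_apply, LinearMap.smul_apply, Hm_apply]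
      rw [app_app, comm_inv_left hc, ← app_app, f1, f1, map_neg, smul_neg, neg_sub_neg, neg_sub]
    · rw [mem_Fx, map_sub, map_smul, h1 k hk, f2 k hk]
  refine ⟨f, f0, f1, fun c hc => mem_Fx_Hm.1 (G.top_of_comm h f2 (fun a b ha hb => ?_) hc)⟩
  obtain ⟨d, hd⟩ := sc a ha
  obtain ⟨e, he⟩ := sc b hb
  exact comm_mem_Fx hd he

end Cfsg.Agent.Mon.Bv
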