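import Cfsg.Agent.Mon.BvStd
import Cfsg.Agent.Mon.Trace_a

/-! Points, lines and transpositions in a group of Baby Monster type. -/

set_option autoImplicit false

namespace Cfsg.Agent.Mon.Bv

open Cfsg Cfsg.Spor Cfsg.Agent.Spor Cfsg.Agent.Spor.Leech Cfsg.Agent.TT Cfsg.Agent.LES
  Cfsg.Agent.LES.Co Cfsg.Agent.Mon.LC Cfsg.Agent.Std2E Subgroup

variable {H : Type*} [Group H]

theorem mem_Q_conj {x a : H} (g : H) : g * a * g⁻¹ ∈ O2C (g * x * g⁻¹) ↔ a ∈ O2C x := by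
  rw [O2C_conj, mem_map_conj_iff]; simp [mul_assoc]

theorem eqv_conj {x a b : H} (g : H) (h : Eqv x a b) :
    Eqv (g * x * g⁻¹) (g * a * g⁻¹) (g * b * g⁻¹) :=
  h.imp (fun e => by rw [e]) fun e => by rw [e, conj_mul]

theorem eqv_conj_iff {x a b : H} (g : H) :
    Eqv (g * x * g⁻¹) (g * a * g⁻¹) (g * b * g⁻¹) ↔ Eqv x a b :=
  ⟨fun h => by simpa [mul_assoc] using eqv_conj g⁻¹ h, eqv_conj g⟩

theorem comm_conj {a b : H} (g : H) (h : a * b = b * a) :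
    g * a * g⁻¹ * (g * b * g⁻¹) = g * b * g⁻¹ * (g * a * g⁻¹) := by rw [conj_mul, conj_mul, h]

theorem transport {z : H} {R : Subgroup H} {γ : centralizer ({z} : Set H) →* Co2}
    {φ : leechPerpU → H} (d : BabyData z R γ φ) {g x : H} (e : g * z * g⁻¹ = x) :
    ∃ γ', BabyData x (O2C x) γ' fun v => g * φ v * g⁻¹ := by
  subst e
  obtain rfl : R = O2C z := le_antisymm d.lx.le_O2C d.o2
  let f : centralizer ({g * z * g⁻¹} : Set H) →* centralizer ({z} : Set H) :=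
    ((MulAut.conj g⁻¹).toMonoidHom.comp (Subgroup.subtype _)).codRestrict _ fun c =>
      mem_centralizer_singleton_iff.2 (by simpa [mul_assoc] using comm_conj g⁻¹ (MonData.comm_z c))
  have hf : ∀ c, (f c : H) = g⁻¹ * c * g := fun c => by simp [f]
  refine ⟨γ.comp f, O2C_conj g z ▸ d.lx.map_conj g, le_rfl,
    by rw [O2C_conj, card_map_conj, d.card], d.surj.comp fun c => ⟨⟨g * c * g⁻¹,
      mem_centralizer_singleton_iff.2 (comm_conj g (MonData.comm_z c))⟩,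
      Subtype.ext (by rw [hf]; simp [mul_assoc])⟩, fun c => ?_, fun v => (mem_Q_conj g).2 (d.mem v),
    fun v w => by rw [conj_mul]; exact eqv_conj g (d.add v w), fun x hx => ?_, fun v => ?_,
    fun c v w h => ?_⟩
  · rw [MonoidHom.comp_apply, d.ker, hf, ← mem_Q_conj g]; simp [mul_assoc]
  · obtain ⟨v, hv⟩ := d.onto (g⁻¹ * x * g) (by rw [← mem_Q_conj g]; simpa [mul_assoc] using hx)
    exact ⟨v, by simpa [mul_assoc] using eqv_conj g hv⟩
  · rw [← d.triv, ← eqv_conj_iff (x := z) g]; simp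
  · simpa [hf, mul_assoc] using eqv_conj g (d.conj (f c) v w h)

theorem ov_conj {z x : H} {φ : leechPerpU → H} {P : leechPerpU → Prop} (g : H) :
    Ov (g * z * g⁻¹) (fun v => g * φ v * g⁻¹) P (g * x * g⁻¹) ↔ Ov z φ P x :=
  exists_congr fun _ => and_congr_right fun _ => eqv_conj_iff g

theorem exists_fixed [Finite H] {c : H} (hc : c ^ 11 = 1) {S : Set H}
    (hS : ∀ x ∈ S, c * x * c⁻¹ ∈ S) (h : ¬ 11 ∣ S.ncard) : ∃ x ∈ S, c * x = x * c := by
  classical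
  have := Fintype.ofFinite S
  have : Fact (Nat.Prime 11) := ⟨by norm_num⟩
  let f : S → S := fun x => ⟨_, hS x x.2⟩
  let σ : Equiv.Perm S := .ofBijective f (Finite.injective_iff_bijective.1 fun a b e =>
    Subtype.ext (by simpa [f] using e))
  have key : ∀ n x, ((σ ^ n) x : H) = c ^ n * x * (c ^ n)⁻¹ := fun n => by
    induction n with
    | zero => simp
    | succ n ih =>
      intro x
      rw [pow_succ, Equiv.Perm.mul_apply, ih, pow_succ]
      change c ^ n * (c * x * c⁻¹) * _ = _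
      group
  obtain ⟨x, hx⟩ := Equiv.Perm.exists_fixed_point_of_prime (p := 11) (n := 1) (σ := σ)
    (by rwa [← Nat.card_eq_fintype_card, Nat.card_coe_set_eq])
    (Equiv.ext fun x => Subtype.ext (by rw [key, pow_one, hc]; simp))
  exact ⟨x, x.2, comm_of_conj_eq (congrArg Subtype.val hx)⟩

/-- Points and transpositions. -/
structure Geo (Pt : H → Prop) (T : H → H → Prop) : Prop where
  data : ∀ {x}, Pt x → ∃ γ φ, BabyData x (O2C x) γ φ ∧ ∀ a, T x a ↔ Ov x φ TyT a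
  conj : ∀ {x}, Pt x → ∀ y, Pt y ↔ IsConj x y
  tc : ∀ {x a} (g : H), T x a → T (g * x * g⁻¹) (g * a * g⁻¹)
  ex : ∃ x y, Pt x ∧ Pt y ∧ y ∈ O2C x ∧ y ≠ x

/-- An ordered pair of collinear points. -/
structure Ln (Pt : H → Prop) (x y : H) : Prop where
  p : Pt x
  q : Pt y
  mem : y ∈ O2C x
  ne : y ≠ x

/-- A coordinate frame at a point. -/
structure Fm (T : H → H → Prop) (x : H) (γ : centralizer ({x} : Set H) →* Co2)
    (φ : leechPerpU → H) : Prop where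
  d : BabyData x (O2C x) γ φ
  t : ∀ a, T x a ↔ Ov x φ TyT a

variable [Finite H]

theorem exists_geo {z : H} {R : Subgroup H} {γ : centralizer ({z} : Set H) →* Co2}
    {φ : leechPerpU → H} (d : BabyData z R γ φ) (hn : ∃ g, g * z * g⁻¹ ∈ R ∧ g * z * g⁻¹ ≠ z) :
    ∃ T, Geo (IsConj z) T := by
  refine ⟨fun x a => ∃ g, g * z * g⁻¹ = x ∧ Ov z φ TyT (g⁻¹ * a * g), fun {x} hx => ?_,
    fun hx y => ⟨hx.symm.trans, hx.trans⟩, fun {x a} k ⟨g, e, h⟩ => ⟨k * g, by rw [← e]; group,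
      by simpa [mul_assoc] using h⟩, ?_⟩
  · obtain ⟨g, rfl⟩ := isConj_iff.1 hx
    obtain ⟨γ', d'⟩ := transport d (g := g) rfl
    refine ⟨γ', _, d', fun a => ⟨fun ⟨k, e, h⟩ => ?_, fun h => ⟨g, rfl, (ov_conj g).1 ?_⟩⟩⟩
    · have := (ov_conj g).2 (h.conj d (.inl rfl) (k := g⁻¹ * k) (comm_of_conj_eq (by
        rw [show g⁻¹ * k * z * (g⁻¹ * k)⁻¹ = g⁻¹ * (k * z * k⁻¹) * g by group, e]; group)))
      simpa [mul_assoc] using this
    · simpa [mul_assoc] using h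
  · obtain ⟨g, a, b⟩ := hn
    exact ⟨z, _, .refl _, isConj_iff.2 ⟨g, rfl⟩, d.lx.le_O2C a, b⟩

namespace Geo

variable {Pt : H → Prop} {T : H → H → Prop} (G : Geo Pt T) {x y z s t a b : H}
include G

omit [Finite H] in
theorem fm (h : Pt x) : ∃ γ φ, Fm T x γ φ := by
  obtain ⟨γ, φ, a, b⟩ := G.data h
  exact ⟨γ, φ, a, b⟩

omit [Finite H] in
theorem lx (h : Pt x) : LX (O2C x) x := by
  obtain ⟨γ, φ, a, -⟩ := G.data h
  exact a.lx

omit [Finite H] in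
theorem xs (h : Pt x) : XS (O2C x) x := (G.lx h).toXS

omit [Finite H] in
theorem card (h : Pt x) : Nat.card (O2C x) = 2 ^ 23 := by
  obtain ⟨γ, φ, a, -⟩ := G.data h
  exact a.card

omit [Finite H] in
theorem pc (h : Pt x) (g : H) : Pt (g * x * g⁻¹) := (G.conj h _).2 (isConj_iff.2 ⟨g, rfl⟩)

omit [Finite H] in
theorem ptrans (h : Pt x) (h' : Pt y) : ∃ g, g * x * g⁻¹ = y := isConj_iff.1 ((G.conj h _).1 h')

omit [Finite H] in
theorem lc (l : Ln Pt x y) (g : H) : Ln Pt (g * x * g⁻¹) (g * y * g⁻¹) :=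
  ⟨G.pc l.p g, G.pc l.q g, (mem_Q_conj g).2 l.mem, by simpa using l.ne⟩

omit [Finite H] in
theorem lc' (l : Ln Pt x y) {g : H} (h : g * x = x * g) : Ln Pt x (g * y * g⁻¹) := by
  simpa only [conj_eq_of_comm h] using G.lc l g

omit [Finite H] in
theorem tc' (h : T x a) {g : H} (e : g * x = x * g) : T x (g * a * g⁻¹) := by
  simpa only [conj_eq_of_comm e] using G.tc g h

theorem pair (l : Ln Pt x y) : LXPair (O2C x) (O2C y) x y := by
  obtain ⟨γ, φ, d, -⟩ := G.data l.p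
  obtain ⟨g, rfl⟩ := G.ptrans l.p l.q
  exact O2C_conj g x ▸ d.pair l.mem l.ne

theorem symm (l : Ln Pt x y) : Ln Pt y x := ⟨l.q, l.p, (G.pair l).z_mem, l.ne.symm⟩

omit [Finite H] G in
theorem _root_.Cfsg.Agent.Mon.Bv.Ln.comm (l : Ln Pt x y) : y * x = x * y := comm_of_mem_O2C l.mem

omit [Finite H] in
theorem flip (l : Ln Pt x y) : ∃ q ∈ O2C x, q * y * q⁻¹ = y * x :=
  (G.xs l.p).exists_conj_eq l.mem (G.xs l.q).z_ne l.ne

omit [Finite H] in
theorem mul (l : Ln Pt x y) : Ln Pt x (y * x) := by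
  obtain ⟨q, a, b⟩ := G.flip l
  exact b ▸ G.lc' l (comm_of_mem_O2C a)

theorem mul' (l : Ln Pt x y) : Ln Pt y (y * x) := l.comm ▸ G.mul (G.symm l)

omit [Finite H] in
theorem twist {γ : centralizer ({x} : Set H) →* Co2} {φ : leechPerpU → H} (f : Fm T x γ φ) {k : H}
    (hk : k * x = x * k) : ∃ γ', Fm T x γ' fun v => k * φ v * k⁻¹ := by
  obtain ⟨γ', d⟩ := transport f.d (conj_eq_of_comm hk)
  refine ⟨γ', d, fun a => ?_⟩
  have := ov_conj (z := x) (x := k⁻¹ * a * k) (φ := φ) (P := TyT) k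
  simp only [conj_eq_of_comm hk, mul_assoc, mul_inv_cancel_left, mul_inv_cancel, mul_one] at this
  simp only [mul_assoc, this, ← f.t]
  exact ⟨fun h => by simpa [mul_assoc] using G.tc' h (comm_inv_left hk),
    fun h => by simpa [mul_assoc] using G.tc' h hk⟩

theorem ln_iff {γ : centralizer ({x} : Set H) →* Co2} {φ : leechPerpU → H} (f : Fm T x γ φ)
    (h : Pt x) : Ln Pt x y ↔ Ov x φ TyB y := by
  have key : ∀ {y}, Ln Pt x y → Ov x φ TyB y := fun {y} l => by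
    obtain ⟨k, a, b⟩ := f.d.exists_conj_U' (G.pair l) (G.card l.q) (Eqv.refl _ _)
    have := Ov.conj f.d (.inr rfl) (x := φ uP)
      ⟨uP, ⟨sqNorm_leechU', dot_leechU_leechU'⟩, Eqv.refl _ _⟩ (comm_inv_left a)
    rw [← b] at this
    simpa [mul_assoc] using this
  refine ⟨key, fun e => ?_⟩
  obtain ⟨a, b, h1, h2, h3, h4⟩ := G.ex
  obtain ⟨g, rfl⟩ := G.ptrans h1 h
  have l := G.lc ⟨h1, h2, h3, h4⟩ g
  obtain ⟨k, c, rfl⟩ := transB f.d (key l) e
  exact G.lc' l c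

omit [Finite H] in
theorem exists_ln (h : Pt x) : ∃ y, Ln Pt x y := by
  obtain ⟨a, b, h1, h2, h3, h4⟩ := G.ex
  obtain ⟨g, rfl⟩ := G.ptrans h1 h
  exact ⟨_, G.lc ⟨h1, h2, h3, h4⟩ g⟩

theorem exists_std (l : Ln Pt z s) : ∃ γ φ, Fm T z γ φ ∧ Std z s (O2C z) (O2C s) γ φ := by
  obtain ⟨γ, φ, f⟩ := G.fm l.p
  obtain ⟨k, a, b⟩ := f.d.exists_conj_U' (G.pair l) (G.card l.q) (Eqv.refl _ _)
  obtain ⟨γ', f'⟩ := G.twist f (comm_inv_left a)
  exact ⟨γ', _, f', f'.d, G.pair l, G.card l.q, .inl (by simp [← b, mul_assoc])⟩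

theorem transL (l : Ln Pt x y) (l' : Ln Pt x s) : ∃ k, k * x = x * k ∧ k * y * k⁻¹ = s := by
  obtain ⟨γ, φ, f⟩ := G.fm l.p
  exact transB f.d ((G.ln_iff f l.p).1 l) ((G.ln_iff f l.p).1 l')

theorem transLL (l : Ln Pt x y) (l' : Ln Pt z s) : ∃ g, g * x * g⁻¹ = z ∧ g * y * g⁻¹ = s := by
  obtain ⟨g, rfl⟩ := G.ptrans l.p l'.p
  obtain ⟨k, a, b⟩ := G.transL (G.lc l g) l'
  exact ⟨k * g, by rw [← conj_eq_of_comm a]; group, by rw [← b]; group⟩

theorem transT (h : Pt x) (ha : T x a) (hb : T x b) : ∃ k, k * x = x * k ∧ k * a * k⁻¹ = b := by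
  obtain ⟨γ, φ, f⟩ := G.fm h
  exact Std2E.transT f.d ((f.t _).1 ha) ((f.t _).1 hb)

theorem tne (h : Pt x) (ha : T x a) : a ∈ O2C x ∧ a * a = 1 ∧ a ≠ 1 ∧ a ≠ x := by
  obtain ⟨γ, φ, f⟩ := G.fm h
  exact ov_ne f.d (.inl rfl) ((f.t _).1 ha)

omit [Finite H] in
theorem teqv (h : Pt x) (ha : T x a) (e : Eqv x b a) : T x b := by
  obtain ⟨γ, φ, f⟩ := G.fm h
  obtain ⟨v, a, b⟩ := (f.t _).1 ha
  exact (f.t _).2 ⟨v, a, e.trans f.d.lx.z_sq b⟩

omit [Finite H] in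
theorem notTT (h : Pt x) (ha : T x a) (hb : T x b) : ¬ T x (a * b) := by
  obtain ⟨γ, φ, f⟩ := G.fm h
  simp only [f.t] at ha hb ⊢
  exact Bv.notTT f.d ha hb

theorem notT (l : Ln Pt x y) : ¬ T x y := fun h => by
  obtain ⟨γ, φ, f⟩ := G.fm l.p
  exact not_TB f.d ((f.t _).1 h) ((G.ln_iff f l.p).1 l)

theorem exists_odd (h : Pt z) (hs : s ∈ O2C z) (h1 : s ≠ 1) (h2 : s ≠ z) {r : H} (hr : r ∈ O2C z)
    (r1 : r ≠ 1) (r2 : r ≠ z) : ∃ k, k * z = z * k ∧ s * (k * r * k⁻¹) ≠ k * r * k⁻¹ * s := by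
  obtain ⟨γ, φ, f⟩ := G.fm h
  exact Bv.exists_odd f.d hs h1 h2 hr r1 r2

theorem exists_odd_ln (h : Pt z) (ht : T z t) : ∃ y, Ln Pt z y ∧ t * y ≠ y * t := by
  obtain ⟨s, l⟩ := G.exists_ln h
  obtain ⟨a, -, b, c⟩ := G.tne h ht
  obtain ⟨k, d, e⟩ := G.exists_odd h a b c l.mem (G.xs l.q).z_ne l.ne
  exact ⟨_, G.lc' l d, e⟩

omit [Finite H] in
theorem top_of_comm (h : Pt z) {K : Subgroup H} (h1 : O2C z ≤ K)
    (h2 : ∀ a b, a * z = z * a → b * z = z * b → a⁻¹ * b⁻¹ * a * b ∈ K) {c : H}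
    (hc : c * z = z * c) : c ∈ K := by
  obtain ⟨γ, φ, f⟩ := G.fm h
  exact Bv.top_of_comm f.d h1 h2 hc

theorem gen_T (l : Ln Pt z y) (ht : T z t) (e : t * y ≠ y * t) {K : Subgroup H}
    (h1 : ∀ q ∈ O2C z, q * t = t * q → q ∈ K)
    (h2 : ∀ a b, a * z = z * a → b * z = z * b → a * t = t * a → b * t = t * b →
      a⁻¹ * b⁻¹ * a * b ∈ K) (h3 : ∀ c, c * z = z * c → c * t = t * c → c * y = y * c → c ∈ K)
    {c : H} (cz : c * z = z * c) (ct : c * t = t * c) : c ∈ K := by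
  obtain ⟨γ, φ, f⟩ := G.fm l.p
  obtain ⟨k, a, b⟩ := G.transT l.p ((f.t _).2 ⟨xP, ⟨sqNorm_x16, dot_U_x16⟩, Eqv.refl _ _⟩) ht
  obtain ⟨γ', f'⟩ := G.twist f a
  exact Bv.gen_T f'.d (.inl b.symm) ((G.ln_iff f' l.p).1 l) e h1 h2 h3 cz ct

theorem gen_C (l : Ln Pt z s) {K : Subgroup H}
    (h1 : ∀ c, c * z = z * c → Eqv z (c * s * c⁻¹) s → c ∈ K) (xK : x ∈ K) (xz : x * z = z * x)
    (xs : ¬ Eqv z (x * s * x⁻¹) s) {c : H} (cz : c * z = z * c) : c ∈ K := by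
  obtain ⟨γ, φ, -, h⟩ := G.exists_std l
  exact h.gen_C h1 xK xz xs cz

theorem E_le (l : Ln Pt z s) {K : Subgroup H} (hz : z ∈ K)
    (hK : ∀ y ∈ O2C s, Ln Pt z y → y ∈ K) : O2C z ⊓ O2C s ≤ K := by
  obtain ⟨γ, φ, f, h⟩ := G.exists_std l
  exact h.E_le hz (hK s (G.xs l.q).z_mem l) fun y a b => hK y a ((G.ln_iff f l.p).2 b)

theorem card_E (l : Ln Pt z s) : Nat.card (O2C z ⊓ O2C s : Subgroup H) = 2 ^ 12 := by
  obtain ⟨γ, φ, f⟩ := G.fm l.p
  exact f.d.card_E (G.pair l) (G.card l.q)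

theorem cent_E (l : Ln Pt z s) (ha : a ∈ O2C z) (h : ∀ e ∈ O2C z ⊓ O2C s, e * a = a * e) :
    a ∈ O2C s := by
  have h1 := (G.xs l.p).card_mul_card_centralizer (A := O2C z ⊓ O2C s) inf_le_left
    ⟨(G.xs l.p).z_mem, (G.symm l).mem⟩
  rw [G.card_E l, G.card l.p] at h1
  exact ((eq_of_le_of_card_ge (H := O2C z ⊓ O2C s) (K := O2C z ⊓ centralizer _)
    (fun x hx => ⟨hx.1, fun y hy => E_comm (G.pair l) hy hx⟩) (by rw [G.card_E l]; omega)).ge
    ⟨ha, h⟩).2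

theorem third (l : Ln Pt x y) (h1 : a ∈ O2C x) (h2 : a ∈ O2C y) : a ∈ O2C (y * x) := by
  obtain ⟨q, b, c⟩ := G.flip l
  exact Eqv.mem (G.symm (G.mul l)).mem (c ▸ (mem_Q_conj q).2 h2)
    (Eqv.symm (G.xs l.p).z_sq ((G.xs l.p).conj b h1))

theorem third' (l : Ln Pt x y) (h1 : a ∈ O2C x) (h2 : a ∈ O2C (y * x)) : a ∈ O2C y := by
  simpa only [(G.xs l.p).mul_z_z] using G.third (G.mul l) h1 h2

theorem free (l : Ln Pt z s) {q w : H} (hq : q ∈ O2C z) (hw : w ∈ O2C s) (e : w * z ≠ z * w)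
    (h : q * w * q⁻¹ * w⁻¹ ∈ O2C z) : q ∈ O2C s := by
  have h1 : w⁻¹ * z * w⁻¹⁻¹ = z * s := (G.xs l.q).conj_of_ne (inv_mem hw) (G.symm l).mem
    fun a => e (by simpa using comm_inv_left a)
  have h2 := (mem_Q_conj w⁻¹).2 (mul_mem (inv_mem hq) h)
  rw [h1, ← l.comm] at h2
  exact G.third' l hq (by simpa [mul_assoc] using inv_mem h2)

theorem not_four (l : Ln Pt x y) (h : T x a) : ¬ (a = 1 ∨ a = x ∨ a = y ∨ a = y * x) := by
  obtain ⟨-, -, b, c⟩ := G.tne l.p h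
  rintro (e | e | e | e)
  exacts [b e, c e, G.notT l (e ▸ h), G.notT (G.mul l) (e ▸ h)]

theorem exists_nc (l : Ln Pt x y) (ha : a ∈ O2C x) (h : ¬ (a = 1 ∨ a = x ∨ a = y ∨ a = y * x)) :
    ∃ q ∈ O2C x, q * y = y * q ∧ q * a * q⁻¹ = a * x := by
  have := mt ((G.xs l.p).eq_of_comm_centralizer l.mem ha) h
  push Not at this
  obtain ⟨q, b, c, d⟩ := this
  exact ⟨q, b, c, (G.xs l.p).conj_of_ne b ha d⟩

theorem tmul (l : Ln Pt x y) (ha : a ∈ O2C y) (h : T x a) : T x (a * y) := by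
  obtain ⟨q, -, c, d⟩ := G.exists_nc (G.symm l) ha (by rw [← l.comm]; have := G.not_four l h; tauto)
  exact d ▸ G.tc' h c

theorem swap (l : Ln Pt x y) : ∃ τ ∈ O2C (y * x), τ * x * τ⁻¹ = y ∧ τ * y * τ⁻¹ = x := by
  obtain ⟨q, a, b⟩ := G.flip (G.symm (G.mul l))
  rw [l.comm, ← mul_assoc, (G.xs l.p).z_sq, one_mul] at b
  refine ⟨q, a, b, ?_⟩
  have := conj_eq_of_comm (comm_of_mem_O2C a)
  rw [← conj_mul, b, l.comm] at this
  exact mul_right_cancel this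

theorem tswap (l : Ln Pt x y) (ha : a ∈ O2C y) (h : T x a) : T y a := by
  obtain ⟨τ, b, c, -⟩ := G.swap l
  have h1 := (G.tne l.p h).1
  have h2 := c ▸ G.tc τ h
  rcases (G.xs (G.mul l).q).conj b (G.third l h1 ha) with e | e <;> rw [e] at h2
  · exact h2
  · refine G.teqv l.q (G.tmul (G.symm l) (mul_mem h1 (G.mul l).mem) h2) (.inr ?_)
    rw [← mul_assoc, (G.xs l.p).mul_z_z, (G.xs l.q).mul_z_z]

theorem cent_eleven (l : Ln Pt z s) {c : H} (hc : c ^ 11 = 1) (h0 : c ∉ O2C z) (cz : c * z = z * c)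
    (cs : c * s = s * c) (hy : y ∈ O2C z) (ys : y * s = s * y) (yc : y * c = c * y) :
    y = 1 ∨ y = z ∨ y = s ∨ y = z * s := by
  have p := G.pair l
  have hE := G.card_E l
  have nE : ∀ e ∈ O2C z ⊓ O2C s, c * e * c⁻¹ ∈ O2C z ⊓ O2C s := fun e he =>
    ⟨p.hQ.norm c cz e he.1, p.hP.norm c cs e he.2⟩
  have dif : ∀ {K : Subgroup H}, K ≤ O2C z ⊓ O2C s →
      (((O2C z ⊓ O2C s : Subgroup H) : Set H) \ K).ncard = 2 ^ 12 - Nat.card K := fun hK => by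
    rw [Set.ncard_sdiff hK, ← hE]; rfl
  have two : ∀ {K : Subgroup H}, K ≤ O2C z ⊓ O2C s → ∃ k ≤ 12, Nat.card K = 2 ^ k := fun hK =>
    (Nat.dvd_prime_pow Nat.prime_two).1 (hE ▸ card_dvd_of_le hK)
  have h1 : (O2C z ⊓ O2C s) ⊓ centralizer {c} = closure {z, s} := by
    have hV : closure {z, s} ≤ (O2C z ⊓ O2C s) ⊓ centralizer {c} := le_inf p.V_le (by
      rw [closure_le]
      rintro x (rfl | rfl) <;> exact mem_centralizer_singleton_iff.2 (by simp [cz, cs]))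
    have h4 : Nat.card (closure ({z, s} : Set H)) = 4 := by
      have a := p.hQ.z_ne
      have b := p.hP.z_ne
      have d : z * s ≠ 1 := fun e => l.ne (by rw [eq_inv_of_mul_eq_one_right e, p.hQ.toXS.z_inv])
      rw [← SetLike.coe_sort_coe, Nat.card_coe_set_eq, show (closure ({z, s} : Set H) : Set H) =
        {1, z, s, z * s} from Set.ext fun _ => p.mem_V]
      exact Set.ncard_eq_four.2 ⟨1, z, s, z * s, a.symm, b.symm, d.symm, l.ne.symm, by simpa using b,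
        by simpa using a, rfl⟩
    obtain ⟨k, k1, k2⟩ := two (K := (O2C z ⊓ O2C s) ⊓ centralizer {c}) inf_le_left
    have : 11 ∣ 2 ^ 12 - 2 ^ k := by
      by_contra a
      obtain ⟨x, b, d⟩ := exists_fixed hc (S := ((O2C z ⊓ O2C s : Subgroup H) : Set H) \
        ((O2C z ⊓ O2C s) ⊓ centralizer {c} : Subgroup H)) (fun x hx => ⟨nE x hx.1, fun e => hx.2
          ⟨hx.1, mem_centralizer_singleton_iff.2 (by
            simpa [mul_assoc] using comm_conj c⁻¹ (mem_centralizer_singleton_iff.1 e.2))⟩⟩)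
        (by rwa [dif inf_le_left, k2])
      exact b.2 ⟨b.1, mem_centralizer_singleton_iff.2 d.symm⟩
    obtain rfl | rfl : k = 2 ∨ k = 12 := by interval_cases k <;> simp at this ⊢
    · exact (eq_of_le_of_card_ge hV (by omega)).symm
    · have hC := eq_of_le_of_card_ge (inf_le_left (a := O2C z ⊓ O2C s) (b := centralizer {c}))
        (by omega)
      have hC' : ∀ e ∈ O2C z ⊓ O2C s, e * c = c * e := fun e he =>
        mem_centralizer_singleton_iff.1 (hC.ge he).2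
      refine absurd (p.hQ.cent_mem c fun x hx => ?_) h0
      have h2 : x⁻¹ * (c * x * c⁻¹) ∈ O2C z ⊓ O2C s := by
        have a := mul_mem (inv_mem hx) (p.hQ.norm c cz x hx)
        refine ⟨a, G.cent_E l a fun e he => ?_⟩
        rw [← sg_eq_one, sg_mul' p.hQ.toXS (inv_mem hx) (p.hQ.norm c cz x hx) he.1,
          ← conj_eq_of_comm (hC' e he).symm, sg_conj, conj_eq_of_comm (hC' e he).symm,
          ← sg_mul' p.hQ.toXS (inv_mem hx) hx he.1, sg_pos (by simp)]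
      have h3 : Commute (c * c) x := comm_of_conj_eq (by
        obtain ⟨e, he, a⟩ : ∃ e ∈ O2C z ⊓ O2C s, c * x * c⁻¹ = x * e := ⟨_, h2, by group⟩
        rw [show c * c * x * (c * c)⁻¹ = c * (c * x * c⁻¹) * c⁻¹ by group, a, ← conj_mul, a,
          conj_eq_of_comm (hC' e he).symm, mul_assoc, E_sq p he, mul_one])
      have := h3.pow_left 6
      rw [← sq, ← pow_mul, show 2 * 6 = 11 + 1 from rfl, pow_succ, hc, one_mul] at this
      exact this.symm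
  refine p.mem_V.1 (h1.le ⟨⟨hy, G.cent_E l hy ?_⟩, mem_centralizer_singleton_iff.2 yc⟩)
  by_contra a
  obtain ⟨k, k1, k2⟩ := two (K := (O2C z ⊓ O2C s) ⊓ centralizer {y}) inf_le_left
  obtain ⟨x, b, d⟩ := exists_fixed hc (S := ((O2C z ⊓ O2C s : Subgroup H) : Set H) \
    ((O2C z ⊓ O2C s) ⊓ centralizer {y} : Subgroup H)) (fun x hx => ⟨nE x hx.1, fun e => hx.2
      ⟨hx.1, mem_centralizer_singleton_iff.2 (by
        have := comm_conj c⁻¹ (mem_centralizer_singleton_iff.1 e.2)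
        rw [conj_eq_of_comm (comm_inv_left yc.symm)] at this
        simpa [mul_assoc] using this)⟩⟩) (by
    have b := card_le_two_mul_of_mul_mem (inf_le_left (a := O2C z ⊓ O2C s) (b := centralizer {y}))
      fun u hu v hv u1 v1 => ⟨mul_mem hu hv, mem_centralizer_singleton_iff.2
        (p.hQ.toXS.mul_comm_of_not_comm hy hu.1 hv.1
          (fun e => u1 ⟨hu, mem_centralizer_singleton_iff.2 e⟩)
          fun e => v1 ⟨hv, mem_centralizer_singleton_iff.2 e⟩)⟩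
    have d : k ≠ 12 := fun e => a fun u hu => mem_centralizer_singleton_iff.1
      ((eq_of_le_of_card_ge (inf_le_left (a := O2C z ⊓ O2C s) (b := centralizer {y}))
        (by rw [hE, k2, e])).ge hu).2
    rw [hE, k2] at b
    rw [dif inf_le_left, k2]
    interval_cases k <;> simp at b d ⊢)
  refine b.2 ⟨b.1, mem_centralizer_singleton_iff.2 ?_⟩
  rcases p.mem_V.1 (h1.le ⟨b.1, mem_centralizer_singleton_iff.2 d.symm⟩) with e | e | e | e <;>
    rw [e]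
  · simp
  · exact (comm_of_mem_O2C hy).symm
  · exact ys.symm
  · exact comm_mul_left (comm_of_mem_O2C hy).symm ys.symm

theorem eleven (l : Ln Pt z s) : ∃ t c : H, T z t ∧ s * t ≠ t * s ∧ c ^ 11 = 1 ∧ c * z = z * c ∧
    c * s = s * c ∧ (∀ w ∈ O2C z, s * w ≠ w * s → c * w = w * c → Eqv z w t ∨ Eqv z w (t * s)) ∧
    ∀ w, Eqv z w (t * s) → ∃ k, k * z = z * k ∧ s * (k * w * k⁻¹) ≠ k * w * k⁻¹ * s ∧
      ¬ T z (k * w * k⁻¹ * s) := by
  obtain ⟨γ, φ, f, h⟩ := G.exists_std l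
  obtain ⟨a, b, c, c1, c2, c3, c4, c5⟩ := h.exists_eleven
  refine ⟨_, c, (f.t _).2 a, b, c1, c3, c4, fun w hw w1 w2 => ?_, fun w hw => ?_⟩
  · have m := inv_mem (f.d.mem vO)
    rcases G.cent_eleven l c1 c2 c3 c4 (mul_mem m hw) (f.d.lx.toXS.mul_comm_of_not_comm l.mem m hw
      (fun e => b (by simpa using (comm_inv_left e).symm)) w1.symm)
      (comm_mul_left (comm_inv_left c5.symm) w2.symm) with e | e | e | e <;>
      rw [inv_mul_eq_iff_eq_mul] at e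
    exacts [.inl (.inl (by simpa using e)), .inl (.inr e), .inr (.inl e),
      .inr (.inr (by rw [e, ← l.comm, mul_assoc]))]
  · simpa only [f.t] using h.exists_hs hw

omit [Finite H] in
open Classical in
theorem count (h : Pt x) : ∃ (S : Finset leechPerpU) (t : leechPerpU → H), S.card = 4600 ∧
    (∀ i ∈ S, T x (t i)) ∧ ∀ i ∈ S, (S.filter fun j => Eqv x (t j) (t i)).card ≤ 2 := by
  obtain ⟨γ, φ, f⟩ := G.fm h
  have h1 : {v : leechPerpU | TyT v}.ncard = 4600 := by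
    rw [← Tr.count_16 sqNorm_leechU, ← Set.ncard_image_of_injective _ Subtype.val_injective]
    congr 1
    ext v
    exact ⟨fun ⟨w, a, b⟩ => b ▸ a, fun a => ⟨⟨v, S16.perp ⟨a.1, a.2⟩⟩, a, rfl⟩⟩
  have h2 : {v : leechPerpU | TyT v}.Finite := Set.finite_of_ncard_ne_zero (by omega)
  refine ⟨h2.toFinset, φ, by rw [← Set.ncard_eq_toFinset_card _ h2, h1], fun i hi =>
    (f.t _).2 ⟨i, by simpa using hi, Eqv.refl _ _⟩, fun i hi => ?_⟩
  have a : S16 i := s16_iff.2 (h2.mem_toFinset.1 hi)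
  refine (Finset.card_le_card (t := {i, ⟨_, a.sub.perp⟩}) fun j hj => ?_).trans Finset.card_le_two
  simp only [Finset.mem_filter, Set.Finite.mem_toFinset] at hj
  rw [Finset.mem_insert, Finset.mem_singleton, Subtype.ext_iff, Subtype.ext_iff (a1 := j)]
  exact S16.eq_of_congr (s16_iff.2 hj.1) a (f.d.eqv_iff.1 hj.2)

theorem sep (l : Ln Pt z s) : ∃ (S : Finset GolayPt) (t : GolayPt → H), S.card = 22 ∧
    (∀ k ∈ S, T z (t k) ∧ t k ∈ O2C s) ∧ ∀ k ∈ S, ∀ m ∈ S,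
      (∀ p ∈ O2C s ⊓ centralizer {z}, sg p (t m) = sg p (t k)) → m = k := by
  classical
  obtain ⟨γ, φ, f, h⟩ := G.exists_std l
  have o : ∀ k ∈ (Finset.univ \ {none, some 0} : Finset GolayPt), Out k := fun k hk => by
    simpa [Out] using hk
  exact ⟨_, fun k => φ (w44 none k 4 rfl), by
    rw [Finset.card_univ_sdiff, Leech.card_golayPt]; rfl, fun k hk => ⟨(f.t _).2 ⟨_, tyT_w44 (o k hk),
    Eqv.refl _ _⟩, h.four_mem (w44_four _ _ _ _)⟩, fun k hk m hm => h.sep (o k hk) (o m hm)⟩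

theorem plane (l : Ln Pt z s) : ∃ y a, Ln Pt z y ∧ Ln Pt s y ∧ y ≠ s * z ∧ T z a ∧ a ∈ O2C s ∧
    a ∈ O2C y ∧ ∀ K : Subgroup H, O2C z ≤ K → O2C s ⊓ centralizer {z} ≤ K →
      (∀ n x, n * z = z * n → n * s = s * n → x * z = z * x → x * s = s * x →
        x * (n * y * n⁻¹) = n * y * n⁻¹ * x → x ∈ K) →
      ∀ c, c * z = z * c → Eqv z (c * s * c⁻¹) s → c ∈ K := by
  obtain ⟨γ, φ, f, h⟩ := G.exists_std l
  have o1 : Out (some 1) := by simp only [Out]; decide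
  have o2 : Out (some 2) := by simp only [Out]; decide
  have l1 := (G.ln_iff f l.p).2 ⟨_, tyB_w44 o1 o2 (by decide) rfl (.inl rfl), Eqv.refl _ _⟩
  have n := h.ne_s o1 o2 (by decide) (hb := rfl) (.inl rfl) (Eqv.refl _ _)
  have m : φ xP ∈ O2C s := h.four_mem (w44_four none (some 1) 4 rfl)
  obtain ⟨k, k1, k2, k3⟩ := h.conj_TR (v := w44 (some 1) (some 2) 4 rfl)
    (by simp only [TR]; decide) (Eqv.refl _ _) (Eqv.refl _ _)
  exact ⟨_, φ xP, l1, ⟨l.q, l1.q, h.four_mem (w44_four _ _ _ _), fun e => n (.inl e)⟩,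
    fun e => n (.inr e), (f.t _).2 ⟨xP, ⟨sqNorm_x16, dot_U_x16⟩, Eqv.refl _ _⟩, m,
    (mem_Q_conj k).1 (k2 ▸ k3.mem (G.symm l).mem m), fun K a b c d e g =>
      h.gen_N (Eqv.refl _ _) a b c e g⟩

end Geo

end Cfsg.Agent.Mon.Bv
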