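import Cfsg.Agent.Std2E.Typ
import Cfsg.Agent.Std2E.LocL
import Cfsg.Agent.MonU.BqC
import Cfsg.Agent.Mon.BvEig

/-! A standard line of `2B` involutions in a group of Baby Monster type. -/

set_option autoImplicit false

namespace Cfsg.Agent.Mon.Bv

open Cfsg Cfsg.Spor Cfsg.Agent.Spor Cfsg.Agent.Spor.Leech Cfsg.Agent.TT Cfsg.Agent.LES
  Cfsg.Agent.LES.Co Cfsg.Agent.Mon.LC Cfsg.Agent.Std2E Subgroup
open Cfsg.Agent.MonU.BL (Cg)

theorem eq_top_of_perfect {X L : Type*} [Group X] [Group L] (f : X →* L)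
    (hf : Function.Surjective f) (hL : commutator L = ⊤) {M : Subgroup X} (h1 : f.ker ≤ M)
    (h2 : ∀ a b, a⁻¹ * b⁻¹ * a * b ∈ M) : M = ⊤ := by
  have h3 : commutator X ≤ M := commutator_le.2 fun a _ b _ => by
    simpa [commutatorElement_def] using h2 a⁻¹ b⁻¹
  have h4 := map_mono (f := f) h3
  rw [map_commutator_eq, MonoidHom.range_eq_top.2 hf, ← commutator_def, hL, top_le_iff] at h4
  rw [← comap_map_eq_self h1, h4, comap_top]

theorem not_cg_T {v w r : leechLattice} (hv : S16 v) (hw : S16 w) (hr : S16 r) : ¬ Cg (v + w) r := by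
  intro e
  have a : nm v = 32 := hv.1
  have b : nm w = 32 := hw.1
  have c : nm r = 32 := hr.1
  have a' : dt leechU v = 16 := hv.2
  have b' : dt leechU w = 16 := hw.2
  have c' : dt leechU r = 16 := hr.2
  have key : ∀ x, nm x ≤ 64 → Cg x r → dt leechU x = 16 ∨ dt leechU x = -16 := fun x h f => by
    rcases TA.cg_eq f.symm c h with g | g
    · rw [← g]; exact .inl c'
    · rw [g, dt_neg_right] at c'; omega
  by_cases h : 0 ≤ dt v w
  · have := key (v - w) (by rw [nm_sub]; omega) ((TA.cg_sub v w).symm.trans e)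
    rw [dt_sub_right] at this; omega
  · have := key (v + w) (by rw [nm_add]; omega) e
    rw [dt_add_right] at this; omega

theorem perp4 {v : leechLattice} (h : ∀ i, (v : GolayPt → ℤ) i % 4 = 0) : v ∈ leechPerpU := by
  have a := h none; have b := h (some 0)
  rw [BabyData.mem_perp, dot_leechU]; omega

theorem v44_apply (p q : GolayPt) (b : ℤ) (hb : b % 8 = 4) (i : GolayPt) :
    (v44 p q b hb : GolayPt → ℤ) i = (if i = p then 4 else 0) + if i = q then b else 0 := by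
  simp [v44, Pi.single_apply]

theorem v44_four (p q : GolayPt) (b : ℤ) (hb : b % 8 = 4) (i : GolayPt) :
    (v44 p q b hb : GolayPt → ℤ) i % 4 = 0 := by rw [v44_apply]; split_ifs <;> omega

/-- The vectors of shape `(4, ±4)`. -/
def w44 (p q : GolayPt) (b : ℤ) (hb : b % 8 = 4) : leechPerpU := ⟨_, perp4 (v44_four p q b hb)⟩

theorem w44_four (p q : GolayPt) (b : ℤ) (hb : b % 8 = 4) (i : GolayPt) :
    ((w44 p q b hb : leechLattice) : GolayPt → ℤ) i % 4 = 0 := v44_four p q b hb i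

theorem c1 : setOf' 7221256 ∈ GC := setOf'_mem_codeSets (by decide +kernel)

theorem c2 : setOf' 7438406 ∈ GC := setOf'_mem_codeSets (by decide +kernel)

/-- The standard cross. -/
abbrev uP : leechPerpU := ⟨leechU', U'_mem_perp⟩

/-- A point outside the support of `u`. -/
def Out (k : GolayPt) : Prop := k ≠ none ∧ k ≠ some 0

theorem nm_v44 {p q : GolayPt} (h : p ≠ q) {b : ℤ} (hb : b % 8 = 4) (h4 : b = 4 ∨ b = -4) :
    nm (v44 p q b hb) = 32 :=
  (sqNorm_single_add_single h _ _).trans (by rcases h4 with rfl | rfl <;> rfl)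

theorem tyB_w44 {k l : GolayPt} (hk : Out k) (hl : Out l) (h : k ≠ l) {b : ℤ} (hb : b % 8 = 4)
    (h4 : b = 4 ∨ b = -4) : TyB (w44 k l b hb) :=
  ⟨nm_v44 h hb h4, by
    change dt leechU (v44 k l b hb) = 0
    rw [dt_comm, dt, dot_leechU, v44_apply, v44_apply]
    simp [hk.1.symm, hk.2.symm, hl.1.symm, hl.2.symm]⟩

theorem tyT_w44 {k : GolayPt} (hk : Out k) : TyT (w44 none k 4 rfl) :=
  ⟨nm_v44 hk.1.symm rfl (.inl rfl), by
    change dt leechU (v44 none k 4 rfl) = 16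
    rw [dt_comm, dt, dot_leechU, v44_apply, v44_apply]
    simp [hk.1.symm, hk.2.symm]⟩

theorem perm_v44 (σ : M24) (p q : GolayPt) (b : ℤ) (hb : b % 8 = 4) :
    permHom σ • v44 p q b hb = v44 (σ • p) (σ • q) b hb :=
  Subtype.ext (funext fun m => by
    simp only [permHom_smul, v44_apply, Equiv.symm_apply_eq]; rfl)

theorem U_eq : leechU = v44 none (some 0) 4 rfl := by decide

theorem U'_eq : leechU' = v44 none (some 0) (-4) rfl := by decide

/-- `σ` preserves the support of `u`. -/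
def Pres (σ : M24) : Prop :=
  σ • (none : GolayPt) = none ∧ σ • (some 0 : GolayPt) = some 0 ∨
    σ • (none : GolayPt) = some 0 ∧ σ • (some 0 : GolayPt) = none

theorem Pres.u {σ : M24} (h : Pres σ) :
    permHom σ • leechU = leechU ∧ Cg (permHom σ • leechU') leechU' := by
  rw [U_eq, U'_eq, perm_v44, perm_v44]
  rcases h with ⟨a, b⟩ | ⟨a, b⟩ <;> rw [a, b]
  · exact ⟨rfl, Cg.refl _⟩
  · exact ⟨by decide, -leechU', by decide⟩

theorem exists_five {a b c d p a' b' c' d' q : GolayPt} (h : [a, b, c, d, p].Nodup)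
    (h' : [a', b', c', d', q].Nodup) :
    ∃ σ : M24, σ • a = a' ∧ σ • b = b' ∧ σ • c = c' ∧ σ • d = d' ∧ σ • p = q := by
  obtain ⟨σ, e⟩ := M24C.exists_map_tuple (k := 5) le_rfl [a, b, c, d, p].get [a', b', c', d', q].get
    (List.nodup_iff_injective_get.1 h) (List.nodup_iff_injective_get.1 h')
  exact ⟨σ, e 0, e 1, e 2, e 3, e 4⟩

theorem exists_fresh (l : List GolayPt) (h : l.length < 24) : ∃ x, x ∉ l := by
  classical
  by_contra hc
  push Not at hc
  have := (Finset.card_le_card (s := Finset.univ) (t := l.toFinset) fun x _ => by simp [hc x]).trans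
    l.toFinset_card_le
  rw [Finset.card_univ, Leech.card_golayPt] at this
  omega

theorem exists_four {k l k' l' : GolayPt} (hk : Out k) (hl : Out l) (h : k ≠ l) (hk' : Out k')
    (hl' : Out l') (h' : k' ≠ l') {a b : GolayPt} (ha : a = none ∧ b = some 0 ∨ a = some 0 ∧ b = none) :
    ∃ σ : M24, σ • (none : GolayPt) = a ∧ σ • (some 0 : GolayPt) = b ∧ σ • k = k' ∧ σ • l = l' := by
  obtain ⟨p, hp⟩ := exists_fresh [none, some 0, k, l, k', l'] (by simp)
  simp only [List.mem_cons, not_or] at hp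
  obtain ⟨σ, e⟩ := exists_five (a := none) (b := some 0) (c := k) (d := l) (p := p) (a' := a)
    (b' := b) (c' := k') (d' := l') (q := p) (by
      simp [h, hk.1.symm, hk.2.symm, hl.1.symm, hl.2.symm, Ne.symm hp.1, Ne.symm hp.2.1,
        Ne.symm hp.2.2.1, Ne.symm hp.2.2.2.1]) (by
      rcases ha with ⟨rfl, rfl⟩ | ⟨rfl, rfl⟩ <;>
      simp [h', hk'.1.symm, hk'.2.symm, hl'.1.symm, hl'.2.symm, Ne.symm hp.1, Ne.symm hp.2.1,
        Ne.symm hp.2.2.2.2.1, Ne.symm hp.2.2.2.2.2.1])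
  exact ⟨σ, e.1, e.2.1, e.2.2.1, e.2.2.2.1⟩

/-- The stabiliser of the support of `u` is generated by two-point stabilisers. -/
theorem pres_mem {K : Subgroup M24} (hK : ∀ σ k l, Pres σ → Out k → Out l → k ≠ l → σ • k = k →
    σ • l = l → σ ∈ K) {σ : M24} (h : Pres σ) : σ ∈ K := by
  have o1 : Out (some 1) := by simp only [Out]; decide
  have o2 : Out (some 2) := by simp only [Out]; decide
  have n12 : (some 1 : GolayPt) ≠ some 2 := by decide
  have step : ∀ σ : M24, σ • (none : GolayPt) = none → σ • (some 0 : GolayPt) = some 0 →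
      ∀ a x p, Out a → Out x → Out p → a ≠ x → a ≠ p → a ≠ σ • p → x ≠ p → x ≠ σ • p →
      ∃ τ ∈ K, (τ * σ) • (none : GolayPt) = none ∧ (τ * σ) • (some 0 : GolayPt) = some 0 ∧
        τ • a = a ∧ (τ * σ) • p = p := fun σ e1 e2 a x p ha hx hp n1 n2 n3 n4 n5 => by
    have hq : Out (σ • p) := ⟨fun e => hp.1 (smul_left_cancel σ (e.trans e1.symm)),
      fun e => hp.2 (smul_left_cancel σ (e.trans e2.symm))⟩
    obtain ⟨τ, f1, f2, f3, f4, f5⟩ := exists_five (a := none) (b := some 0) (c := a) (d := x)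
      (p := σ • p) (a' := none) (b' := some 0) (c' := a) (d' := x) (q := p)
      (by simp [n1, n3, n5, ha.1.symm, ha.2.symm, hx.1.symm, hx.2.symm, hq.1.symm, hq.2.symm])
      (by simp [n1, n2, n4, ha.1.symm, ha.2.symm, hx.1.symm, hx.2.symm, hp.1.symm, hp.2.symm])
    exact ⟨τ, hK τ a x (.inl ⟨f1, f2⟩) ha hx n1 f3 f4, by rw [mul_smul, e1, f1],
      by rw [mul_smul, e2, f2], f3, by rw [mul_smul, f5]⟩
  have main : ∀ σ : M24, σ • (none : GolayPt) = none → σ • (some 0 : GolayPt) = some 0 → σ ∈ K :=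
    fun σ e1 e2 => by
      obtain ⟨a, ha⟩ := exists_fresh [none, some 0, some 1, σ • some 1] (by simp)
      obtain ⟨x, hx⟩ := exists_fresh [none, some 0, some 1, σ • some 1, a] (by simp)
      simp only [List.mem_cons, not_or] at ha hx
      obtain ⟨τ, h1, f1, f2, -, f3⟩ := step σ e1 e2 a x _ ⟨ha.1, ha.2.1⟩ ⟨hx.1, hx.2.1⟩ o1
        (Ne.symm hx.2.2.2.2.1) ha.2.2.1 ha.2.2.2.1 hx.2.2.1 hx.2.2.2.1
      obtain ⟨y, hy⟩ := exists_fresh [none, some 0, some 1, some 2, (τ * σ) • some 2] (by simp)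
      simp only [List.mem_cons, not_or] at hy
      obtain ⟨τ', h2, g1, g2, g3, g4⟩ := step _ f1 f2 (some 1) y _ o1 ⟨hy.1, hy.2.1⟩ o2
        (Ne.symm hy.2.2.1) n12 (fun e => n12 (smul_left_cancel (τ * σ) (f3.trans e)))
        hy.2.2.2.1 hy.2.2.2.2.1
      have := hK _ _ _ (.inl ⟨g1, g2⟩) o1 o2 n12 (by rw [mul_smul, f3, g3]) g4
      rwa [K.mul_mem_cancel_left h2, K.mul_mem_cancel_left h1] at this
  rcases h with h | h
  · exact main σ h.1 h.2
  obtain ⟨τ, f1, f2, f3, f4⟩ := exists_four o1 o2 n12 o1 o2 n12 (.inr ⟨rfl, rfl⟩)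
  have := main (τ * σ) (by rw [mul_smul, h.1, f2]) (by rw [mul_smul, h.2, f1])
  rwa [K.mul_mem_cancel_left (hK τ _ _ (.inr ⟨f1, f2⟩) o1 o2 n12 f3 f4)] at this

variable {H : Type*} [Group H] [Finite H] {z s : H} {R P : Subgroup H}
  {γ : centralizer ({z} : Set H) →* Co2} {φ : leechPerpU → H}

omit [Finite H] in
theorem notTT (d : BabyData z R γ φ) {a b : H} (ha : Ov z φ TyT a) (hb : Ov z φ TyT b) :
    ¬ Ov z φ TyT (a * b) := by
  rintro ⟨r, hr, e''⟩
  obtain ⟨v, hv, e⟩ := ha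
  obtain ⟨w, hw, e'⟩ := hb
  rcases sm_of_eqv d (eqv_mul_phi d e e') e'' with f | f
  · exact not_cg_T ⟨hv.1, hv.2⟩ ⟨hw.1, hw.2⟩ ⟨hr.1, hr.2⟩ f
  · exact not_cg_T ⟨hv.1, hv.2⟩ ⟨hw.1, hw.2⟩ (S16.sub ⟨hr.1, hr.2⟩) (f.trans ⟨r, by abel⟩)

omit [Finite H] in
theorem top_of_comm (d : BabyData z R γ φ) {K : Subgroup H} (h1 : R ≤ K)
    (h2 : ∀ a b, a * z = z * a → b * z = z * b → a⁻¹ * b⁻¹ * a * b ∈ K) {c : H}
    (hc : c * z = z * c) : c ∈ K :=
  (eq_top_of_perfect γ d.surj MonU.Bq.perfect_Co2 (M := K.subgroupOf _)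
    (fun x hx => h1 ((d.ker x).1 hx)) fun a b => h2 a b (MonData.comm_z a) (MonData.comm_z b)).ge
    (mem_top ⟨c, mem_centralizer_singleton_iff.2 hc⟩)

theorem exists_odd (d : BabyData z R γ φ) (hs : s ∈ R) (h1 : s ≠ 1) (h2 : s ≠ z) {r : H} (hr : r ∈ R)
    (r1 : r ≠ 1) (r2 : r ≠ z) : ∃ k, k * z = z * k ∧ s * (k * r * k⁻¹) ≠ k * r * k⁻¹ * s := by
  by_contra hc
  push Not at hc
  let A : Subgroup H :=
    { carrier := {x | ∀ k, k * z = z * k → s * (k * x * k⁻¹) = k * x * k⁻¹ * s}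
      one_mem' := fun k _ => by simp
      mul_mem' := fun a b k hk => by rw [← conj_mul]; exact (comm_mul_left (a k hk).symm (b k hk).symm).symm
      inv_mem' := fun a k hk => by rw [← conj_inv]; exact (comm_inv_left (a k hk).symm).symm }
  obtain ⟨y, hy, e⟩ := d.lx.toXS.exists_not_comm hs h1 h2
  refine e ?_
  simpa using d.le_of_inv (A := A) (fun k hk => by rw [conj_eq_of_comm hk]; exact d.lx.z_comm s hs)
    (fun c hc a ha k hk => by simpa [mul_assoc] using ha _ (comm_mul_left hk hc)) hr hc r1 r2 hy 1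
    (by simp)

/-- The stabiliser of a transposition is generated by commutators and the stabiliser of an odd
point. -/
theorem gen_T (d : BabyData z R γ φ) {t y : H} (ht : Eqv z t (φ xP)) (hy : Ov z φ TyB y)
    (e : t * y ≠ y * t) {K : Subgroup H} (h1 : ∀ q ∈ R, q * t = t * q → q ∈ K)
    (h2 : ∀ a b, a * z = z * a → b * z = z * b → a * t = t * a → b * t = t * b →
      a⁻¹ * b⁻¹ * a * b ∈ K) (h3 : ∀ c, c * z = z * c → c * t = t * c → c * y = y * c → c ∈ K)
    {c : H} (cz : c * z = z * c) (ct : c * t = t * c) : c ∈ K := by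
  have tT : Ov z φ TyT t := ⟨xP, ⟨sqNorm_x16, dot_U_x16⟩, ht⟩
  obtain ⟨tR, -, t1, tz⟩ := ov_ne d (.inl rfl) tT
  obtain ⟨yR, -, y1, yz⟩ := ov_ne d (.inr rfl) hy
  have zz := d.lx.z_sq
  have inner : ∀ c : centralizer ({z} : Set H), (c : H) * t = t * c →
      co2Incl (γ c) • x16 = x16 → (c : H) ∈ K := fun c a b => by
    let X := (centralizer {t}).subgroupOf (centralizer ({z} : Set H)) ⊓ UU.comap (co2Incl.comp γ)
    let f : X →* UU := ((co2Incl.comp γ).comp X.subtype).codRestrict _ fun x => x.2.2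
    refine (eq_top_of_perfect f (fun g => ?_) perfect_UU
      (M := K.comap ((Subgroup.subtype _).comp X.subtype)) (fun x hx => ?_) fun a b => ?_).ge
      (mem_top ⟨c, mem_centralizer_singleton_iff.2 a, co2Incl_u _, b⟩)
    · obtain ⟨k, k1, k2⟩ := d.exists_conj g.2.1 ht
        (by rw [show BO.sm g g.2.1 xP = xP from Subtype.ext g.2.2]; exact ht) t1 tz
      exact ⟨⟨k, mem_centralizer_singleton_iff.2 (comm_of_conj_eq k2),
        show co2Incl (γ k) ∈ UU from k1.symm ▸ g.2⟩, Subtype.ext k1⟩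
    · exact h1 _ ((d.ker _).1 (co2Incl_injective ((congrArg Subtype.val hx).trans (map_one _).symm)))
        (mem_centralizer_singleton_iff.1 x.2.1)
    · exact h2 _ _ (MonData.comm_z _) (MonData.comm_z _) (mem_centralizer_singleton_iff.1 a.2.1)
        (mem_centralizer_singleton_iff.1 b.2.1)
  have cases : ∀ c : centralizer ({z} : Set H), (c : H) * t = t * c →
      co2Incl (γ c) • x16 = x16 ∨ co2Incl (γ c) • x16 = leechU - x16 := fun c a => by
    have := d.conj_eqv c ht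
    rw [conj_eq_of_comm a] at this
    exact (x16_mem.smul (co2Incl_u _)).eq_of_congr x16_mem
      (d.eqv_iff.1 ((this.symm zz).trans zz ht))
  obtain ⟨b, hb, yb, b8⟩ : ∃ b : leechPerpU, TyB b ∧ Eqv z y (φ b) ∧ dt x16 b = 8 := by
    obtain ⟨b, hb, yb⟩ := hy
    have a1 := mt (d.comm_iff ht yb).2 e
    have a2 := hb.2
    change ¬ dt x16 b % 16 = 0 at a1
    rcases dt_cases sqNorm_x16 hb.1 with a | a | a | a | a | a | a <;> try omega
    · exact ⟨b, hb, yb, a⟩
    · exact ⟨-b, ⟨(nm_neg _).trans hb.1, (dt_neg_right _ _).trans (by rw [a2]; rfl)⟩,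
        eqv_of_sm d yb (.inl ⟨b, by simp⟩), (dt_neg_right _ _).trans (by rw [a]; rfl)⟩
  have std : ∀ v b : leechLattice, S16 v → nm b = 32 → dt leechU b = 0 → dt v b = 8 →
      ∃ g : Co0, g • (v - b) = u5 ∧ g • (-b) = leechU ∧ g • leechU = leechU' :=
    fun v b a1 a2 a3 a4 => by
      have a5 : nm v = 32 := a1.1
      have a6 : dt leechU v = 16 := a1.2
      refine exists_std_triple (show nm _ = _ by rw [nm_sub]; omega) ((nm_neg _).trans a2)
        sqNorm_leechU (show dt _ _ = _ by rw [dt_neg_left, dt_comm, a3]; rfl)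
        (show dt _ _ = _ by rw [dt_neg_right, dt_sub_left, dt_self]; omega)
        (show dt _ _ = _ by rw [dt_comm, dt_sub_right]; omega)
  obtain ⟨g, g1, g2, g3⟩ := trans_of_std₃ (std _ _ x16_mem hb.1 hb.2 b8)
    (std _ (-b) x16_mem.sub ((nm_neg _).trans hb.1) (by rw [dt_neg_right, hb.2]; rfl)
      (by rw [dt_neg_right, dt_sub_left, hb.2, b8]; rfl))
  rw [smul_neg, neg_inj] at g2
  rw [smul_sub, g2, sub_left_inj] at g1
  obtain ⟨k, k1, k2⟩ := d.exists_conj g3 ht (eqv_of_sm d ht (.inr ⟨x16 - leechU, by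
    change x16 - (g • x16 + leechU) = _
    rw [g1]; abel⟩)) t1 tz
  have k3 : Eqv z (k * y * (k : H)⁻¹) y := by
    refine (eqv_of_sm d (d.conj_eqv k yb) (w := b) (.inl ⟨-b, ?_⟩)).trans zz (yb.symm zz)
    change co2Incl (γ k) • (b : leechLattice) - b = _
    rw [k1, g2]; abel
  have kK : (k : H) ∈ K := by
    rcases k3 with a | a
    · exact h3 _ (MonData.comm_z k) (comm_of_conj_eq k2) (comm_of_conj_eq a)
    · refine (K.mul_mem_cancel_left (h1 t tR rfl)).1 (h3 _ (comm_mul_left (d.lx.z_comm t tR)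
        (MonData.comm_z k)) (comm_mul_left rfl (comm_of_conj_eq k2)) (comm_of_conj_eq ?_))
      rw [show t * k * y * (t * k)⁻¹ = t * (k * y * (k : H)⁻¹) * t⁻¹ by group, a, ← conj_mul,
        d.lx.toXS.conj_of_ne tR yR e, conj_eq_of_comm (d.lx.z_comm t tR), d.lx.toXS.mul_z_z]
  rcases cases ⟨c, mem_centralizer_singleton_iff.2 cz⟩ ct with a | a
  · exact inner _ ct a
  · refine (K.mul_mem_cancel_left kK).1 (inner (k * ⟨c, mem_centralizer_singleton_iff.2 cz⟩)
      (comm_mul_left (comm_of_conj_eq k2) ct) ?_)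
    rw [map_mul, map_mul, mul_smul, a, k1, smul_sub, g1, g3, sub_sub_cancel]

/-- A line in standard position. -/
structure Std (z s : H) (R P : Subgroup H) (γ : centralizer ({z} : Set H) →* Co2)
    (φ : leechPerpU → H) : Prop where
  d : BabyData z R γ φ
  hp : LXPair R P z s
  hP : Nat.card P = 2 ^ 23
  hs : Eqv z s (φ uP)

namespace Std

variable (h : Std z s R P γ φ)
include h

omit [Finite H] in
theorem lift {g : Co0} (hu : g • leechU = leechU) (hv : Cg (g • leechU') leechU') :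
    ∃ c : centralizer ({z} : Set H), co2Incl (γ c) = g ∧ (c : H) * s = s * c := by
  obtain ⟨c, a, b⟩ := h.d.exists_conj hu h.hs (eqv_of_sm h.d h.hs (.inl hv.symm)) h.hp.hP.z_ne h.hp.ne
  exact ⟨c, a, comm_of_conj_eq b⟩

omit [Finite H] in
theorem four {K : Subgroup H} (hz : z ∈ K) (hs : s ∈ K)
    (hK : ∀ k l, Out k → Out l → k ≠ l → φ (w44 k l (-4) rfl) ∈ K) {v : leechPerpU}
    (hv : ∀ i, ((v : leechLattice) : GolayPt → ℤ) i % 4 = 0) : φ v ∈ K := by
  have two : ∀ y, y + y ∈ h.d.pre K hz := fun y => ⟨BabyData.mem_perp.2 (by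
      have := eight_dvd_dotInt y.2 leechU.2
      rw [AddSubgroup.coe_add, Leech.dotInt_add_left]; omega),
    ((h.d.triv _).2 (Or.inl ⟨y, rfl⟩)).mem hz K.one_mem⟩
  have cg : ∀ {a b}, Cg a b → b ∈ h.d.pre K hz → a ∈ h.d.pre K hz := fun ⟨y, e⟩ hb =>
    sub_eq_iff_eq_add.1 e ▸ add_mem (two y) hb
  have u1 : leechU ∈ h.d.pre K hz := ⟨BabyData.mem_perp.2 (by decide),
    ((h.d.triv _).2 (Or.inr ⟨0, by simp⟩)).mem hz K.one_mem⟩
  have u2 : leechU' ∈ h.d.pre K hz := ⟨_, (h.hs.symm h.d.lx.z_sq).mem hz hs⟩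
  have e8m : ∀ i, e8 i ∈ h.d.pre K hz := fun i => by
    obtain ⟨y, e⟩ := e8_congr i none
    exact cg ⟨y, e.trans (two_smul _ _)⟩ (leechU_add ▸ add_mem u1 u2)
  have dif : ∀ k l, Out k → Out l → v44 none k 4 rfl - v44 none l 4 rfl ∈ h.d.pre K hz :=
    fun k l hk hl => by
      by_cases e : k = l
      · rw [e, sub_self]; exact zero_mem _
      · rw [show v44 none k 4 rfl - v44 none l 4 rfl = v44 k l (-4) rfl from
          Subtype.ext (funext fun i => by
            simp only [AddSubgroup.coe_sub, Pi.sub_apply, v44_apply]; split_ifs <;> rfl)]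
        exact ⟨_, hK k l hk hl e⟩
  have tk : ∀ k, v44 none k 4 rfl ∈ h.d.pre K hz := fun k => by
    by_cases a : k = none
    · exact (show e8 none = v44 none k 4 rfl by rw [a]; decide) ▸ e8m none
    by_cases b : k = some 0
    · rw [b, ← U_eq]; exact u1
    have := (h.d.pre K hz).list_sum_mem (l := [1, 3, 5, 6, 7, 11, 12].map fun m =>
      v44 none (some m) 4 rfl - v44 none k 4 rfl) fun x hx => by
        obtain ⟨m, hm, rfl⟩ := List.mem_map.1 hx
        exact dif _ _ (by simp only [Out]; clear hx; revert m; decide) ⟨a, b⟩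
    have e7 := QF.sum7
    simp only [List.map_cons, List.map_nil, List.sum_cons, List.sum_nil] at this e7
    refine cg ⟨4 • v44 none k 4 rfl - (two_ind _ QF.o7 + e8 none), ?_⟩ (sub_mem this (e8m none))
    linear_combination (norm := module) -e7
  refine (LL.four_induction (h.d.pre K hz) (fun i j x e => ?_) hv).2
  refine (show v44 none i 4 rfl + v44 none j 4 rfl - e8 none = x from
    Subtype.ext (funext fun m => ?_)) ▸ sub_mem (add_mem (tk i) (tk j)) (e8m none)
  simp only [e, AddSubgroup.coe_sub, AddSubgroup.coe_add, Pi.sub_apply, Pi.add_apply, v44_apply,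
    coe_e8, Pi.single_apply]
  split_ifs <;> rfl

theorem w44_mem {k l : GolayPt} (hk : Out k) (hl : Out l) (e : k ≠ l) :
    φ (w44 k l (-4) rfl) ∈ P := by
  have zz := h.d.lx.z_sq
  obtain ⟨g, hg⟩ := exists_co2Incl (sgn_leechU c1 (by decide) (by decide))
  obtain ⟨p, hp, rfl⟩ := (h.d.mem_sgnSub_iff h.hp h.hP h.hs).1 (hg ▸ sgn_mem_sgnSub _ c1)
  let v : leechPerpU := ⟨two_ind _ c2, perp_iff.2 (by decide)⟩
  have h1 := (comm_mem_E h.hp (h.d.mem v) ((h.d.comm_iff (Eqv.refl _ _) h.hs).2 (by decide)) hp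
    (MonData.comm_z p)).2
  have h2 : φ (w44 (some 21) (some 22) 4 rfl) ∈ P := ((eqv_of_sm h.d (eqv_mul_phi h.d
    (h.d.conj_eqv p (Eqv.refl _ (φ v))) (h.d.lx.toXS.inv (h.d.mem v)))
    (.inl ⟨sgn _ c1 • two_ind _ c2, by
      change co2Incl (γ p) • two_ind _ c2 + two_ind _ c2 - v44 (some 21) (some 22) 4 rfl = _
      rw [hg]; decide⟩)).symm zz).mem h.hp.z_mem h1
  obtain ⟨σ, a1, a2, a3, a4⟩ := exists_four (k := some 21) (l := some 22)
    (by simp only [Out]; decide) (by simp only [Out]; decide) (by decide) hk hl e (.inl ⟨rfl, rfl⟩)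
  obtain ⟨c, b1, b2⟩ := h.lift (Pres.u (.inl ⟨a1, a2⟩)).1 (Pres.u (.inl ⟨a1, a2⟩)).2
  refine ((eqv_of_sm h.d (eqv_mul_phi h.d (h.d.conj_eqv c (Eqv.refl _ _)) h.hs)
    (.inr ⟨v44 l (some 0) (-4) rfl, ?_⟩)).symm zz).mem h.hp.z_mem
    (mul_mem (h.hp.hP.norm c b2 _ h2) h.hp.hP.z_mem)
  change co2Incl (γ c) • v44 (some 21) (some 22) 4 rfl + leechU' - (v44 k l (-4) rfl + leechU) = _
  rw [b1, perm_v44, a3, a4, U_eq, U'_eq]
  refine Subtype.ext (funext fun m => ?_)
  simp only [AddSubgroup.coe_sub, AddSubgroup.coe_add, Pi.sub_apply, Pi.add_apply, v44_apply]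
  split_ifs <;> rfl

theorem four_mem {v : leechPerpU} (hv : ∀ i, ((v : leechLattice) : GolayPt → ℤ) i % 4 = 0) :
    φ v ∈ P := h.four h.hp.z_mem h.hp.hP.z_mem (fun _ _ => h.w44_mem) hv

theorem exists_four_vec {e : H} (he : e ∈ R ⊓ P) : ∃ v : leechPerpU,
    (∀ i, ((v : leechLattice) : GolayPt → ℤ) i % 4 = 0) ∧ Eqv z e (φ v) := by
  obtain ⟨v, hv⟩ := h.d.onto e he.1
  have key : ∀ a b, (((v : leechLattice) : GolayPt → ℤ) a + ((v : leechLattice) : GolayPt → ℤ) b)
      % 4 = 0 := fun a b => by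
    have := (h.d.comm_iff hv (Eqv.refl _ (φ (w44 a b 4 rfl)))).1
      (E_comm h.hp he ⟨h.d.mem _, h.four_mem (w44_four a b 4 rfl)⟩)
    change dotInt _ (_ + _) % 16 = 0 at this
    rw [dotInt_add_right, dotInt_single_right, dotInt_single_right] at this
    omega
  have k0 := key none none
  by_cases a : ((v : leechLattice) : GolayPt → ℤ) none % 4 = 0
  · exact ⟨v, fun i => by have := key none i; omega, hv⟩
  have b : ∀ i, (((v : leechLattice) - (v3 + v3) : leechLattice) : GolayPt → ℤ) i % 4 = 0 :=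
    fun i => by
      have := key none i
      simp only [AddSubgroup.coe_sub, AddSubgroup.coe_add, Pi.sub_apply, Pi.add_apply, v3_apply]
      split_ifs <;> omega
  exact ⟨⟨_, perp4 b⟩, b, eqv_of_sm h.d hv (.inl ⟨v3, by simp⟩)⟩

/-- `E` is generated by its points. -/
theorem E_le {K : Subgroup H} (hz : z ∈ K) (hs : s ∈ K)
    (hK : ∀ y ∈ P, Ov z φ TyB y → y ∈ K) : R ⊓ P ≤ K := fun e he => by
  obtain ⟨v, a, b⟩ := h.exists_four_vec he
  exact b.mem hz (h.four hz hs (fun k l hk hl e => hK _ (h.w44_mem hk hl e)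
    ⟨_, tyB_w44 hk hl e rfl (.inr rfl), Eqv.refl _ _⟩) a)

omit [Finite H] in
theorem ne_s {k l : GolayPt} (hk : Out k) (hl : Out l) (e : k ≠ l) {b : ℤ} {hb : b % 8 = 4}
    (h4 : b = 4 ∨ b = -4) {x : H} (hx : Eqv z x (φ (w44 k l b hb))) : ¬ Eqv z x s := fun f => by
  rcases TA.sm_B (sm_of_eqv h.d hx (f.trans h.d.lx.z_sq h.hs)) (tyB_w44 hk hl e hb h4).1
    sqNorm_leechU' dot_leechU_leechU' with g | g <;>
  · have := congrArg (fun x : leechLattice => (x : GolayPt → ℤ) none) g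
    simp [w44, v44_apply, hk.1.symm, hl.1.symm, leechU'_apply] at this

theorem sep {k l : GolayPt} (hk : Out k) (hl : Out l)
    (e : ∀ p ∈ P ⊓ centralizer {z}, sg p (φ (w44 none l 4 rfl)) = sg p (φ (w44 none k 4 rfl))) :
    l = k := by
  by_contra hne
  have zz := h.d.lx.z_sq
  have a := h.four_mem (w44_four none k 4 rfl)
  have b := h.four_mem (w44_four none l 4 rfl)
  have c : Eqv z (φ (w44 none l 4 rfl) * φ (w44 none k 4 rfl)) (φ (w44 l k (-4) rfl)) :=
    eqv_of_sm h.d (eqv_mul_phi h.d (Eqv.refl _ _) (Eqv.refl _ _)) (.inl ⟨v44 none k 4 rfl,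
      Subtype.ext (funext fun m => by
        simp only [w44, AddSubgroup.coe_sub, AddSubgroup.coe_add, Pi.sub_apply, Pi.add_apply,
          v44_apply]
        split_ifs <;> rfl)⟩)
  have tb := tyB_w44 hl hk hne (b := -4) rfl (.inr rfl)
  obtain ⟨-, -, n1, n2⟩ := ov_ne h.d (.inr rfl) ⟨_, tb, c⟩
  have n3 := h.ne_s hl hk hne (.inr rfl) c
  rcases h.hp.hP.toXS.eq_of_comm_centralizer h.hp.z_mem (mul_mem b a) (fun p hp pz => by
    rw [← sg_eq_one, sg_mul' h.hp.hP.toXS b a hp, e p ⟨hp, mem_centralizer_singleton_iff.2 pz⟩,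
      sg_sq]) with f | f | f | f
  exacts [n1 f, n3 (.inl f), n2 f, n3 (.inr (f.trans h.hp.sz.symm))]

omit [Finite H] in
theorem conj_TR {x a : H} {v : leechPerpU} (hv : TR v) (hx : Eqv z x (φ v)) (ha : Eqv z a (φ xP)) :
    ∃ k, k * z = z * k ∧ k * x * k⁻¹ = s ∧ Eqv z (k * a * k⁻¹) a := by
  obtain ⟨g, g1, g2, g3⟩ := hv.std
  obtain ⟨k, k1, k2⟩ := h.d.exists_conj g1 hx
    (by rw [show BO.sm g g1 v = uP from Subtype.ext g3]; exact h.hs) h.hp.hP.z_ne h.hp.ne
  refine ⟨k, MonData.comm_z k, k2, ?_⟩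
  have := h.d.conj_eqv k ha
  rw [show BO.sm _ (co2Incl_u (γ k)) xP = xP from Subtype.ext (k1 ▸ g2)] at this
  exact this.trans h.d.lx.z_sq (ha.symm h.d.lx.z_sq)

omit [Finite H] in
theorem mono_iff (c : centralizer ({z} : Set H)) :
    Eqv z (c * s * (c : H)⁻¹) s ↔ co2Incl (γ c) ∈ monoSub := by
  have zz := h.d.lx.z_sq
  have a := h.d.conj_eqv c h.hs
  rw [mem_monoSub_iff_congr (p := none), ← leechU_add, smul_add, co2Incl_u, add_sub_add_left_eq_sub]
  refine ⟨fun e => ?_, fun e => (eqv_of_sm h.d a (w := uP) (.inl e)).trans zz (h.hs.symm zz)⟩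
  rcases TA.sm_B (sm_of_eqv h.d a (e.trans zz h.hs)) ((nm_smul _ _).trans sqNorm_leechU')
    sqNorm_leechU' dot_leechU_leechU' with f | f
  · exact ⟨0, by rw [show co2Incl (γ c) • leechU' = leechU' from f]; simp⟩
  · exact ⟨-leechU', by rw [show co2Incl (γ c) • leechU' = -leechU' from f]; abel⟩

/-- The stabiliser of the line in `C(z)` is generated by the stabilisers of points of planes. -/
theorem gen_N {y : H} (hy : Eqv z y (φ (w44 (some 1) (some 2) 4 rfl))) {K : Subgroup H}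
    (h1 : R ≤ K) (h2 : P ⊓ centralizer {z} ≤ K)
    (h3 : ∀ n x, n * z = z * n → n * s = s * n → x * z = z * x → x * s = s * x →
      x * (n * y * n⁻¹) = n * y * n⁻¹ * x → x ∈ K) {c : H} (cz : c * z = z * c)
    (cs : Eqv z (c * s * c⁻¹) s) : c ∈ K := by
  have o1 : Out (some 1) := by simp only [Out]; decide
  have o2 : Out (some 2) := by simp only [Out]; decide
  let c' : centralizer ({z} : Set H) := ⟨c, mem_centralizer_singleton_iff.2 cz⟩
  let M := ((K.subgroupOf (centralizer {z})).map (co2Incl.comp γ)).comap permHom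
  obtain ⟨σ, a, ha, e⟩ := mem_monoSub_iff.1 ((h.mono_iff c').1 cs)
  have hu := co2Incl_u (γ c')
  rw [mono_eq] at e
  have pres : Pres σ := by
    have key : ∀ i : GolayPt, i = none ∨ i = some 0 → σ • i = none ∨ σ • i = some 0 := fun i hi => by
      have := congrArg (fun x : leechLattice => (x : GolayPt → ℤ) (σ • i)) hu
      simp only [e, mul_smul, sgn_smul] at this
      rw [show σ • i = (σ : Equiv.Perm GolayPt) i from rfl, permHom_smul', leechU_apply,
        leechU_apply, if_pos hi] at this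
      by_contra hc
      rw [if_neg (show ¬ ((σ : Equiv.Perm GolayPt) i = none ∨ (σ : Equiv.Perm GolayPt) i = some 0)
        from hc)] at this
      split_ifs at this <;> omega
    rcases key _ (.inl rfl) with p | p <;> rcases key _ (.inr rfl) with q | q
    · exact absurd (smul_left_cancel σ (p.trans q.symm)) (by decide)
    · exact .inl ⟨p, q⟩
    · exact .inr ⟨p, q⟩
    · exact absurd (smul_left_cancel σ (p.trans q.symm)) (by decide)
  obtain ⟨k, hk, k1⟩ : σ ∈ M := pres_mem (fun τ k l p hk hl kl tk tl => by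
    obtain ⟨μ, a1, a2, a3, a4⟩ := exists_four o1 o2 (by decide) hk hl kl (.inl ⟨rfl, rfl⟩)
    obtain ⟨n, n1, n2⟩ := h.lift (Pres.u (.inl ⟨a1, a2⟩)).1 (Pres.u (.inl ⟨a1, a2⟩)).2
    have b1 := h.d.conj_eqv n hy
    rw [show BO.sm _ (co2Incl_u (γ n)) (w44 (some 1) (some 2) 4 rfl) = w44 k l 4 rfl from
      Subtype.ext (by
        change co2Incl (γ n) • v44 (some 1) (some 2) 4 rfl = v44 k l 4 rfl
        rw [n1, perm_v44, a3, a4])] at b1
    obtain ⟨yR, -, y1, y2⟩ := ov_ne h.d (.inr rfl) ⟨_, tyB_w44 hk hl kl rfl (.inl rfl), b1⟩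
    obtain ⟨x, x1, x2⟩ := h.d.exists_conj p.u.1 b1 (by
      rw [show BO.sm _ p.u.1 (w44 k l 4 rfl) = w44 k l 4 rfl from
        Subtype.ext (by
          change permHom τ • v44 k l 4 rfl = v44 k l 4 rfl
          rw [perm_v44, tk, tl])]
      exact b1) y1 y2
    refine ⟨x, show (x : H) ∈ K from ?_, x1⟩
    rcases (h.mono_iff x).2 (x1 ▸ permHom_mem τ) with b | b
    · exact h3 n x (MonData.comm_z n) n2 (MonData.comm_z x) (comm_of_conj_eq b) (comm_of_conj_eq x2)
    obtain ⟨q, hq, q1, q2⟩ : ∃ q ∈ R, q * (n * y * (n : H)⁻¹) = n * y * (n : H)⁻¹ * q ∧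
        q * s ≠ s * q := by
      by_contra hc
      push Not at hc
      rcases h.d.lx.toXS.eq_of_comm_centralizer yR h.hp.s_mem hc with f | f | f
      exacts [h.hp.hP.z_ne f, h.hp.ne f, h.ne_s hk hl kl (.inl rfl) b1 (Eqv.symm h.d.lx.z_sq f)]
    refine (K.mul_mem_cancel_left (h1 hq)).1 (h3 n _ (MonData.comm_z n) n2 (comm_mul_left
      (h.d.lx.z_comm q hq) (MonData.comm_z x)) (comm_of_conj_eq ?_)
      (comm_mul_left q1 (comm_of_conj_eq x2)))
    rw [show q * x * s * (q * x)⁻¹ = q * (x * s * (x : H)⁻¹) * q⁻¹ by group, b, ← conj_mul,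
      h.d.lx.toXS.conj_of_ne hq h.hp.s_mem q2, conj_eq_of_comm (h.d.lx.z_comm q hq),
      h.d.lx.toXS.mul_z_z]) pres
  obtain ⟨g, hg⟩ := exists_co2Incl (g := sgn a ha) (by
    rw [e, mul_smul, pres.u.1] at hu; exact hu)
  obtain ⟨p, hp, rfl⟩ := (h.d.mem_sgnSub_iff h.hp h.hP h.hs).1 (hg ▸ sgn_mem_sgnSub _ ha)
  have : (((p * k)⁻¹ * c' : centralizer ({z} : Set H)) : H) ∈ R := (h.d.ker _).1
    (co2Incl_injective (by
      rw [map_mul, map_mul, map_inv, map_inv, map_mul, map_mul, hg, e,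
        show co2Incl (γ k) = permHom σ from k1, inv_mul_cancel, map_one]))
  simpa [mul_assoc] using K.mul_mem (K.mul_mem (h2 ⟨hp, p.2⟩) hk) (h1 this)

omit [Finite H] in
/-- The stabiliser of the line is maximal in `C(z)`. -/
theorem gen_C {K : Subgroup H} (h1 : ∀ c, c * z = z * c → Eqv z (c * s * c⁻¹) s → c ∈ K) {x : H}
    (xK : x ∈ K) (xz : x * z = z * x) (xs : ¬ Eqv z (x * s * x⁻¹) s) {c : H} (cz : c * z = z * c) :
    c ∈ K := by
  let π : Co0 →* Co1 := QuotientGroup.mk' _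
  let M := ((K.subgroupOf (centralizer {z})).map (π.comp (co2Incl.comp γ))).comap π
  have m : ∀ {g : Co0}, g • leechU = leechU → g ∈ M → ∀ k : centralizer ({z} : Set H),
      co2Incl (γ k) = g → (k : H) ∈ K := fun {g} hg ⟨l, hl, e⟩ k hk => by
    have : ((l⁻¹ * k : centralizer ({z} : Set H)) : H) ∈ R := (h.d.ker _).1 (by
      rw [map_mul, map_inv, co2_mk_injective (a := γ l) (b := γ k) (e.trans (hk ▸ rfl)),
        inv_mul_cancel])
    simpa using K.mul_mem hl (h1 _ (h.d.lx.z_comm _ this) (h.d.lx.toXS.conj this h.hp.s_mem))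
  have key : ∀ g ∈ monoSub, g • leechU = leechU → g ∈ M := fun g a b => by
    obtain ⟨g, rfl⟩ := exists_co2Incl b
    obtain ⟨k, rfl⟩ := h.d.surj g
    exact ⟨k, h1 k (MonData.comm_z k) ((h.mono_iff k).2 a), rfl⟩
  rcases MonU.Fr.max_U (K := M) (fun g hg => by
      rcases hg.2 with a | a
      · exact key g hg.1 a
      · obtain ⟨k, b, e⟩ := key (negOne * g) (mul_mem negOne_mem hg.1)
          (by rw [mul_smul, a, negOne_smul, neg_neg])
        exact ⟨k, b, e.trans (mk_eq_mk_Co1.2 (.inr rfl))⟩) (fun g ⟨k, _, e⟩ => by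
      rcases mk_eq_mk_Co1.1 e.symm with a | a <;> rw [a]
      · exact .inl (co2Incl_u _)
      · exact .inr (by rw [mul_smul]; exact congrArg _ (co2Incl_u _))) with a | a
  · exact absurd ((h.mono_iff ⟨x, mem_centralizer_singleton_iff.2 xz⟩).2 (a ⟨_, xK, rfl⟩)) xs
  · exact m (co2Incl_u _) (a.ge (.inl (co2Incl_u _))) ⟨c, mem_centralizer_singleton_iff.2 cz⟩ rfl

end Std

/-- An odd vector of the `4600`. -/
def vO : leechPerpU := ⟨sgn _ QF.o7 • v3, perp_iff.2 (by decide)⟩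

omit [Finite H] in
theorem comm_of_eleven {c x : H} (h : c ^ 11 = 1) (zz : z * z = 1) (cz : c * z = z * c)
    (e : Eqv z (c * x * c⁻¹) x) : c * x = x * c := by
  have h1 : Commute (c * c) x := by
    refine comm_of_conj_eq ?_
    rw [show c * c * x * (c * c)⁻¹ = c * (c * x * c⁻¹) * c⁻¹ by group]
    rcases e with a | a <;> rw [a]
    · exact a
    · rw [← conj_mul, a, conj_eq_of_comm cz, mul_assoc, zz, mul_one]
  have := h1.pow_left 6
  rwa [← sq, ← pow_mul, show 2 * 6 = 11 + 1 from rfl, pow_succ, h, one_mul] at this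

namespace Std

variable (h : Std z s R P γ φ)
include h

theorem exists_eleven : Ov z φ TyT (φ vO) ∧ s * φ vO ≠ φ vO * s ∧ ∃ c : H, c ^ 11 = 1 ∧ c ∉ R ∧
    c * z = z * c ∧ c * s = s * c ∧ c * φ vO = φ vO * c := by
  refine ⟨⟨vO, ⟨by decide, by decide⟩, Eqv.refl _ _⟩,
    mt (h.d.comm_iff h.hs (Eqv.refl _ _)).1 (by decide), ?_⟩
  have hc := card_stab_triple (u := vO - leechU') (v := -leechU') (w := leechU) (by decide) (by decide)
    (by decide) (by decide) (by decide) (by decide)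
  have : Fact (Nat.Prime 11) := ⟨by norm_num⟩
  obtain ⟨⟨g, ⟨g1, g2⟩, g3⟩, hg⟩ := exists_prime_orderOf_dvd_card' 11
    ((show 11 ∣ 443520 by norm_num).trans (dvd_of_eq hc.symm))
  rw [← Subgroup.orderOf_coe] at hg
  simp only [SetLike.mem_coe, Subgroup.coe_toSubmonoid, MulAction.mem_stabilizer_iff, smul_neg,
    neg_inj, smul_sub] at g1 g2 g3
  rw [g2, sub_left_inj] at g1
  obtain ⟨k, k1, k2⟩ := h.d.exists_sm g3
  have k3 : (k : H) ^ 11 ∈ R := (h.d.ker (k ^ 11)).1 (co2Incl_injective (by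
    rw [map_pow, map_pow, k1, map_one]; exact hg ▸ pow_orderOf_eq_one g))
  have k4 : ((k : H) ^ 4) ^ 11 = 1 := by rw [← pow_mul, mul_comm, pow_mul, h.d.lx.toXS.pow_four k3]
  have kz : (k : H) ^ 4 * z = z * k ^ 4 := MonData.comm_z (k ^ 4)
  have key : ∀ {x} {v : leechPerpU}, g • (v : leechLattice) = v → Eqv z x (φ v) →
      (k : H) ^ 4 * x = x * k ^ 4 := fun {x v} a b => by
    have := h.d.conj_eqv (k ^ 4) b
    rw [show BO.sm _ (co2Incl_u (γ (k ^ 4))) v = v from Subtype.ext (by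
      change co2Incl (γ (k ^ 4)) • (v : leechLattice) = v
      rw [map_pow, map_pow, k1]
      exact (MulAction.stabilizer Co0 (v : leechLattice)).pow_mem a 4)] at this
    exact comm_of_eleven k4 h.d.lx.z_sq kz (this.trans h.d.lx.z_sq (b.symm h.d.lx.z_sq))
  refine ⟨k ^ 4, k4, fun e => ?_, kz, key g2 h.hs, key g1 (Eqv.refl _ _)⟩
  have := orderOf_dvd_of_pow_eq_one (show g ^ 4 = 1 by
    rw [← k1, ← map_pow, ← map_pow, (h.d.ker (k ^ 4)).2 e, map_one])
  rw [show orderOf g = 11 from hg] at this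
  omega

theorem exists_hs {w : H} (hw : Eqv z w (φ vO * s)) : ∃ k, k * z = z * k ∧
    s * (k * w * k⁻¹) ≠ k * w * k⁻¹ * s ∧ ¬ Ov z φ TyT (k * w * k⁻¹ * s) := by
  have zz := h.d.lx.z_sq
  let x : leechPerpU := vO - uP
  have hx : Eqv z w (φ x) := eqv_of_sm h.d (hw.trans zz (eqv_mul_phi h.d (Eqv.refl _ _) h.hs))
    (.inl ⟨leechU', by simp [x]⟩)
  have x1 : nm x = 48 := by decide
  obtain ⟨g, g1, g2⟩ := exists_std_hs x1 sqNorm_leechU (by decide)
  obtain ⟨b, rfl⟩ : ∃ b, b = g⁻¹ • v44 (some 1) (some 2) 4 rfl := ⟨_, rfl⟩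
  obtain ⟨k, k1, k2⟩ := exists_std_pair (w := g⁻¹ • v44 (some 1) (some 2) 4 rfl) sqNorm_leechU
    ((nm_smul _ _).trans (by decide)) (by
      change dt _ _ = _
      rw [← dt_smul g, g2, smul_inv_smul]; decide)
  have k3 : dt leechU' (k • (x : leechLattice)) = 8 := by
    rw [← k2, dt_smul, ← dt_smul g, g1, smul_inv_smul]; decide
  obtain ⟨c, rfl, -⟩ := h.d.exists_sm k1
  have a := h.d.conj_eqv c hx
  refine ⟨c, MonData.comm_z c, mt (h.d.comm_iff h.hs a).1 (by
    change ¬ dt leechU' (co2Incl (γ c) • (x : leechLattice)) % 16 = 0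
    omega), fun ⟨v, hv, e⟩ => ?_⟩
  have n : nm (co2Incl (γ c) • (x : leechLattice) - leechU') = 64 := by
    rw [nm_sub, nm_smul, x1, dt_comm, k3, show nm leechU' = 32 from sqNorm_leechU']; rfl
  have key : ∀ {r}, S16 r → ¬ Cg (co2Incl (γ c) • (x : leechLattice) + leechU') r := fun {r} hr f => by
    have r1 : nm r = 32 := hr.1
    rcases TA.cg_eq (f.symm.trans (TA.cg_sub _ _)) r1 n.le with p | p <;> rw [p] at r1
    · omega
    · rw [nm_neg] at r1; omega
  rcases sm_of_eqv h.d (eqv_mul_phi h.d a h.hs) e with f | f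
  · exact key ⟨hv.1, hv.2⟩ f
  · exact key (S16.sub ⟨hv.1, hv.2⟩) (f.trans ⟨v, by abel⟩)

end Std

end Cfsg.Agent.Mon.Bv
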