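import Cfsg.Agent.Mon.BvFam

/-! Uniqueness of the module of dimension `4371` of a group of Baby Monster type. -/

set_option autoImplicit false

namespace Cfsg.Agent.Mon.Bv

open Module Cfsg Cfsg.Agent.TT Cfsg.Agent.LES Subgroup

variable {H : Type*} [Group H] {F : Type*} [Field F] {V V' : Type*} [AddCommGroup V] [Module F V]
  [AddCommGroup V'] [Module F V'] {ρ : H →* End F V} {ρ' : H →* End F V'}
  {Pt : H → Prop} {T : H → H → Prop} {x y z s t a : H} [Finite H] [NeZero (2 : F)]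
  [FiniteDimensional F V] [FiniteDimensional F V']

/-- A family which vanishes on the fixed space of `Q` and agrees on `-1`-eigenspaces. -/
structure Fam1 (Pt : H → Prop) (ρ : H →* End F V) (ρ' : H →* End F V') (Φ : H → V →ₗ[F] V') :
    Prop where
  fam : Fam Pt ρ ρ' Φ
  zero : ∀ {x v}, Pt x → v ∈ Eig ρ (O2C x) 1 → Φ x v = 0
  neg : ∀ {x p v}, Pt x → Pt p → p ∈ O2C x → v ∈ Neg ρ p → Φ x v = Φ p v
  ne : ∀ {x}, Pt x → Φ x ≠ 0

variable (G : Geo Pt T) (W : Wt Pt T ρ) (W' : Wt Pt T ρ')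
include G W W'

theorem exists_fam1 : ∃ Φ, Fam1 Pt ρ ρ' Φ := by
  classical
  obtain ⟨z, -, h, -⟩ := G.ex
  have xs := G.xs h
  obtain ⟨f, f0, f1, f2⟩ := G.exists_phi W W' h
  obtain ⟨φ, rfl, B⟩ := G.exists_fam h f2
  choose! y y1 y2 using fun t => G.exists_odd_ln (t := t) h
  let g : V →ₗ[F] V' := (2 : F)⁻¹ • (φ z + φ z +
    ∑ t ∈ fs (O2C z), (if T z t then φ (y t) else 0) ∘ₗ pr ρ (O2C z) t)
  have g0 : ∀ v w, φ z v + φ z v + ∑ t ∈ fs (O2C z), (if T z t then φ (y t) else 0)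
      (pr ρ (O2C z) t v) = w + w → g v = w := fun v w e => by
    simp only [g, LinearMap.smul_apply, LinearMap.add_apply, LinearMap.sum_apply,
      LinearMap.comp_apply, e]
    rw [← two_smul F, smul_smul, inv_mul_cancel₀ two_ne_zero, one_smul]
  have fz : ∀ v, ρ z v = v → φ z v = 0 := fun v e => eq_zero_of_neg F (by rw [← f1, e])
  have g1 : ∀ v ∈ Eig ρ (O2C z) 1, g v = 0 := fun v hv => g0 v 0 (by
    rw [fz v (mem_Eig_one.1 hv z xs.z_mem), Finset.sum_eq_zero fun t ht => ?_, add_zero]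
    split_ifs with c
    · rw [pr_eq_zero (ch_of xs le_rfl (mem_fs.1 ht)) hv (y1 t c).mem (y1 t c).mem (by
        rw [sg_neg (y2 t c).symm, sg_pos (by simp)]; norm_num), map_zero]
    · rfl)
  have g2 : ∀ p, p = z ∨ Ln Pt z p → ∀ v ∈ Neg ρ p, g v = φ p v := fun p hp v hv => g0 v _ (by
    rcases hp with rfl | l
    · rw [Finset.sum_eq_zero fun t ht => ?_, add_zero]
      have := pr_app (ρ := ρ) (ch_of xs le_rfl (mem_fs.1 ht)) xs.z_mem v
      rw [hv, map_neg, sg_pos (xs.z_comm t (mem_fs.1 ht)).symm, one_smul] at this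
      rw [eq_zero_of_neg F this.symm, map_zero]
    have a := B.eqN G W W' l ⟨sub_mem_Neg xs.z_sq v, sub_mem hv (app_mem_Neg l.comm.symm hv)⟩
    rw [map_sub, f1, sub_neg_eq_add] at a
    rw [a, Finset.sum_congr (g := fun t => φ p (pr ρ (O2C z) t v)) rfl fun t ht => ?_, ← map_sum,
      sum_pr xs, ← map_add, ← map_add, sub_add_add_cancel]
    have ht := mem_fs.1 ht
    have m := pr_mem (ρ := ρ) (ch_of xs le_rfl ht) v
    by_cases e : pr ρ (O2C z) t v = 0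
    · simp [e]
    have o : p * t ≠ t * p := fun c => e (by
      have := pr_app (ρ := ρ) (ch_of xs le_rfl ht) l.mem v
      rw [hv, map_neg, sg_pos c, one_smul] at this
      exact eq_zero_of_neg F this.symm)
    rcases W.bot h ht ((Submodule.ne_bot_iff _).2 ⟨_, m, e⟩) with c | c | c
    · exact absurd (by simp [c]) o
    · exact absurd (c ▸ l.comm) o
    · rw [if_pos c, B.eqT G W W' (y1 t c) l c (y2 t c).symm o m])
  obtain ⟨Φ, hΦ, B'⟩ := G.exists_fam h (f := g) fun c hc v =>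
    W.span G h (M := (g ∘ₗ ρ c).eqLocus (ρ' c ∘ₗ g)) (fun v hv => show g _ = ρ' c (g v) by
      rw [g1 v hv, g1 _ (A_conj' hc hv), map_zero]) (fun p hp v hv => show g _ = ρ' c (g v) by
      rw [g2 p hp v hv, g2 _ (hp.imp (fun e => e ▸ conj_eq_of_comm (e ▸ hc)) fun l => G.lc' l hc) _
        (map_mem_Neg hv c), B c p (hp.elim (· ▸ h) (·.q))]) v
  rw [← hΦ] at g1 g2
  have key : ∀ {x p v}, Pt x → Pt p → p ∈ O2C x → v ∈ Neg ρ p → Φ x v = φ p v :=
    fun {x p v} a b c d => by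
      obtain ⟨k, rfl⟩ := G.ptrans a h
      have := g2 (k * p * k⁻¹) (or_iff_not_imp_left.2 fun e =>
        ⟨h, G.pc b k, (mem_Q_conj k).2 c, e⟩) _ (map_mem_Neg d k)
      rw [B' k x a, B k p b] at this
      rw [← inv_app (ρ := ρ') k (Φ x v), this, inv_app]
  refine ⟨Φ, B', fun {x v} a b => ?_, fun a b c d => (key a b c d).trans
    (key b b (G.xs b).z_mem d).symm, fun {x} a e => f0 (LinearMap.ext fun v => ?_)⟩
  · obtain ⟨k, rfl⟩ := G.ptrans a h
    have := g1 _ (A_conj k b)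
    rw [B' k x a] at this
    by_contra c
    exact app_ne c k this
  · obtain ⟨k, rfl⟩ := G.ptrans a h
    have := key h h xs.z_mem (sub_mem_Neg xs.z_sq v)
    rw [← app_inv (ρ := ρ) k (v - _), B' k x a, e, app_inv, LinearMap.zero_apply, map_zero, map_sub,
      f1, sub_neg_eq_add, eq_comm, add_eq_zero_iff_eq_neg] at this
    exact eq_zero_of_neg F this

theorem Fam1.exists_psi {Φ : H → V →ₗ[F] V'} (B : Fam1 Pt ρ ρ' Φ) (hn : finrank F V ≤ 4371)
    (hn' : finrank F V' ≤ 4371) (l : Ln Pt z s) : ∃ y, Ln Pt z y ∧ Ln Pt s y ∧ ∀ c, c * z = z * c →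
      c ∈ Cm ρ ρ' (Φ s + Φ y ∘ₗ pr ρ (O2C s) 1) (Eig ρ (O2C z) 1) := by
  obtain ⟨y, a, l', m, n, a1, a2, a3, gen⟩ := G.plane l
  have one : ∀ {x}, Pt x → Ch (O2C x) 1 := fun h => ch_of (G.xs h) le_rfl (one_mem _)
  have mu : ∀ w ∈ Eig ρ (O2C z) 1 ⊓ Eig ρ (O2C s) 1,
      Φ y w ∈ Eig ρ' (O2C z) 1 ⊓ Eig ρ' (O2C s) 1 := fun w hw =>
    ⟨B.fam.mapA G W' l' hw.1, B.fam.mapA G W' m hw.2⟩
  have inv := gen (Cm ρ ρ' (Φ y) (Eig ρ (O2C z) 1 ⊓ Eig ρ (O2C s) 1))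
    (fun r hr w hw => by
      rw [mem_Eig_one.1 hw.1 r hr, mem_Eig_one.1 (mu w hw).1 r hr]; exact ⟨hw, rfl⟩)
    (fun r hr w hw => by
      rw [mem_Eig_one.1 hw.2 r hr.1, mem_Eig_one.1 (mu w hw).2 r hr.1]; exact ⟨hw, rfl⟩)
    fun k x k1 k2 x1 x2 x3 w hw => by
      refine ⟨⟨A_conj' x1 hw.1, A_conj' x2 hw.2⟩, ?_⟩
      have b1 := comm_mul_left (comm_mul_left (comm_inv_left k1) x1) k1
      have b2 := comm_mul_left (comm_mul_left (comm_inv_left k2) x2) k2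
      have e : x = k⁻¹ * x * k * ((k⁻¹ * x * k)⁻¹ * k⁻¹⁻¹ * (k⁻¹ * x * k) * k⁻¹) := by group
      nth_rw 1 [e]
      nth_rw 4 [e]
      rw [← app_app, ← app_app (ρ := ρ'), comm_fix ((W.dim_A0 G l).2 hn)
        (fun v hv => ⟨A_conj' b1 hv.1, A_conj' b2 hv.2⟩) (fun v hv =>
          ⟨A_conj' (comm_inv_left k1) hv.1, A_conj' (comm_inv_left k2) hv.2⟩) hw,
        comm_fix ((W'.dim_A0 G l).2 hn') (fun v hv => ⟨A_conj' b1 hv.1, A_conj' b2 hv.2⟩) (fun v hv =>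
          ⟨A_conj' (comm_inv_left k1) hv.1, A_conj' (comm_inv_left k2) hv.2⟩) (mu w hw)]
      exact B.fam.com l'.q (by simpa [mul_assoc] using comm_conj k⁻¹ x3) w
  have ly : Ln Pt z (y * s) := ⟨l.p, (G.mul m).q, mul_mem l'.mem l.mem, fun e => n (by
    rw [← e, m.comm, ← mul_assoc, (G.xs l.q).z_sq, one_mul])⟩
  have sym : ∀ v ∈ Eig ρ (O2C z) 1, (Φ s + Φ y ∘ₗ pr ρ (O2C s) 1) v =
      (Φ y + Φ s ∘ₗ pr ρ (O2C y) 1) v := fun v hv => by
    let M := (Φ s + Φ y ∘ₗ pr ρ (O2C s) 1).eqLocus (Φ y + Φ s ∘ₗ pr ρ (O2C y) 1)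
    have hM : ∀ {v}, Φ s v + Φ y (pr ρ (O2C s) 1 v) = Φ y v + Φ s (pr ρ (O2C y) 1 v) → v ∈ M := id
    have h1 : v - pr ρ (O2C s ⊓ O2C y) 1 v ∈ M := G.sub_pr_mem m (fun p b c d u hu => hM (by
      rw [pr_neg (one l.q) c hu, pr_neg (one l'.q) d hu, B.neg l.q b c hu, B.neg l'.q b d hu,
        map_zero, map_zero])) v
    have h2 : pr ρ (O2C s ⊓ O2C y) 1 v ∈ Eig ρ (O2C z) 1 := pr_mem_of 1 fun k hk =>
      A_conj' (E_comm (G.pair m) hk ⟨(G.symm l).mem, (G.symm l').mem⟩) hv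
    have hK : Cq z s ⊓ centralizer {y} ≤ O2C z := inf_le_left.trans inf_le_left
    have ch := ch_of (G.xs l.p) hK (one_mem _)
    have h3 : ∀ {x u}, (∀ k ∈ Cq z s ⊓ centralizer {y}, k * x = x * k) → u ∈ Eig ρ (O2C x) 1 →
        pr ρ (Cq z s ⊓ centralizer {y}) 1 u ∈ Eig ρ (O2C z) 1 ⊓ Eig ρ (O2C x) 1 := fun b c =>
      ⟨W.fixP G l l' m.mem (pr_mem ch _), pr_mem_of 1 fun k hk => A_conj' (b k hk) c⟩
    have h4 : Eig ρ (O2C s) 1 ⊔ Eig ρ (O2C y) 1 ⊔ Eig ρ (O2C (y * s)) 1 ≤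
        M.comap (pr ρ (Cq z s ⊓ centralizer {y}) 1) := sup_le (sup_le (fun u hu => hM (by
        have b := h3 (fun k hk => (mem_Cq.1 hk.1).2) hu
        rw [B.zero l.q b.2, pr_id (one l.q) b.2, W.pi_zero G hn l l' m n a1 a2 a3 b, map_zero,
          zero_add, add_zero])) fun u hu => hM (by
        have b := h3 (fun k hk => mem_centralizer_singleton_iff.1 hk.2) hu
        rw [B.zero l'.q b.2, pr_id (one l'.q) b.2, W.pi_zero G hn l' l (G.symm m) (fun e => n (by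
          rw [e, (G.xs l.p).mul_z_z])) a1 a3 a2 b, map_zero, zero_add, add_zero])) fun u hu => hM (by
        have b := h3 (fun k hk => (comm_mul_left (mem_centralizer_singleton_iff.1 hk.2).symm
          (mem_Cq.1 hk.1).2.symm).symm) hu
        have c := G.third m a2 a3
        rw [W.pi_zero G hn ly l (G.symm (G.mul m)) (fun e => l'.ne (by
            rw [m.comm, mul_assoc, left_eq_mul] at e
            rw [eq_inv_of_mul_eq_one_left e, (G.xs l.p).z_inv])) a1 c a2 b,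
          W.pi_zero G hn ly l' (G.symm (G.mul' m)) (fun e => l.ne (by
            rw [mul_assoc, left_eq_mul] at e
            rw [eq_inv_of_mul_eq_one_left e, (G.xs l.p).z_inv])) a1 c a3 b,
          B.fam.eqA G W' m b.2, map_zero, map_zero])
    have h5 := h4 (W.fixE G m (pr_mem (ch_of (G.xs l.q) inf_le_left (one_mem _)) v))
    rw [Submodule.mem_comap, pr_id ch (Eig_mono hK 1 h2)] at h5
    have := add_mem h1 h5
    rwa [sub_add_cancel] at this
  obtain ⟨x, x1, x2, x3⟩ : ∃ x ∈ O2C (y * s), x * z = z * x ∧ x * s * x⁻¹ = s * (y * s) :=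
    G.exists_nc (G.symm ly) (G.symm (G.mul m)).mem (by
      rintro (e | e | e | e)
      exacts [(G.xs l.q).z_ne e, (G.xs l'.q).z_ne (by simpa using e), l.ne e, l'.ne (by
        rw [← mul_assoc, right_eq_mul] at e
        rw [eq_inv_of_mul_eq_one_right e, (G.xs l.p).z_inv])])
  rw [m.comm, ← mul_assoc, (G.xs l.q).z_sq, one_mul] at x3
  have x4 : x * y * x⁻¹ = s := by
    have := conj_eq_of_comm (comm_of_mem_O2C x1)
    rw [← conj_mul, x3, m.comm] at this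
    exact mul_right_cancel this
  refine ⟨y, l', m, fun c hc => G.gen_C l (fun c c1 c2 => mem_Cm.2 fun v hv => ⟨A_conj' c1 hv, ?_⟩)
    (x := x) (mem_Cm.2 fun v hv => ⟨A_conj' x2 hv, ?_⟩) x2 (by rw [x3]; exact fun e => e.elim m.ne n) hc⟩
  · have b1 := B.fam c s l.q v
    have b2 := pi_conj (ρ := ρ) (x := s) c v
    have b3 := A_conj' c1 hv
    have b4 := (inv c c1 c2 _ (W.pi_mem G l hv)).2
    simp only [LinearMap.add_apply, LinearMap.comp_apply, map_add]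
    rcases c2 with e | e <;> rw [e] at b1 b2
    · rw [b1, ← b2, b4]
    · rw [← B.fam.eqA G W' (G.mul' l) (by rwa [l.comm, (G.xs l.q).mul_z_z])] at b1
      rw [W.pi_eq G l b3] at b2
      rw [b1, ← b2, b4]
  · rw [sym v hv]
    simp only [LinearMap.add_apply, LinearMap.comp_apply, map_add]
    rw [← B.fam x y l'.q, ← B.fam x s l.q, pi_conj, x3, x4]

theorem Geo.exists_com (hn : finrank F V ≤ 4371) (hn' : finrank F V' ≤ 4371) (l : Ln Pt z s) :
    ∃ f : V →ₗ[F] V', f ≠ 0 ∧ ∀ c, c * z = z * c ∨ c * s = s * c → c ∈ Fx (Hm ρ ρ') f := by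
  obtain ⟨Φ, B⟩ := exists_fam1 G W W'
  obtain ⟨y, l', m, inv⟩ := B.exists_psi G W W' hn hn' l
  have one : ∀ {x}, Pt x → Ch (O2C x) 1 := fun h => ch_of (G.xs h) le_rfl (one_mem _)
  obtain ⟨Θ, e, C⟩ := G.exists_fam (ρ := ρ) (ρ' := ρ') l.p
    (f := Φ z + (Φ s + Φ y ∘ₗ pr ρ (O2C s) 1) ∘ₗ pr ρ (O2C z) 1) fun c hc v => by
      have := pi_conj (ρ := ρ) (x := z) c v
      rw [conj_eq_of_comm hc] at this
      rw [LinearMap.add_apply, LinearMap.add_apply _ _ v, LinearMap.comp_apply,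
        LinearMap.comp_apply _ _ v, B.fam.com l.p hc, ← this, (inv c hc _ (pr_mem (one l.p) v)).2,
        map_add]
  obtain ⟨τ, t1, t2, t3⟩ := G.swap l
  have e1 : ∀ v, Θ z v = Φ z v + (Φ s + Φ y ∘ₗ pr ρ (O2C s) 1) (pr ρ (O2C z) 1 v) := fun v => by
    rw [e]; rfl
  have e2 : ∀ v, Θ s v = Φ s v + ρ' τ ((Φ s + Φ y ∘ₗ pr ρ (O2C s) 1)
      (ρ τ⁻¹ (pr ρ (O2C s) 1 v))) := fun v => by
    have := C τ z l.p (ρ τ⁻¹ v)
    rw [e1, map_add, ← B.fam τ z l.p, t2, app_inv] at this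
    rw [this, pi_conj, ← t2]
    simp [mul_assoc]
  have h1 : ∀ v ∈ Eig ρ (O2C z) 1, Θ z v = Θ s v := fun v hv => by
    have a := W.pi_mem G l hv
    rw [e1, e2, B.zero l.p hv, pr_id (one l.p) hv, zero_add, mem_Eig_one.1 (G.A_third l a) _
      (inv_mem t1)]
    simp only [LinearMap.add_apply, LinearMap.comp_apply]
    rw [B.zero l.q a.2, pr_id (one l.q) a.2, zero_add, mem_Eig_one.1 (G.A_third l
      ⟨B.fam.mapA G W' l' a.1, B.fam.mapA G W' m a.2⟩) τ t1]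
  have h2 : ∀ v, Θ z v = Θ s v := fun v => by
    have a : v - pr ρ (O2C z ⊓ O2C s) 1 v ∈ (Θ z).eqLocus (Θ s) :=
      G.sub_pr_mem l (fun p b c d u hu => show Θ z u = Θ s u by
        rw [e1, e2, pr_neg (one l.p) c hu, pr_neg (one l.q) d hu, B.neg l.p b c hu, B.neg l.q b d hu]
        simp) v
    have b : Eig ρ (O2C z) 1 ⊔ Eig ρ (O2C s) 1 ⊔ Eig ρ (O2C (s * z)) 1 ≤ (Θ z).eqLocus (Θ s) :=
      sup_le (sup_le h1 fun u hu => by
        have c := h1 _ (t3 ▸ A_conj τ hu)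
        have d := C τ s l.q u
        have f := C τ z l.p u
        rw [t3] at d
        rw [t2, ← c, d] at f
        change Θ z u = Θ s u
        rw [← inv_app (ρ := ρ') τ (Θ z u), ← f, inv_app]) fun u hu => C.eqA G W' l hu
    have := add_mem a (b (W.fixE G l (pr_mem (ch_of (G.xs l.p) inf_le_left (one_mem _)) v)))
    rwa [sub_add_cancel] at this
  refine ⟨Θ z, fun a => B.ne l.p (LinearMap.ext fun v => W.span G l.p (M := LinearMap.ker (Φ z))
    (fun u hu => B.zero l.p hu) (fun p hp u hu => ?_) v), fun c hc => mem_Fx_Hm.2 fun v => ?_⟩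
  · have := e1 u
    rwa [pr_neg (one l.p) (hp.elim (· ▸ (G.xs l.p).z_mem) (·.mem)) hu, map_zero, add_zero, a,
      eq_comm] at this
  · rcases hc with hc | hc
    · exact C.com l.p hc v
    · rw [h2, h2, C.com l.q hc]

omit W W' in
theorem Geo.uniq (l : Ln Pt z s)
    (gen : ∀ K : Subgroup H, (∀ c, c * z = z * c ∨ c * s = s * c → c ∈ K) → K = ⊤)
    (h : ρ z ≠ 1) (h' : ρ' z ≠ 1) (hn : finrank F V ≤ 4371) (hn' : finrank F V' ≤ 4371) :
    ∃ e : V ≃ₗ[F] V', ∀ g v, e (ρ g v) = ρ' g (e v) := by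
  obtain ⟨f, f0, f1⟩ := G.exists_com (G.wt l.p h hn) (G.wt l.p h' hn') hn hn' l
  have f2 := fun g => mem_Fx_Hm.1 ((gen _ f1).ge (mem_top g))
  refine ⟨.ofBijective f ⟨LinearMap.ker_eq_bot.1 ((G.irred l.p h hn _ fun g v hv => ?_).resolve_right
    (mt LinearMap.ker_eq_top.1 f0)), LinearMap.range_eq_top.1 ((G.irred l.p h' hn' _ ?_).resolve_left
    (mt LinearMap.range_eq_bot.1 f0))⟩, f2⟩
  · rw [LinearMap.mem_ker, f2, hv, map_zero]
  · rintro g _ ⟨v, rfl⟩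
    exact ⟨_, f2 g v⟩

end Cfsg.Agent.Mon.Bv
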