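import Cfsg.Agent.Mon.BvGeo
import Cfsg.Agent.Mon.CntE_a

/-! The weights of `2^{1+22}` on a small module of a group of Baby Monster type. -/

set_option autoImplicit false

namespace Cfsg.Agent.Mon.Bv

open Module Cfsg Cfsg.Agent.TT Cfsg.Agent.LES Subgroup

variable {H : Type*} [Group H] {F : Type*} [Field F] {V : Type*} [AddCommGroup V] [Module F V]
  {ρ : H →* End F V}

/-- The centraliser of `y` in `Q(x)`. -/
abbrev Cq (x y : H) : Subgroup H := O2C x ⊓ centralizer {y}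

theorem mem_Cq {x y a : H} : a ∈ Cq x y ↔ a ∈ O2C x ∧ a * y = y * a :=
  and_congr_right fun _ => mem_centralizer_singleton_iff

theorem Eig_conj {x t : H} (g : H) {v : V} (h : v ∈ Eig ρ (O2C x) t) :
    ρ g v ∈ Eig ρ (O2C (g * x * g⁻¹)) (g * t * g⁻¹) :=
  map_mem_Eig (fun k hk => (mem_Q_conj g).1 (by simpa [mul_assoc] using hk)) h

theorem Eig_conj' {x t g : H} (e : g * x = x * g) {v : V} (h : v ∈ Eig ρ (O2C x) t) :
    ρ g v ∈ Eig ρ (O2C x) (g * t * g⁻¹) := by simpa only [conj_eq_of_comm e] using Eig_conj g h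

theorem Eig_ne_conj {x t g : H} (e : g * x = x * g) (h : Eig ρ (O2C x) t ≠ ⊥) :
    Eig ρ (O2C x) (g * t * g⁻¹) ≠ ⊥ := by
  obtain ⟨v, a, b⟩ := (Submodule.ne_bot_iff _).1 h
  exact (Submodule.ne_bot_iff _).2 ⟨_, Eig_conj' e a, app_ne b g⟩

theorem odd_conj {c s u : H} (e : c * s = s * c) (h : s * u ≠ u * s) :
    s * (c * u * c⁻¹) ≠ c * u * c⁻¹ * s := fun a => h (by
  rw [← conj_eq_of_comm e, conj_mul, conj_mul] at a
  simpa using a)

theorem eqv_of_sg {Q : Subgroup H} {z a b : H} (h : XS Q z) (ha : a ∈ Q) (hb : b ∈ Q)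
    (e : ∀ k ∈ Q, sg k a = sg k b) : Eqv z a b := by
  have := h.cent _ (mul_mem (inv_mem hb) ha) fun k hk => by
    rw [eq_comm, ← sg_eq_one, sg_mul' h (inv_mem hb) ha hk, e k hk, ← sg_mul' h (inv_mem hb) hb hk,
      sg_pos (by simp)]
  exact this.imp (fun e => (inv_mul_eq_one.1 e).symm) inv_mul_eq_iff_eq_mul.1

theorem fix_of_neg {x y : H} {v : V} (h : v ∈ Neg ρ x ⊓ Neg ρ y) : ρ (x * y) v = v := by
  rw [← app_app, h.2, map_neg, h.1, neg_neg]

theorem neg_of_fix {x y : H} {v : V} (h : v ∈ Neg ρ x) (h' : ρ y v = v) : v ∈ Neg ρ (x * y) := by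
  rw [mem_Neg, ← app_app, h', h]

theorem app_mem_Neg {x y : H} (e : y * x = x * y) {v : V} (h : v ∈ Neg ρ x) : ρ y v ∈ Neg ρ x := by
  simpa only [conj_eq_of_comm e] using map_mem_Neg h y

theorem finrank_add_le [FiniteDimensional F V] {U W X : Submodule F V}
    (h : ∀ v ∈ U, v ∈ W → v = 0) (h1 : U ≤ X) (h2 : W ≤ X) :
    finrank F U + finrank F W ≤ finrank F X := by
  rw [← Submodule.finrank_sup_add_finrank_inf_eq,
    (Submodule.eq_bot_iff (U ⊓ W)).2 fun v a => h v a.1 a.2, finrank_bot, add_zero]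
  exact Submodule.finrank_mono (sup_le h1 h2)

/-- The weights of the extraspecial groups. -/
structure Wt (Pt : H → Prop) (T : H → H → Prop) (ρ : H →* End F V) : Prop where
  one : ∀ {x t}, Pt x → T x t → finrank F (Eig ρ (O2C x) t) = 1
  bot : ∀ {x t}, Pt x → t ∈ O2C x → Eig ρ (O2C x) t ≠ ⊥ → t = 1 ∨ t = x ∨ T x t
  orb : ∀ {z s t u}, Ln Pt z s → T z t → T z u → s * t ≠ t * s → s * u ≠ u * s →
    ∃ p ∈ O2C s, p * z = z * p ∧ p * t * p⁻¹ = u
  big : ∀ {z s}, Ln Pt z s → 1024 ≤ finrank F (Neg ρ z ⊓ Neg ρ s : Submodule F V)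

variable [Finite H] [NeZero (2 : F)]

theorem mem_of_odd {Q : Subgroup H} {z s : H} (h : XS Q z) (hs : s ∈ Q) {M : Submodule F V} {v : V}
    (hv : v ∈ Neg ρ s) (hz : ρ z v = v) (hM : ∀ t ∈ Q, s * t ≠ t * s → Eig ρ Q t ≤ M) : v ∈ M :=
  mem_of_pr h hz fun t ht e => hM t ht (fun a => e (by
    have := pr_app (ρ := ρ) (ch_of h le_rfl ht) hs v
    rw [hv, map_neg, sg_pos a, one_smul] at this
    exact eq_zero_of_neg F this.symm)) (pr_mem (ch_of h le_rfl ht) v)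

namespace Geo

variable {Pt : H → Prop} {T : H → H → Prop} (G : Geo Pt T) {x y z s t a b : H}
  [FiniteDimensional F V]
include G

omit [NeZero (2 : F)] in
theorem neg_le (l : Ln Pt x y) (l' : Ln Pt z s) : finrank F (Neg ρ x ⊓ Neg ρ y : Submodule F V) ≤
    finrank F (Neg ρ z ⊓ Neg ρ s : Submodule F V) := by
  obtain ⟨g, rfl, rfl⟩ := G.transLL l l'
  exact finrank_le_of_map g fun v hv => ⟨map_mem_Neg hv.1 g, map_mem_Neg hv.2 g⟩

theorem two_add_le (l : Ln Pt z s) {W : Submodule F V} (hW : ∀ v ∈ W, ρ z v = v) :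
    2 * finrank F (Neg ρ z ⊓ Neg ρ s : Submodule F V) + finrank F W ≤ finrank F V := by
  have h1 := finrank_add_le (U := Neg ρ z ⊓ Neg ρ s) (W := Neg ρ z ⊓ Neg ρ (s * z)) (X := Neg ρ z)
    (fun v a b => eq_zero_of_neg F ((fix_of_neg ⟨a.2, a.1⟩).symm.trans b.2)) inf_le_left inf_le_left
  have h2 := finrank_add_le (U := Neg ρ z) (W := W) (fun v a b => eq_zero_of_neg F
    ((hW v b).symm.trans a)) le_top le_top
  have h3 := G.neg_le (ρ := ρ) l (G.mul l)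
  rw [finrank_top] at h2
  omega

theorem card_Cq (l : Ln Pt z s) : Nat.card (Cq s z) = 2 ^ 22 := by
  have := card_P_eq (G.pair l)
  rw [G.card l.q] at this
  unfold Cq
  omega

open Classical in
theorem orbit_le (l : Ln Pt z s) (J : Finset H) {m : ℕ} (h1 : ∀ t ∈ J, t ∈ O2C z ∧ s * t ≠ t * s ∧
    m ≤ finrank F (Eig ρ (O2C z) t))
    (h2 : ∀ t ∈ J, ∀ u ∈ J, ∀ p ∈ Cq s z, Eqv z (p * t * p⁻¹) u → t = u) :
    m * J.card * 1024 ≤ finrank F (Neg ρ s ⊓ Neg ρ (s * z) : Submodule F V) := by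
  have xs := G.xs l.p
  have n : ∀ i ∈ J ×ˢ fs (Cq s z), i.2 * i.1 * i.2⁻¹ ∈ O2C z := fun i hi => by
    simp only [Finset.mem_product, mem_fs, mem_Cq] at hi
    exact (G.lx l.p).norm _ hi.2.2 _ (h1 _ hi.1).1
  have := card_le_finrank (ρ := ρ) (J ×ˢ fs (Cq s z)) (fun i => i.2 * i.1 * i.2⁻¹)
    (fun i hi => ch_of xs le_rfl (n i hi)) (Neg ρ s ⊓ Neg ρ (s * z)) (m := m) (r := 2 ^ 12)
    (fun i hi => ?_) fun i hi => ?_
  · rw [Finset.card_product, card_fs, G.card_Cq l] at this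
    nlinarith
  · simp only [Finset.mem_product, mem_fs, mem_Cq] at hi
    obtain ⟨a, b, c⟩ := h1 _ hi.1
    refine c.trans (finrank_le_of_map (ρ := ρ) i.2 fun v hv => ⟨?_, Eig_conj' hi.2.2 hv⟩)
    have d := app_mem_Neg (comm_of_mem_O2C hi.2.1) (Eig.neg hv l.mem b)
    exact ⟨d, neg_of_fix d (Eig.fix (Eig_conj' hi.2.2 hv) xs.z_mem
      (xs.z_comm _ ((G.lx l.p).norm _ hi.2.2 _ a)).symm)⟩
  · rw [← G.card_E l, ← card_fs]
    have key : ∀ j ∈ J ×ˢ fs (Cq s z), (∀ k ∈ O2C z, sg k (j.2 * j.1 * j.2⁻¹) =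
        sg k (i.2 * i.1 * i.2⁻¹)) → j.1 = i.1 ∧ i.2⁻¹ * j.2 ∈ O2C z ⊓ O2C s := fun j hj e => by
      have a := eqv_of_sg xs (n j hj) (n i hi) e
      simp only [Finset.mem_product, mem_fs] at hi hj
      have b : Eqv z (i.2⁻¹ * j.2 * j.1 * (i.2⁻¹ * j.2)⁻¹) i.1 := by
        simpa [mul_assoc] using a.conj (comm_inv_left (mem_Cq.1 hi.2).2)
      have c := mul_mem (inv_mem hi.2) hj.2
      have d := h2 _ hj.1 _ hi.1 _ c b
      rw [← d] at b
      refine ⟨d, G.free (G.symm l) c.1 (h1 _ hj.1).1 (h1 _ hj.1).2.1.symm ?_, c.1⟩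
      refine Eqv.mem (G.symm l).mem (one_mem _) ?_
      simpa using b.mul_right (comm_inv_left (xs.z_comm _ (h1 _ hj.1).1))
    refine Finset.card_le_card_of_injOn (fun j => i.2⁻¹ * j.2) (fun j hj => ?_) fun j hj k hk e => ?_
    · simp only [Finset.coe_filter, Set.mem_ofPred_eq] at hj
      simpa using (key j hj.1 hj.2).2
    · simp only [Finset.coe_filter, Set.mem_ofPred_eq] at hj hk
      exact Prod.ext ((key j hj.1 hj.2).1.trans (key k hk.1 hk.2).1.symm) (mul_left_cancel e)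

omit [FiniteDimensional F V] [Finite H] [NeZero (2 : F)] in
theorem neg_ne (h : Pt z) (hz : ρ z ≠ 1) : Neg ρ z ≠ ⊥ := fun e => hz (LinearMap.ext fun v => by
  have := sub_mem_Neg (ρ := ρ) (G.xs h).z_sq v
  rw [e, Submodule.mem_bot, sub_eq_zero] at this
  exact this.symm)

theorem wt (h0 : Pt x) (hx : ρ x ≠ 1) (hn : finrank F V ≤ 4371) : Wt Pt T ρ := by
  classical
  have hz : ∀ {z}, Pt z → ρ z ≠ 1 := fun {z} h e => by
    obtain ⟨g, rfl⟩ := G.ptrans h h0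
    exact hx (by rw [map_mul, map_mul, e, mul_one, ← map_mul, mul_inv_cancel, map_one])
  have le : ∀ {z s}, Ln Pt z s → finrank F (Neg ρ s ⊓ Neg ρ (s * z) : Submodule F V) ≤ 1457 :=
    fun {z s} l => by
      have h1 := G.two_add_le (ρ := ρ) l (W := Neg ρ s ⊓ Neg ρ (s * z)) fun v hv => by
        simpa [← mul_assoc, (G.xs l.q).z_sq] using fix_of_neg hv
      have h2 := G.neg_le (ρ := ρ) (G.mul' l) l
      omega
  have two : ∀ {z s t u}, Ln Pt z s → t ∈ O2C z → u ∈ O2C z → s * t ≠ t * s → s * u ≠ u * s →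
      Eig ρ (O2C z) t ≠ ⊥ → Eig ρ (O2C z) u ≠ ⊥ → ∃ p ∈ Cq s z, p * t * p⁻¹ = u :=
    fun {z s t u} l a b c d e f => by
      obtain ⟨p, hp, h⟩ : ∃ p ∈ Cq s z, Eqv z (p * t * p⁻¹) u := by
        by_contra hc
        push Not at hc
        have ne : t ≠ u := fun e => hc 1 (one_mem _) (.inl (by simp [e]))
        have := G.orbit_le (ρ := ρ) l {t, u} (m := 1) (by
          simpa [a, b, c, d, Nat.one_le_iff_ne_zero] using ⟨e, f⟩) (by
          simp only [Finset.mem_insert, Finset.mem_singleton]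
          rintro _ (rfl | rfl) _ (rfl | rfl) p hp h
          exacts [rfl, absurd h (hc p hp), absurd (by simpa [mul_assoc] using
            (h.conj (comm_inv_left (mem_Cq.1 hp).2)).symm (G.xs l.p).z_sq) (hc _ (inv_mem hp)), rfl])
        have := le l
        rw [Finset.card_pair ne] at *
        omega
      rcases h with h | h
      · exact ⟨p, hp, h⟩
      · refine ⟨s * p, mul_mem (mem_Cq.2 ⟨(G.xs l.q).z_mem, l.comm⟩) hp, ?_⟩
        rw [show s * p * t * (s * p)⁻¹ = s * (p * t * p⁻¹) * s⁻¹ by group, h, ← conj_mul,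
          (G.xs l.p).conj_of_ne l.mem b d, conj_eq_of_comm l.comm, (G.xs l.p).mul_z_z]
  have ex : ∀ {z s}, Ln Pt z s → ∃ t ∈ O2C z, s * t ≠ t * s ∧ Eig ρ (O2C z) t ≠ ⊥ := fun {z s} l => by
    by_contra hc
    push Not at hc
    have h1 : ∀ {x y}, Ln Pt x y → ∀ v ∈ Neg ρ x ⊓ Neg ρ y, v = 0 := fun l' => by
      have := G.neg_le (ρ := ρ) l' (G.mul' l)
      rw [show Neg ρ s ⊓ Neg ρ (s * z) = ⊥ from eq_bot_iff.2 fun v hv => mem_of_odd (G.xs l.p) l.mem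
        hv.1 (by simpa [← mul_assoc, (G.xs l.q).z_sq] using fix_of_neg hv) fun t a b => (hc t a b).le,
        finrank_bot, Nat.le_zero, Submodule.finrank_eq_zero, Submodule.eq_bot_iff] at this
      exact this
    refine G.neg_ne l.p (hz l.p) (eq_bot_iff.2 fun v hv => mem_of_split (ρ := ρ) (x := s)
      (h1 (G.mul l) _ ⟨add_mem hv (app_mem_Neg l.comm hv), ?_⟩)
      (h1 l _ ⟨sub_mem hv (app_mem_Neg l.comm hv), sub_mem_Neg (G.xs l.q).z_sq v⟩))
    exact l.comm ▸ neg_of_fix (add_mem hv (app_mem_Neg l.comm hv)) (add_fix (G.xs l.q).z_sq v)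
  have odd : ∀ {z s}, Ln Pt z s → ∃ t, T z t ∧ s * t ≠ t * s ∧ Eig ρ (O2C z) t ≠ ⊥ := fun {z s} l => by
    obtain ⟨w, w1, w2, w3⟩ := ex l
    obtain ⟨t, c, a1, a2, a3, a4, a5, a6, a7⟩ := G.eleven l
    have h1 := CE.card_eq_of_trans (Cq s z) w
      (T := {u | u ∈ O2C z ∧ s * u ≠ u * s ∧ Eig ρ (O2C z) u ≠ ⊥}) fun u =>
      ⟨fun a => two l w1 a.1 w2 a.2.1 w3 a.2.2, by
        rintro ⟨p, hp, rfl⟩
        exact ⟨(G.lx l.p).norm _ (mem_Cq.1 hp).2 _ w1, odd_conj (comm_of_mem_O2C hp.1) w2,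
          Eig_ne_conj (mem_Cq.1 hp).2 w3⟩⟩
    rw [G.card_Cq l] at h1
    obtain ⟨u, ⟨u1, u2, u3⟩, u4⟩ := exists_fixed a3
      (S := {u | u ∈ O2C z ∧ s * u ≠ u * s ∧ Eig ρ (O2C z) u ≠ ⊥}) (fun u hu =>
        ⟨(G.lx l.p).norm _ a4 _ hu.1, odd_conj a5 hu.2.1, Eig_ne_conj a4 hu.2.2⟩) fun e => by
        have := e.trans (Dvd.intro _ h1.symm)
        omega
    rcases a6 u u1 u2 u4 with e | e
    · exact ⟨u, G.teqv l.p a1 e, u2, u3⟩
    obtain ⟨k, k1, k2, k3⟩ := a7 u e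
    obtain ⟨p, hp, e'⟩ := two l u1 ((G.lx l.p).norm _ k1 _ u1) u2 k2 u3 (Eig_ne_conj k1 u3)
    refine absurd ?_ k3
    rw [← e', ← conj_eq_of_comm (comm_of_mem_O2C hp.1), conj_mul]
    refine G.tc' (G.teqv l.p a1 ?_) (mem_Cq.1 hp).2
    simpa only [(G.xs l.q).mul_z_z] using e.mul_right l.comm
  have ne : ∀ {x t}, Pt x → T x t → Eig ρ (O2C x) t ≠ ⊥ := fun h a => by
    obtain ⟨s, l⟩ := G.exists_ln h
    obtain ⟨u, b, -, c⟩ := odd l
    obtain ⟨k, d, rfl⟩ := G.transT h b a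
    exact Eig_ne_conj d c
  have mult : ∀ {z s t}, Ln Pt z s → T z t → s * t ≠ t * s → finrank F (Eig ρ (O2C z) t) * 1024 ≤
      finrank F (Neg ρ s ⊓ Neg ρ (s * z) : Submodule F V) := fun {z s t} l a b => by
    simpa using G.orbit_le (ρ := ρ) l {t} (m := finrank F (Eig ρ (O2C z) t))
      (by simp [(G.tne l.p a).1, b]) (by simp +contextual)
  refine ⟨fun h a => ?_, fun {x t} h a b => ?_, fun l a b c d => ?_, fun l => ?_⟩
  · obtain ⟨y, l, b⟩ := G.exists_odd_ln h a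
    have := mult l a b.symm
    have := le l
    have := mt Submodule.finrank_eq_zero.1 (ne h a)
    omega
  · by_contra hc
    simp only [not_or] at hc
    obtain ⟨s, l⟩ := G.exists_ln h
    obtain ⟨u, c, d, e⟩ := odd l
    obtain ⟨k, f, g⟩ := G.exists_odd h l.mem (G.xs l.q).z_ne l.ne a hc.1 hc.2.1
    obtain ⟨p, hp, e'⟩ := two l (G.tne h c).1 ((G.lx h).norm _ f _ a) d g e (Eig_ne_conj f b)
    have := G.tc' c (comm_mul_left (comm_inv_left f) (mem_Cq.1 hp).2)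
    rw [show k⁻¹ * p * u * (k⁻¹ * p)⁻¹ = k⁻¹ * (p * u * p⁻¹) * k by group, e'] at this
    exact hc.2.2 (by simpa [mul_assoc] using this)
  · obtain ⟨p, hp, e⟩ := two l (G.tne l.p a).1 (G.tne l.p b).1 c d (ne l.p a) (ne l.p b)
    exact ⟨p, hp.1, (mem_Cq.1 hp).2, e⟩
  · obtain ⟨u, a, b, c⟩ := odd l
    have := mult l a b
    have := G.neg_le (ρ := ρ) (G.mul' l) l
    have := mt Submodule.finrank_eq_zero.1 c
    omega

end Geo

end Cfsg.Agent.Mon.Bv
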