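import Mathlib

/-! Reflections of a complex vector space; common fixed spaces of commuting involutions. -/

set_option autoImplicit false

namespace Cfsg.Agent.Mon.Deg

open Module

section refl

variable {U : Type*} [AddCommGroup U] [Module ℂ U]

/-- `r` is a reflection with root `v`. -/
structure Rf (r : End ℂ U) (v : U) : Prop where
  ne : v ≠ 0
  sq : r * r = 1
  neg : r v = -v
  root : ∀ x, ∃ c : ℂ, r x = x - c • v

theorem exists_rf {r : End ℂ U} (sq : r * r = 1) (h1 : r ≠ 1)
    (h : ∀ x y, r x = -x → r y = -y → x ≠ 0 → ∃ c : ℂ, y = c • x) : ∃ v, Rf r v := by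
  have key : ∀ x, r (x - r x) = -(x - r x) := fun x => by
    rw [map_sub, ← End.mul_apply, sq, End.one_apply, neg_sub]
  obtain ⟨x, hx⟩ : ∃ x, r x ≠ x := by
    by_contra hc
    push Not at hc
    exact h1 (LinearMap.ext hc)
  have h0 : x - r x ≠ 0 := sub_ne_zero.2 hx.symm
  refine ⟨x - r x, h0, sq, key x, fun y => ?_⟩
  obtain ⟨c, hc⟩ := h _ _ (key x) (key y) h0
  exact ⟨c, by rw [← hc]; abel⟩

theorem uni {u : End ℂ U} {v : U} (hv : v ≠ 0) (h1 : u v = v)
    (h : ∀ x, ∃ c : ℂ, u x = x + c • v) {n : ℕ} (hn : n ≠ 0) (hu : u ^ n = 1) : u = 1 := by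
  ext x
  obtain ⟨c, hc⟩ := h x
  have key : ∀ k : ℕ, (u ^ k) x = x + ((k : ℂ) * c) • v := fun k => by
    induction k with
    | zero => simp
    | succ k ih =>
      rw [pow_succ', End.mul_apply, ih, map_add, map_smul, hc, h1]
      push_cast
      rw [add_mul, one_mul, add_smul]; abel
  have := key n
  rw [hu, End.one_apply, left_eq_add, smul_eq_zero, mul_eq_zero] at this
  rcases this with (e | e) | e
  · exact absurd (Nat.cast_eq_zero.1 e) hn
  · rw [hc, e]; simp
  · exact absurd e hv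

namespace Rf

variable {r s : End ℂ U} {v w : U}

theorem prop (h : Rf r v) {y : U} (hy : r y = -y) : ∃ a : ℂ, y = a • v := by
  obtain ⟨c, hc⟩ := h.root y
  refine ⟨c / 2, ?_⟩
  have : (2 : ℂ) • y = c • v := by rw [two_smul]; rw [hy] at hc; linear_combination (norm := abel) -hc
  rw [div_eq_inv_mul, mul_smul, ← this, smul_smul]; norm_num

theorem eq_of (h : Rf r v) (h' : Rf s w) (e : r w = -w) {n : ℕ} (hn : n ≠ 0)
    (hu : (r * s) ^ n = 1) : r = s := by
  obtain ⟨a, ha⟩ := h.prop e
  have a0 : a ≠ 0 := by rintro rfl; exact h'.ne (by simpa using ha)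
  have hv : v = a⁻¹ • w := by rw [ha, smul_smul, inv_mul_cancel₀ a0, one_smul]
  have := uni (u := r * s) h'.ne (by rw [End.mul_apply, h'.neg, map_neg, e, neg_neg]) (fun x => by
    obtain ⟨c, hc⟩ := h.root x
    obtain ⟨c', hc'⟩ := h'.root x
    refine ⟨c' - c * a⁻¹, ?_⟩
    rw [End.mul_apply, hc', map_sub, map_smul, e, hc, sub_smul, mul_smul, ← hv, smul_neg]; abel)
    hn hu
  calc r = r * (s * s) := by rw [h'.sq, mul_one]
    _ = s := by rw [← mul_assoc, this, one_mul]

theorem fix (h : Rf r v) (h' : Rf s w) (hc : r * s = s * r) (hne : r ≠ s) : r w = w := by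
  obtain ⟨a, ha⟩ := h'.prop (y := r w) (by
    rw [← End.mul_apply, ← hc, End.mul_apply, h'.neg, map_neg])
  have h2 : (a * a) • w = (1 : ℂ) • w := by
    rw [mul_smul, ← ha, ← map_smul, ← ha, ← End.mul_apply, h.sq, one_smul, End.one_apply]
  rcases mul_self_eq_one_iff.1 (smul_left_injective ℂ h'.ne h2) with rfl | rfl
  · rw [ha, one_smul]
  · refine absurd (h.eq_of h' (by rw [ha, neg_smul, one_smul]) two_ne_zero ?_) hne
    rw [pow_two, mul_assoc, ← mul_assoc s, ← hc, mul_assoc, h'.sq, mul_one, h.sq]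

theorem braid (h : Rf r v) (h' : Rf s w) (hc : r * s * r = s * r * s) (hne : r ≠ s) {c c' : ℂ}
    (e : r w = w - c • v) (e' : s v = v - c' • w) : c * c' = 1 := by
  obtain ⟨a, ha⟩ := h'.prop (y := r (s v)) (by
    have := congrArg (fun f : End ℂ U => f v) hc
    simp only [End.mul_apply, h.neg, map_neg] at this
    exact this.symm)
  rw [e', map_sub, map_smul, e, h.neg] at ha
  by_contra h1
  have h2 : (c * c' - 1) • v = (a + c') • w := by
    rw [sub_smul, add_smul, ← ha, smul_sub, smul_smul, mul_comm c' c, one_smul]; abel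
  have h3 : v = ((c * c' - 1)⁻¹ * (a + c')) • w := by
    rw [mul_smul, ← h2, smul_smul, inv_mul_cancel₀ (sub_ne_zero.2 h1), one_smul]
  refine hne (h'.eq_of h (by rw [h3, map_smul, h'.neg, smul_neg]) three_ne_zero ?_).symm
  calc (s * r) ^ 3 = (s * r * s) * (r * s * r) := by simp only [pow_succ, pow_zero, one_mul, mul_assoc]
    _ = s * (r * (s * s) * r) * s := by rw [hc]; simp only [mul_assoc]
    _ = 1 := by rw [h'.sq, mul_one, h.sq, mul_one, h'.sq]

end Rf

/-- An element of order three inverted by three commuting reflections is trivial. -/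
theorem eq_one_of_inverted {r s u t : End ℂ U} {v w x : U} (hr : Rf r v) (hs : Rf s w)
    (hu : Rf u x) (rs : r * s = s * r) (ru : r * u = u * r) (su : s * u = u * s) (n1 : r ≠ s)
    (n2 : r ≠ u) (n3 : s ≠ u) (t3 : t * t * t = 1) (ir : r * t * r * t = 1)
    (is : s * t * s * t = 1) (iu : u * t * u * t = 1) : t = 1 := by
  have inv : ∀ {a : End ℂ U}, a * a = 1 → a * t * a * t = 1 → a * t = t * t * a ∧
      a * (t * t) = t * a := fun {a} h1 h2 => by
    have h3 : a * t * a = t * t := by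
      calc a * t * a = a * t * a * (t * t * t) := by rw [t3, mul_one]
        _ = a * t * a * t * (t * t) := by simp only [mul_assoc]
        _ = t * t := by rw [h2, one_mul]
    have h4 : a * t = t * t * a := by rw [← h3, mul_assoc, h1, mul_one]
    refine ⟨h4, ?_⟩
    calc a * (t * t) = a * t * t := by rw [mul_assoc]
      _ = t * (t * t * t) * a := by rw [h4, mul_assoc (t * t), h4]; simp only [mul_assoc]
      _ = t * a := by rw [t3, mul_one]
  have neg : ∀ {a : End ℂ U} {y : U}, Rf a y → a * t * a * t = 1 → a v = v →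
      ∃ c d : ℂ, t v = c • v + d • y := fun {a y} ha h2 h3 => by
    have h4 : r (a (t v)) = -t v := by
      rw [← End.mul_apply a, (inv ha.sq h2).1, End.mul_apply, h3, ← End.mul_apply r,
        (inv hr.sq ir).2, End.mul_apply, hr.neg, map_neg]
    obtain ⟨c, hc⟩ := hr.root (a (t v))
    obtain ⟨d, hd⟩ := ha.root (t v)
    refine ⟨c / 2, d / 2, ?_⟩
    rw [h4, hd] at hc
    have : (2 : ℂ) • t v = c • v + d • y := by
      rw [two_smul]; linear_combination (norm := abel) -hc
    rw [div_eq_inv_mul, div_eq_inv_mul, mul_smul, mul_smul, ← smul_add, ← this, smul_smul]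
    norm_num
  have sv := hs.fix hr rs.symm n1.symm
  obtain ⟨c, d, e⟩ := neg hu iu (hu.fix hr ru.symm n2.symm)
  have h1 : s (t v) = t v := by rw [e, map_add, map_smul, map_smul, sv, hs.fix hu su n3]
  obtain ⟨a, ha⟩ := hr.prop (y := t v) (by
    conv_lhs => rw [← h1]
    rw [← End.mul_apply s, (inv hs.sq is).1, End.mul_apply, sv, ← End.mul_apply r,
      (inv hr.sq ir).2, End.mul_apply, hr.neg, map_neg])
  have h2 : (a * a) • v = (1 : ℂ) • v := by
    have := congrArg (fun f : End ℂ U => f v) ir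
    simp only [End.mul_apply, ha, map_smul, hr.neg, map_neg, smul_neg, neg_neg,
      End.one_apply] at this
    rw [mul_smul, this, one_smul]
  have h3 : (a * (a * a)) • v = (1 : ℂ) • v := by
    have := congrArg (fun f : End ℂ U => f v) t3
    simp only [End.mul_apply, ha, map_smul, End.one_apply] at this
    rw [mul_smul, mul_smul, this, one_smul]
  have h4 := smul_left_injective ℂ hr.ne h3
  rw [smul_left_injective ℂ hr.ne h2, mul_one] at h4
  rw [h4, one_smul] at ha
  have h5 : t * r * (t * t) = t * t * r := by rw [mul_assoc, (inv hr.sq ir).2, mul_assoc]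
  have h6 : Rf (t * t * r) v := by
    refine ⟨hr.ne, ?_, by simp only [End.mul_apply, hr.neg, map_neg, ha], fun y => ?_⟩
    · rw [mul_assoc, ← mul_assoc r, (inv hr.sq ir).2, mul_assoc t r, hr.sq, mul_one, t3]
    · obtain ⟨b, hb⟩ := hr.root ((t * t) y)
      refine ⟨b, ?_⟩
      rw [← h5, End.mul_apply, End.mul_apply, hb, map_sub, map_smul, ha, ← End.mul_apply,
        ← mul_assoc, t3, End.one_apply]
  have h7 := h6.eq_of hr h6.neg three_ne_zero (by
    rw [mul_assoc, hr.sq, mul_one]
    calc (t * t) ^ 3 = (t * t * t) * (t * t * t) := by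
          simp only [pow_succ, pow_zero, one_mul, mul_assoc]
      _ = 1 := by rw [t3, one_mul])
  have h8 : t * t = 1 := by
    calc t * t = t * t * r * r := by rw [mul_assoc, hr.sq, mul_one]
      _ = 1 := by rw [h7, hr.sq]
  rw [← t3, h8, one_mul]

/-- Reflections satisfying the Coxeter relations of type `A5` have independent roots. -/
theorem five [FiniteDimensional ℂ U] {r1 r2 r3 r4 r5 : End ℂ U} {v1 v2 v3 v4 v5 : U}
    (h1 : Rf r1 v1) (h2 : Rf r2 v2) (h3 : Rf r3 v3) (h4 : Rf r4 v4) (h5 : Rf r5 v5)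
    (b12 : r1 * r2 * r1 = r2 * r1 * r2) (b23 : r2 * r3 * r2 = r3 * r2 * r3)
    (b34 : r3 * r4 * r3 = r4 * r3 * r4) (b45 : r4 * r5 * r4 = r5 * r4 * r5)
    (c13 : r1 * r3 = r3 * r1) (c14 : r1 * r4 = r4 * r1) (c15 : r1 * r5 = r5 * r1)
    (c24 : r2 * r4 = r4 * r2) (c25 : r2 * r5 = r5 * r2) (c35 : r3 * r5 = r5 * r3)
    (n13 : r1 ≠ r3) (n15 : r1 ≠ r5) (n35 : r3 ≠ r5) : 5 ≤ finrank ℂ U := by
  have bc : ∀ {a b : End ℂ U}, a * a = 1 → b * b = 1 → a * b * a = b * a * b → a * b = b * a →
      a = b := fun {a b} ha hb e c => by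
    calc a = b * b * a := by rw [hb, one_mul]
      _ = b * a * b := by rw [mul_assoc, mul_assoc, c]
      _ = a * a * b := by rw [← e, mul_assoc, mul_assoc, c]
      _ = b := by rw [ha, one_mul]
  have n12 : r1 ≠ r2 := fun e => n13 (e.trans (bc h2.sq h3.sq b23 (e ▸ c13)))
  have n23 : r2 ≠ r3 := fun e => n12 (bc h1.sq h2.sq b12 (e ▸ c13))
  have n45 : r4 ≠ r5 := fun e => n35 ((bc h3.sq h4.sq b34 (e ▸ c35)).trans e)
  have n34 : r3 ≠ r4 := fun e => n45 (bc h4.sq h5.sq b45 (e ▸ c35))
  have n14 : r1 ≠ r4 := fun e => n12 (bc h1.sq h2.sq b12 (e ▸ c24.symm))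
  have n24 : r2 ≠ r4 := fun e => n12 (bc h1.sq h2.sq b12 (e ▸ c14))
  have n25 : r2 ≠ r5 := fun e => n12 (bc h1.sq h2.sq b12 (e ▸ c15))
  obtain ⟨a12, e12⟩ := h1.root v2
  obtain ⟨a21, e21⟩ := h2.root v1
  obtain ⟨a23, e23⟩ := h2.root v3
  obtain ⟨a32, e32⟩ := h3.root v2
  obtain ⟨a34, e34⟩ := h3.root v4
  obtain ⟨a43, e43⟩ := h4.root v3
  obtain ⟨a45, e45⟩ := h4.root v5
  obtain ⟨a54, e54⟩ := h5.root v4
  have p1 := h1.braid h2 b12 n12 e12 e21
  have p2 := h2.braid h3 b23 n23 e23 e32
  have p3 := h3.braid h4 b34 n34 e34 e43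
  have p4 := h4.braid h5 b45 n45 e45 e54
  have li : LinearIndependent ℂ ![v1, v2, v3, v4, v5] := by
    rw [Fintype.linearIndependent_iff]
    intro g hg
    simp only [Fin.sum_univ_five, Matrix.cons_val_zero, Matrix.cons_val_one, Matrix.cons_val] at hg
    have key : ∀ {r : End ℂ U} {v : U}, Rf r v → ∀ {c1 c2 c3 c4 c5 : ℂ}, r v1 = v1 - c1 • v →
        r v2 = v2 - c2 • v → r v3 = v3 - c3 • v → r v4 = v4 - c4 • v → r v5 = v5 - c5 • v →
        g 0 * c1 + g 1 * c2 + g 2 * c3 + g 3 * c4 + g 4 * c5 = 0 :=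
      fun {r v} h {c1 c2 c3 c4 c5} f1 f2 f3 f4 f5 => by
        have := congrArg r hg
        simp only [map_add, map_smul, f1, f2, f3, f4, f5, map_zero, smul_sub, smul_smul] at this
        refine (smul_eq_zero.1 ?_).resolve_right h.ne
        simp only [add_smul]
        linear_combination (norm := abel) hg - this
    have d : ∀ {r : End ℂ U} {v : U}, Rf r v → r v = v - (2 : ℂ) • v := fun h => by
      rw [h.neg, two_smul]; abel
    have o : ∀ {r s : End ℂ U} {v w : U}, Rf r v → Rf s w → r * s = s * r → r ≠ s →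
        r w = w - (0 : ℂ) • v := fun h h' c n => by rw [h.fix h' c n, zero_smul, sub_zero]
    have k1 := key h1 (d h1) e12 (o h1 h3 c13 n13) (o h1 h4 c14 n14) (o h1 h5 c15 n15)
    have k2 := key h2 e21 (d h2) e23 (o h2 h4 c24 n24) (o h2 h5 c25 n25)
    have k3 := key h3 (o h3 h1 c13.symm n13.symm) e32 (d h3) e34 (o h3 h5 c35 n35)
    have k4 := key h4 (o h4 h1 c14.symm n14.symm) (o h4 h2 c24.symm n24.symm) e43 (d h4) e45
    have k5 := key h5 (o h5 h1 c15.symm n15.symm) (o h5 h2 c25.symm n25.symm)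
      (o h5 h3 c35.symm n35.symm) e54 (d h5)
    have l2 : 3 * g 1 + 2 * a23 * g 2 = 0 := by linear_combination 2 * k2 - a21 * k1 + g 1 * p1
    have l3 : 4 * g 2 + 3 * a34 * g 3 = 0 := by
      linear_combination 3 * k3 - a32 * l2 + 2 * g 2 * p2
    have l4 : 5 * g 3 + 4 * a45 * g 4 = 0 := by
      linear_combination 4 * k4 - a43 * l3 + 3 * g 3 * p3
    have g4 : g 4 = 0 := by linear_combination (5 * k5 - a54 * l4 + 4 * g 4 * p4) / 6
    have g3 : g 3 = 0 := by linear_combination l4 / 5 - 4 / 5 * a45 * g4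
    have g2 : g 2 = 0 := by linear_combination l3 / 4 - 3 / 4 * a34 * g3
    have g1 : g 1 = 0 := by linear_combination l2 / 3 - 2 / 3 * a23 * g2
    have g0 : g 0 = 0 := by linear_combination k1 / 2 - 1 / 2 * a12 * g1
    intro i
    fin_cases i <;> assumption
  simpa using li.fintype_card_le_finrank

end refl

section fix

variable {Γ : Type*} [Group Γ] {V : Type*} [AddCommGroup V] [Module ℂ V] (ρ : Γ →* End ℂ V)

/-- The common fixed space of a list of elements. -/
def Fix (l : List Γ) : Submodule ℂ V where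
  carrier := {x | ∀ g ∈ l, ρ g x = x}
  add_mem' hx hy g hg := by rw [map_add, hx g hg, hy g hg]
  zero_mem' g _ := map_zero _
  smul_mem' c x hx g hg := by rw [map_smul, hx g hg]

theorem mem_Fix {l : List Γ} {x : V} : x ∈ Fix ρ l ↔ ∀ g ∈ l, ρ g x = x := Iff.rfl

/-- All subproducts of a list. -/
def prods : List Γ → List Γ
  | [] => [1]
  | g :: l => prods l ++ (prods l).map (g * ·)

/-- The projection on the common fixed space of commuting involutions. -/
noncomputable def pj : List Γ → End ℂ V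
  | [] => 1
  | g :: l => (2 : ℂ)⁻¹ • ((1 + ρ g) * pj l)

theorem pj_eq (l : List Γ) : (2 : ℂ) ^ l.length • pj ρ l = ((prods l).map ρ).sum := by
  induction l with
  | nil => simp [pj, prods]
  | cons g l ih =>
    rw [pj, prods, List.length_cons, pow_succ, mul_smul, smul_smul (2 : ℂ),
      mul_inv_cancel₀ two_ne_zero, one_smul, ← mul_smul_comm, ih, add_mul, one_mul,
      List.map_append, List.sum_append, List.map_map, ← List.sum_map_mul_left]
    congr 3
    ext x : 1
    simp

theorem fix_of_prods {l : List Γ} {x : V} (hx : x ∈ Fix ρ l) {g : Γ} (hg : g ∈ prods l) :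
    ρ g x = x := by
  induction l generalizing g with
  | nil => rw [List.mem_singleton.1 hg, map_one, End.one_apply]
  | cons a l ih =>
    have h1 : x ∈ Fix ρ l := fun k hk => hx k (List.mem_cons_of_mem _ hk)
    rcases List.mem_append.1 hg with h | h
    · exact ih h1 h
    · obtain ⟨k, hk, rfl⟩ := List.mem_map.1 h
      rw [map_mul, End.mul_apply, ih h1 hk, hx a List.mem_cons_self]

theorem comm_prods {l : List Γ} {a : Γ} (h : ∀ g ∈ l, Commute a g) {g : Γ} (hg : g ∈ prods l) :
    Commute a g := by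
  induction l generalizing g with
  | nil => rw [List.mem_singleton.1 hg]; exact Commute.one_right a
  | cons b l ih =>
    have h1 : ∀ g ∈ l, Commute a g := fun k hk => h k (List.mem_cons_of_mem _ hk)
    rcases List.mem_append.1 hg with e | e
    · exact ih h1 e
    · obtain ⟨k, hk, rfl⟩ := List.mem_map.1 e
      exact (h b List.mem_cons_self).mul_right (ih h1 hk)

theorem sq_prods {l : List Γ} (h : ∀ g ∈ l, g * g = 1 ∧ ∀ k ∈ l, Commute g k) {g : Γ}
    (hg : g ∈ prods l) : g * g = 1 := by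
  induction l generalizing g with
  | nil => rw [List.mem_singleton.1 hg, mul_one]
  | cons b l ih =>
    have h1 : ∀ g ∈ l, g * g = 1 ∧ ∀ k ∈ l, Commute g k := fun k hk =>
      ⟨(h k (List.mem_cons_of_mem _ hk)).1,
        fun m hm => (h k (List.mem_cons_of_mem _ hk)).2 m (List.mem_cons_of_mem _ hm)⟩
    rcases List.mem_append.1 hg with e | e
    · exact ih h1 e
    · obtain ⟨k, hk, rfl⟩ := List.mem_map.1 e
      have hb := h b List.mem_cons_self
      have := comm_prods (fun m hm => hb.2 m (List.mem_cons_of_mem _ hm)) hk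
      rw [mul_assoc, ← mul_assoc k, ← this.eq, mul_assoc, ih h1 hk, mul_one, hb.1]

theorem isProj_pj {l : List Γ} (h : ∀ g ∈ l, g * g = 1 ∧ ∀ k ∈ l, Commute g k) :
    LinearMap.IsProj (Fix ρ l) (pj ρ l) := by
  induction l with
  | nil => exact ⟨fun x g hg => absurd hg List.not_mem_nil, fun x _ => rfl⟩
  | cons b l ih =>
    have h1 := ih fun k hk => ⟨(h k (List.mem_cons_of_mem _ hk)).1,
      fun m hm => (h k (List.mem_cons_of_mem _ hk)).2 m (List.mem_cons_of_mem _ hm)⟩
    have hb := h b List.mem_cons_self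
    refine ⟨fun x g hg => ?_, fun x hx => ?_⟩
    · simp only [pj, LinearMap.smul_apply, End.mul_apply, LinearMap.add_apply, End.one_apply,
        map_smul, map_add]
      rcases List.mem_cons.1 hg with rfl | hg
      · rw [← End.mul_apply (ρ g) (ρ g), ← map_mul, hb.1, map_one, End.one_apply, add_comm]
      · rw [← End.mul_apply (ρ g) (ρ b), ← map_mul, ← (hb.2 g (List.mem_cons_of_mem _ hg)).eq,
          map_mul, End.mul_apply, h1.map_mem x g hg]
    · simp only [pj, LinearMap.smul_apply, End.mul_apply, LinearMap.add_apply, End.one_apply]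
      rw [h1.map_id x fun k hk => hx k (List.mem_cons_of_mem _ hk), hx b List.mem_cons_self,
        ← two_smul ℂ, smul_smul, inv_mul_cancel₀ two_ne_zero, one_smul]

theorem finrank_Fix [FiniteDimensional ℂ V] {l : List Γ}
    (h : ∀ g ∈ l, g * g = 1 ∧ ∀ k ∈ l, Commute g k) :
    (2 : ℂ) ^ l.length * finrank ℂ (Fix ρ l) =
      ((prods l).map fun g => LinearMap.trace ℂ V (ρ g)).sum := by
  rw [← (isProj_pj ρ h).trace, ← smul_eq_mul, ← map_smul, pj_eq, map_list_sum, List.map_map]
  rfl

/-- If an involution cuts the fixed space by one dimension, it negates at most a line of it. -/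
theorem line_of_finrank [FiniteDimensional ℂ V] {l : List Γ} {g : Γ}
    (h : finrank ℂ (Fix ρ l) ≤ finrank ℂ (Fix ρ (g :: l)) + 1) {x y : V} (hx : x ∈ Fix ρ l)
    (hy : y ∈ Fix ρ l) (ex : ρ g x = -x) (ey : ρ g y = -y) (h0 : x ≠ 0) : ∃ c : ℂ, y = c • x := by
  by_contra hc
  have li : LinearIndependent ℂ ![x, y] := by
    rw [LinearIndependent.pair_iff' h0]
    exact fun a e => hc ⟨a, e.symm⟩
  have h1 : finrank ℂ (Submodule.span ℂ (Set.range ![x, y])) = 2 := by
    simpa using finrank_span_eq_card li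
  have h2 : Fix ρ (g :: l) ⊓ Submodule.span ℂ (Set.range ![x, y]) = ⊥ := by
    rw [eq_bot_iff]
    rintro u ⟨hu1, hu2⟩
    obtain ⟨c, rfl⟩ := (Submodule.mem_span_range_iff_exists_fun ℂ).1 hu2
    have := hu1 g List.mem_cons_self
    simp only [Fin.sum_univ_two, Matrix.cons_val_zero, Matrix.cons_val_one, map_add, map_smul,
      ex, ey, smul_neg] at this ⊢
    have h3 : (2 : ℂ) • (c 0 • x + c 1 • y) = 0 := by
      rw [two_smul]; linear_combination (norm := abel) -this
    exact (smul_eq_zero.1 h3).resolve_left two_ne_zero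
  have h3 := Submodule.finrank_sup_add_finrank_inf_eq (Fix ρ (g :: l))
    (Submodule.span ℂ (Set.range ![x, y]))
  have h4 := Submodule.finrank_mono (show Fix ρ (g :: l) ⊔ Submodule.span ℂ (Set.range ![x, y]) ≤
    Fix ρ l from sup_le (fun u hu k hk => hu k (List.mem_cons_of_mem _ hk))
      (Submodule.span_le.2 (by rintro _ ⟨i, rfl⟩; fin_cases i <;> assumption)))
  rw [h2, finrank_bot, h1] at h3
  omega

end fix

end Cfsg.Agent.Mon.Deg
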