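import Cfsg.Agent.Mon.CntE_a
import Cfsg.Agent.Spor.Co0Simple

/-! Eigenspaces of the extraspecial group `Q` in a complex representation of degree less than
196883 of a group of Monster type. -/

set_option autoImplicit false

namespace Cfsg.Agent.Mon.Deg

open Module Cfsg Cfsg.Spor Cfsg.Agent.Spor Cfsg.Agent.Spor.Leech Subgroup Cfsg.Agent.TT
  Cfsg.Agent.LES Cfsg.Agent.Mon.LC

section gen

variable {G : Type*} [Group G] {V : Type*} [AddCommGroup V] [Module ℂ V]

open Classical in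
/-- The commutator sign. -/
noncomputable def sg (x y : G) : ℂ := if x * y = y * x then 1 else -1

theorem sg_pos {x y : G} (h : x * y = y * x) : sg x y = 1 := if_pos h

theorem sg_neg {x y : G} (h : x * y ≠ y * x) : sg x y = -1 := if_neg h

theorem sg_sq (x y : G) : sg x y * sg x y = 1 := by unfold sg; split_ifs <;> norm_num

theorem sg_comm (x y : G) : sg x y = sg y x := by
  classical exact if_congr eq_comm rfl rfl

theorem sg_conj (c x y : G) : sg (c * x * c⁻¹) (c * y * c⁻¹) = sg x y := by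
  classical exact if_congr (by rw [conj_mul, conj_mul, mul_left_inj, mul_right_inj]) rfl rfl

theorem sg_mul {Q : Subgroup G} {z x y t : G} (h : XS Q z) (hx : x ∈ Q) (hy : y ∈ Q)
    (ht : t ∈ Q) : sg (x * y) t = sg x t * sg y t := by
  by_cases h1 : x * t = t * x <;> by_cases h2 : y * t = t * y
  · rw [sg_pos h1, sg_pos h2, sg_pos (comm_mul_left h1 h2), mul_one]
  · rw [sg_pos h1, sg_neg h2, one_mul, sg_neg fun e => h2 ?_]
    simpa using comm_mul_left (comm_inv_left h1) e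
  · rw [sg_neg h1, sg_pos h2, mul_one, sg_neg fun e => h1 ?_]
    simpa using comm_mul_left e (comm_inv_left h2)
  · rw [sg_neg h1, sg_neg h2, sg_pos (h.mul_comm_of_not_comm ht hx hy h1 h2)]; norm_num

/-- `sg · t` is a character of `H`. -/
def Ch (H : Subgroup G) (t : G) : Prop := ∀ x ∈ H, ∀ y ∈ H, sg (x * y) t = sg x t * sg y t

theorem ch_of {Q H : Subgroup G} {z t : G} (h : XS Q z) (hH : H ≤ Q) (ht : t ∈ Q) : Ch H t :=
  fun _ hx _ hy => sg_mul h (hH hx) (hH hy) ht

theorem ch_one (H : Subgroup G) : Ch H 1 := fun x _ y _ => by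
  rw [sg_pos (by simp), sg_pos (by simp), sg_pos (by simp), mul_one]

variable (ρ : G →* End ℂ V)

/-- The eigenspace of `H` for the character `sg · t`. -/
def Eig (H : Subgroup G) (t : G) : Submodule ℂ V where
  carrier := {x | ∀ h ∈ H, ρ h x = sg h t • x}
  add_mem' hx hy h hh := by rw [map_add, hx h hh, hy h hh, smul_add]
  zero_mem' h _ := by simp
  smul_mem' c x hx h hh := by rw [map_smul, hx h hh, smul_comm]

variable {ρ}

theorem mem_Eig_one {H : Subgroup G} {x : V} : x ∈ Eig ρ H 1 ↔ ∀ h ∈ H, ρ h x = x :=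
  forall₂_congr fun h _ => by rw [sg_pos (by simp), one_smul]

theorem Eig_congr {H : Subgroup G} {t u : G} (e : ∀ h ∈ H, sg h t = sg h u) :
    Eig ρ H t = Eig ρ H u :=
  Submodule.ext fun _ => forall₂_congr fun h hh => by rw [e h hh]

theorem map_mem_Eig {H : Subgroup G} {t c : G} (hc : ∀ h ∈ H, c⁻¹ * h * c ∈ H) {x : V}
    (hx : x ∈ Eig ρ H t) : ρ c x ∈ Eig ρ H (c * t * c⁻¹) := fun h hh => by
  rw [← End.mul_apply, ← map_mul, show h * c = c * (c⁻¹ * h * c) by group, map_mul, End.mul_apply,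
    hx _ (hc h hh), map_smul, ← sg_conj c]
  congr 2; group

variable [Finite G]

/-- The elements of a subgroup. -/
noncomputable def fs (H : Subgroup G) : Finset G := (H : Set G).toFinite.toFinset

@[simp] theorem mem_fs {H : Subgroup G} {x : G} : x ∈ fs H ↔ x ∈ H := by simp [fs]

theorem card_fs (H : Subgroup G) : (fs H).card = Nat.card H :=
  (Set.ncard_eq_toFinset_card _ _).symm

theorem card_ne (H : Subgroup G) : (Nat.card H : ℂ) ≠ 0 := Nat.cast_ne_zero.2 Nat.card_pos.ne'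

variable (ρ)

/-- The projection on the eigenspace. -/
noncomputable def pr (H : Subgroup G) (t : G) : End ℂ V :=
  (Nat.card H : ℂ)⁻¹ • ∑ h ∈ fs H, sg h t • ρ h

variable {ρ}

theorem sum_mul_left {M : Type*} [AddCommMonoid M] {H : Subgroup G} {k : G} (hk : k ∈ H)
    (f : G → M) : ∑ h ∈ fs H, f (k * h) = ∑ h ∈ fs H, f h :=
  Finset.sum_equiv (Equiv.mulLeft k) (fun h => by simp [H.mul_mem_cancel_left hk]) fun _ _ => rfl

theorem sum_mul_right {M : Type*} [AddCommMonoid M] {H : Subgroup G} {k : G} (hk : k ∈ H)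
    (f : G → M) : ∑ h ∈ fs H, f (h * k) = ∑ h ∈ fs H, f h :=
  Finset.sum_equiv (Equiv.mulRight k) (fun h => by simp [H.mul_mem_cancel_right hk]) fun _ _ => rfl

theorem isProj_pr {H : Subgroup G} {t : G} (h : Ch H t) :
    LinearMap.IsProj (Eig ρ H t) (pr ρ H t) := by
  refine ⟨fun x k hk => ?_, fun x hx => ?_⟩
  · simp only [pr, LinearMap.smul_apply, LinearMap.sum_apply, map_smul, map_sum]
    rw [smul_comm (sg k t), ← sum_mul_left hk fun a => sg a t • ρ a x, Finset.smul_sum (r := sg k t)]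
    congr 1
    refine Finset.sum_congr rfl fun a ha => ?_
    rw [h k hk a (mem_fs.1 ha), smul_smul, ← mul_assoc, sg_sq, one_mul, map_mul, End.mul_apply]
  · simp only [pr, LinearMap.smul_apply, LinearMap.sum_apply]
    rw [Finset.sum_congr (g := fun _ => x) rfl fun a ha => by
      rw [hx a (mem_fs.1 ha), smul_smul, sg_sq, one_smul], Finset.sum_const, card_fs, ← Nat.cast_smul_eq_nsmul ℂ, smul_smul,
      inv_mul_cancel₀ (card_ne H), one_smul]

theorem mul_pr {H : Subgroup G} {t k : G} (h : Ch H t) (hk : k ∈ H) :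
    ρ k * pr ρ H t = sg k t • pr ρ H t :=
  LinearMap.ext fun x => (isProj_pr h).map_mem x k hk

theorem conj_pr {H : Subgroup G} {c : G} (hc : ∀ h, h ∈ H ↔ c * h * c⁻¹ ∈ H) (t : G) :
    ρ c * pr ρ H t = pr ρ H (c * t * c⁻¹) * ρ c := by
  rw [pr, pr, mul_smul_comm, smul_mul_assoc, Finset.mul_sum, Finset.sum_mul]
  congr 1
  refine Finset.sum_equiv (MulAut.conj c).toEquiv (fun h => by simpa using hc h) fun h _ => ?_
  rw [mul_smul_comm, smul_mul_assoc, ← map_mul, ← map_mul]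
  simp [sg_conj]

theorem pr_congr {H : Subgroup G} {t u : G} (e : ∀ h ∈ H, sg h t = sg h u) :
    pr ρ H t = pr ρ H u := by
  rw [pr, pr, Finset.sum_congr rfl fun h hh => by rw [e h (mem_fs.1 hh)]]

theorem sum_sg {Q : Subgroup G} {z q : G} (h : XS Q z) (hq : q ∈ Q) (h1 : q ≠ 1) (hz : q ≠ z) :
    ∑ t ∈ fs Q, sg q t = 0 := by
  obtain ⟨y, hy, e⟩ := h.exists_not_comm hq h1 hz
  have := sum_mul_left hy fun t => sg t q
  rw [Finset.sum_congr rfl fun t ht => sg_mul h hy (mem_fs.1 ht) hq, ← Finset.mul_sum,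
    sg_neg (Ne.symm e)] at this
  simp only [sg_comm q]
  linear_combination this / -2

theorem sum_pr {Q : Subgroup G} {z : G} (h : XS Q z) : ∑ t ∈ fs Q, pr ρ Q t = 1 + ρ z := by
  classical
  simp only [pr]
  rw [← Finset.smul_sum, Finset.sum_comm]
  simp only [← Finset.sum_smul]
  rw [Finset.sum_eq_add 1 z h.z_ne.symm (fun q hq hn => by
    rw [sum_sg h (mem_fs.1 hq) hn.1 hn.2, zero_smul]) (by simp) (by simp [h.z_mem]),
    Finset.sum_congr rfl fun t _ => sg_pos (x := 1) (by simp),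
    Finset.sum_congr rfl fun t ht => sg_pos (h.z_comm t (mem_fs.1 ht)).symm, Finset.sum_const,
    card_fs, nsmul_one, ← smul_add, smul_smul, inv_mul_cancel₀ (card_ne Q), one_smul, map_one]

theorem pr_add {P : Subgroup G} {s z t : G} (h : XS P s) (hz : z ∈ P) (h1 : z ≠ 1) (hs : z ≠ s)
    (ht : t ∈ P) : pr ρ P t + pr ρ P (t * z) = pr ρ (P ⊓ centralizer {z}) t := by
  classical
  have hc := h.card_centralizer hz h1 hs
  rw [pr, pr, pr, ← smul_add, ← Finset.sum_add_distrib, hc, Nat.cast_mul, mul_comm, mul_inv,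
    mul_smul, Finset.smul_sum]
  congr 1
  rw [show fs (P ⊓ centralizer {z}) = (fs P).filter fun x => x * z = z * x by
    ext x; simp [mem_centralizer_singleton_iff], Finset.sum_filter]
  refine Finset.sum_congr rfl fun x hx => ?_
  rw [sg_comm x (t * z), sg_mul h ht hz (mem_fs.1 hx), sg_comm t, sg_comm z, ← add_smul, smul_smul]
  split_ifs with e
  · rw [sg_pos e]; congr 1; push_cast; ring
  · rw [sg_neg e]; simp

variable [FiniteDimensional ℂ V]

theorem trace_pr {H : Subgroup G} {t : G} (h : Ch H t) :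
    LinearMap.trace ℂ V (pr ρ H t) = finrank ℂ (Eig ρ H t) := (isProj_pr h).trace

omit [Finite G] [FiniteDimensional ℂ V] in
theorem trace_conj (c x : G) (f : End ℂ V) (h : ρ c * f = f * ρ c) :
    LinearMap.trace ℂ V (ρ (c * x * c⁻¹) * f) = LinearMap.trace ℂ V (ρ x * f) := by
  rw [map_mul ρ, map_mul ρ, mul_assoc, mul_assoc, LinearMap.trace_mul_comm, mul_assoc, mul_assoc,
    ← h, ← mul_assoc (ρ c⁻¹), ← map_mul ρ, inv_mul_cancel, map_one, one_mul]

theorem finrank_conj {H : Subgroup G} {c t : G} (hc : ∀ h, h ∈ H ↔ c * h * c⁻¹ ∈ H) (h : Ch H t)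
    (h' : Ch H (c * t * c⁻¹)) :
    finrank ℂ (Eig ρ H (c * t * c⁻¹)) = finrank ℂ (Eig ρ H t) := by
  have : LinearMap.trace ℂ V (pr ρ H (c * t * c⁻¹)) = LinearMap.trace ℂ V (pr ρ H t) := by
    rw [← mul_one (pr ρ H (c * t * c⁻¹)), ← map_one ρ, ← mul_inv_cancel c, map_mul ρ, ← mul_assoc,
      ← conj_pr hc, LinearMap.trace_mul_comm, ← mul_assoc, ← map_mul ρ, inv_mul_cancel, map_one,
      one_mul]
  rw [trace_pr h, trace_pr h'] at this
  exact_mod_cast this

open Classical in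
theorem two_mul_finrank {Q : Subgroup G} {z s : G} (h : XS Q z) (hs : s ∈ Q) (h1 : s ≠ 1)
    (hz : s ≠ z) (hc : IsConj z s) : 2 * finrank ℂ V =
      ∑ t ∈ fs Q, finrank ℂ (Eig ρ Q t) * if s * t = t * s then 1 else 3 := by
  have tc : ∀ c x : G, LinearMap.trace ℂ V (ρ (c * x * c⁻¹)) = LinearMap.trace ℂ V (ρ x) :=
    fun c x => by simpa using trace_conj (ρ := ρ) c x 1 (by simp)
  have e1 := congrArg (LinearMap.trace ℂ V) (sum_pr (ρ := ρ) h)
  have e2 := congrArg (fun f => LinearMap.trace ℂ V (ρ s * f)) (sum_pr (ρ := ρ) h)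
  obtain ⟨q, -, hq⟩ := h.exists_conj_eq hs h1 hz
  obtain ⟨g, hg⟩ := isConj_iff.1 hc
  simp only [Finset.mul_sum, map_sum, mul_add, map_add, mul_one, ← map_mul, ← hq, tc,
    LinearMap.trace_one] at e1 e2
  rw [Finset.sum_congr rfl fun t ht => trace_pr (ch_of h le_rfl (mem_fs.1 ht))] at e1
  rw [Finset.sum_congr rfl fun t ht => by
    rw [mul_pr (ch_of h le_rfl (mem_fs.1 ht)) hs, map_smul,
      trace_pr (ch_of h le_rfl (mem_fs.1 ht))]] at e2
  have e3 := tc g z
  rw [hg] at e3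
  have : ((2 * finrank ℂ V : ℕ) : ℂ) = ((∑ t ∈ fs Q, finrank ℂ (Eig ρ Q t) *
      if s * t = t * s then 1 else 3 : ℕ) : ℂ) := by
    push_cast
    rw [show (2 : ℂ) * finrank ℂ V = 2 * ∑ t ∈ fs Q, (finrank ℂ (Eig ρ Q t) : ℂ) -
      ∑ t ∈ fs Q, sg s t • (finrank ℂ (Eig ρ Q t) : ℂ) by linear_combination -2 * e1 + e2 + 2 * e3,
      Finset.mul_sum, ← Finset.sum_sub_distrib]
    refine Finset.sum_congr rfl fun t _ => ?_
    unfold sg
    split_ifs <;> simp <;> ring
  exact_mod_cast this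

end gen

variable {G : Type} [Group G] [Finite G] {z : G} {Q : Subgroup G}
  {π : centralizer ({z} : Set G) →* Co1} {ψ : leechLattice → G}
  {V : Type*} [AddCommGroup V] [Module ℂ V] [FiniteDimensional ℂ V] {ρ : G →* End ℂ V}

theorem ncard_lift_two (h : If0 z Q π ψ) {S : Set leechLattice} {N : ℤ} (h0 : 0 < N) (hN : N < 64)
    (hS : ∀ v ∈ S, nm v = N ∧ -v ∈ S) : {x | ∃ v ∈ S, Eqv z x (ψ v)}.ncard = S.ncard := by
  have := CE.J0.ncard_lift h ((finite_norm' N).subset fun v hv => (hS v hv).1) id (k := 2)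
    fun v hv => by
    have : {w | w ∈ S ∧ ∃ y, id v - id w = y + y} = {v, -v} := by
      ext w
      constructor
      · rintro ⟨hw, y, e⟩
        have h1 := (hS v hv).1
        have h2 := (hS w hw).1
        rcases eq_or_neg_of_congr (v := v) (w := w) (by change nm v < 64; omega)
          (by change nm w ≤ 64; omega) e with a | a <;> simp [a]
      · rintro (rfl | rfl)
        · exact ⟨hv, 0, by simp⟩
        · exact ⟨(hS v hv).2, v, by simp⟩
    rw [this, Set.ncard_pair]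
    intro e
    have h1 := CE.dt_self v
    have h2 := CE.dt_neg_right v v
    have h3 := (hS v hv).1
    rw [← e] at h2; omega
  simpa using this

theorem finrank_of_norm (h : If0 z Q π ψ) {x y : G} {v w : leechLattice} (hx : Eqv z x (ψ v))
    (hy : Eqv z y (ψ w)) (e : nm v = nm w) (hw : nm w = 32 ∨ nm w = 48 ∨ nm w = 64) :
    finrank ℂ (Eig ρ Q x) = finrank ℂ (Eig ρ Q y) := by
  obtain ⟨c, hc, rfl⟩ := h.mon.conj_of_norm_eq hx hy e hw
  exact (finrank_conj (fun q => (h.conj_mem_Q_iff ⟨c, hc⟩).symm)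
    (ch_of h.xs le_rfl (h.mon.mem_of_eqv hx)) (ch_of h.xs le_rfl (h.mon.mem_of_eqv hy))).symm

theorem dims (h : If0 z Q π ψ) (hn : finrank ℂ V < 196883) (hz : ρ z ≠ 1) :
    (∀ t ∈ Q, t ∈ cA ψ → finrank ℂ (Eig ρ Q t) = 1) ∧
    (∀ t ∈ Q, t ≠ 1 → t ≠ z → t ∉ cA ψ → Eig ρ Q t = ⊥) ∧
    finrank ℂ V = finrank ℂ (Eig ρ Q 1) + 196584 := by
  classical
  obtain ⟨hB, hsz⟩ := CE.J0.mem_B_of_eqv h (Eqv.refl _ (ψ (e8 none))) (sqNorm_e8 none)
  have key := two_mul_finrank (ρ := ρ) h.xs (h.mon.mem (e8 none)) (h.ne_one_B hB) hsz hB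
  have low : ∀ T : Set G, (∀ t ∈ T, t ∈ Q ∧ Eig ρ Q t ≠ ⊥) → T.ncard ≤ 2 * finrank ℂ V :=
    fun T hT => by
      rw [key, Set.ncard_eq_toFinset_card T, Finset.card_eq_sum_ones]
      refine (Finset.sum_le_sum fun t ht => ?_).trans
        (Finset.sum_le_sum_of_subset fun t ht => mem_fs.2 (hT t (by simpa using ht)).1)
      have := Submodule.finrank_eq_zero.not.2 (hT t (by simpa using ht)).2
      split_ifs <;> omega
  have c48 : {x | ∃ v ∈ {v : leechLattice | nm v = 48}, Eqv z x (ψ v)}.ncard = 16773120 := by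
    rw [ncard_lift_two h (S := {v : leechLattice | nm v = 48}) (N := 48) (by norm_num) (by norm_num)
      fun v hv => ⟨hv, (CE.nm_neg v).trans hv⟩, ← count_48, ← ncard_coe]
  have c64 : 400000 ≤ {x | ∃ v ∈ {v : leechLattice | nm v = 64}, Eqv z x (ψ v)}.ncard := by
    have h1 : (Q : Set G) ⊆ (({1, z} ∪ {x | x ∈ Q ∧ x ∈ cA ψ}) ∪
        {x | ∃ v ∈ {v : leechLattice | nm v = 48}, Eqv z x (ψ v)}) ∪
        {x | ∃ v ∈ {v : leechLattice | nm v = 64}, Eqv z x (ψ v)} := fun x hx => by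
      by_cases a : x = 1
      · simp [a]
      by_cases b : x = z
      · simp [b]
      obtain ⟨v, e, c | c | c⟩ := h.mon.exists_short hx a b
      · exact Or.inl (Or.inl (Or.inr ⟨hx, h.mem_A_of_eqv e c⟩))
      · exact Or.inl (Or.inr ⟨v, c, e⟩)
      · exact Or.inr ⟨v, c, e⟩
    have h2 := (Set.ncard_le_ncard h1).trans ((Set.ncard_union_le _ _).trans
      (Nat.add_le_add_right ((Set.ncard_union_le _ _).trans
        (Nat.add_le_add_right (Set.ncard_union_le _ _) _)) _))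
    have h3 : (Q : Set G).ncard = 2 ^ 25 := h.mon.card
    have h4 := Set.ncard_pair h.xs.z_ne.symm
    rw [h3, h4, CE.J0.ncard_QA h, c48] at h2
    omega
  have big : ∀ t ∈ Q, t ≠ 1 → t ≠ z → t ∉ cA ψ → Eig ρ Q t = ⊥ := fun t ht a b c => by
    by_contra hc
    obtain ⟨v, e, d⟩ := h.mon.exists_short ht a b
    have := low {x | ∃ w ∈ {w : leechLattice | nm w = nm v}, Eqv z x (ψ w)} fun x ⟨w, hw, e'⟩ =>
      ⟨h.mon.mem_of_eqv e', Submodule.finrank_eq_zero.not.1 (by
        rw [finrank_of_norm h e' e hw d]; exact Submodule.finrank_eq_zero.not.2 hc)⟩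
    rcases d with d | d | d
    · exact c (h.mem_A_of_eqv e d)
    · rw [show nm v = 48 from d] at this; omega
    · rw [show nm v = 64 from d] at this; omega
  have short : ∀ t ∈ Q, t ∈ cA ψ →
      finrank ℂ (Eig ρ Q t) = finrank ℂ (Eig ρ Q (ψ leechU)) := fun t ht a => by
    obtain ⟨v, e, d⟩ := (h.mem_A_iff ht).1 a
    exact finrank_of_norm h e (Eqv.refl _ _) (d.trans sqNorm_leechU.symm) (Or.inl sqNorm_leechU)
  have ce : {x | (x ∈ Q ∧ x ∈ cA ψ) ∧ ψ (e8 none) * x = x * ψ (e8 none)}.ncard = 98256 := by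
    rw [← ncard_even, ← ncard_lift_two h (S := {t | nm t = 32 ∧ ∀ i, (t : GolayPt → ℤ) i % 2 = 0})
      (N := 32) (by norm_num) (by norm_num) fun v hv =>
      ⟨hv.1, (CE.nm_neg v).trans hv.1, fun i => by have := hv.2 i; simp; omega⟩]
    congr 1; ext x
    have hd : ∀ v : leechLattice, dotInt (e8 none : GolayPt → ℤ) (v : GolayPt → ℤ) % 16 = 0 ↔
        ∀ i, (v : GolayPt → ℤ) i % 2 = 0 := fun v => by
      rw [coe_e8, dotInt_single_left]
      refine ⟨fun a i => ?_, fun a => by have := a none; omega⟩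
      rcases leech_cases v.2 with ⟨c, -, b, -⟩ | ⟨c, -, b, -⟩ <;> have b1 := b i <;>
        have b2 := b none <;> split_ifs at b1 b2 <;> omega
    constructor
    · rintro ⟨⟨a, b⟩, c⟩
      obtain ⟨v, e, d⟩ := (h.mem_A_iff a).1 b
      exact ⟨v, ⟨d, (hd v).1 ((h.mon.comm_iff (Eqv.refl _ _) e).1 c)⟩, e⟩
    · rintro ⟨v, ⟨a, b⟩, e⟩
      exact ⟨⟨h.mon.mem_of_eqv e, h.mem_A_of_eqv e a⟩,
        (h.mon.comm_iff (Eqv.refl _ _) e).2 ((hd v).2 b)⟩
  have co := CE.ncard_split (Set.toFinite {x | x ∈ Q ∧ x ∈ cA ψ})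
    fun x => ψ (e8 none) * x = x * ψ (e8 none)
  rw [CE.J0.ncard_QA h] at co
  simp only [Set.mem_ofPred_eq] at co
  have tot : 2 * finrank ℂ V = 2 * finrank ℂ (Eig ρ Q 1) +
      393168 * finrank ℂ (Eig ρ Q (ψ leechU)) := by
    rw [key, ← Finset.sum_filter_add_sum_filter_not _ (· ∈ cA ψ), add_comm,
      Finset.sum_eq_add 1 z h.xs.z_ne.symm (fun t ht hn => by
        rw [Finset.mem_filter, mem_fs] at ht
        rw [big t ht.1 hn.1 hn.2 ht.2, finrank_bot, zero_mul])
        (fun a => absurd (Finset.mem_filter.2 ⟨mem_fs.2 Q.one_mem, fun b => h.ne_one_A b rfl⟩) a)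
        (fun a => absurd (Finset.mem_filter.2 ⟨mem_fs.2 h.xs.z_mem, fun b => h.ne_z b rfl⟩) a),
      if_pos (by simp), if_pos (h.xs.z_comm _ (h.mon.mem _)),
      Eig_congr (t := z) (u := 1) fun q hq => by rw [sg_pos (h.xs.z_comm q hq), sg_pos (by simp)],
      Finset.sum_congr rfl fun t ht => by
        rw [short t (mem_fs.1 (Finset.mem_filter.1 ht).1) (Finset.mem_filter.1 ht).2],
      ← Finset.mul_sum, Finset.sum_ite, Finset.sum_const, Finset.sum_const,
      ← Set.ncard_coe_finset, ← Set.ncard_coe_finset]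
    simp only [Finset.coe_filter, Finset.mem_filter, mem_fs, smul_eq_mul]
    rw [ce, show {x | (x ∈ Q ∧ x ∈ cA ψ) ∧ ¬ψ (e8 none) * x = x * ψ (e8 none)}.ncard = 98304 by
      omega]
    ring
  have m1 : finrank ℂ (Eig ρ Q (ψ leechU)) = 1 := by
    rcases Nat.eq_zero_or_pos (finrank ℂ (Eig ρ Q (ψ leechU))) with e | e
    · refine absurd (LinearMap.ext fun x => ?_) hz
      have : Eig ρ Q 1 = ⊤ := Submodule.eq_top_of_finrank_eq (by omega)
      exact mem_Eig_one.1 (this ▸ Submodule.mem_top) z h.xs.z_mem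
    · omega
  exact ⟨fun t ht a => (short t ht a).trans m1, big, by omega⟩

omit [FiniteDimensional ℂ V] in
/-- The line belonging to a short class is fixed by its centraliser. -/
theorem fix_line (h : If0 z Q π ψ) {t : G} (ht : t ∈ Q) (hA : t ∈ cA ψ)
    (h1 : finrank ℂ (Eig ρ Q t) = 1) {y : G} (hz : y * z = z * y) (hy : y * t = t * y) {a : V}
    (ha : a ∈ Eig ρ Q t) : ρ y a = a := by
  obtain ⟨v, e, d⟩ := (h.mem_A_iff ht).1 hA
  obtain ⟨⟨b, hb⟩, b0, hb'⟩ := finrank_eq_one_iff'.1 h1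
  suffices ρ y b = b by
    obtain ⟨c, hc⟩ := hb' ⟨a, ha⟩
    rw [← show c • b = a from congrArg Subtype.val hc, map_smul, this]
  have scal : ∀ u : centralizer ({z} : Set G), (u : G) * t = t * u → ∃ c : ℂ, ρ u b = c • b :=
    fun u hu => by
      have := map_mem_Eig (H := Q) (c := u) (fun q hq => by
        simpa using (h.conj_mem_Q_iff u⁻¹).2 hq) hb
      rw [conj_eq_of_comm hu] at this
      obtain ⟨c, hc⟩ := hb' ⟨_, this⟩
      exact ⟨c, (congrArg Subtype.val hc).symm⟩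
  have inv : ∀ u : G, ρ u b = b → ρ u⁻¹ b = b := fun u hu => by
    conv_lhs => rw [← hu]
    rw [← End.mul_apply, ← map_mul, inv_mul_cancel, map_one, End.one_apply]
  have lift : ∀ g : MulAction.stabilizer Co0 v, ∃ u : centralizer ({z} : Set G),
      ((g : Co0) : Co1) = π u ∧ (u : G) * t = t * u := fun g =>
    h.mon.exists_comm_of_congr e (h.ne_one_A hA) (h.ne_z hA)
      ⟨0, by rw [MulAction.mem_stabilizer_iff.1 g.2]; simp⟩
  let N : Subgroup (MulAction.stabilizer Co0 v) :=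
    { carrier := {g | ∃ u : centralizer ({z} : Set G), ((g : Co0) : Co1) = π u ∧
        (u : G) * t = t * u ∧ ρ u b = b}
      one_mem' := ⟨1, by simp, by simp, by simp⟩
      mul_mem' := fun ⟨u, a1, a2, a3⟩ ⟨w, b1, b2, b3⟩ => ⟨u * w, by simp [a1, b1],
        comm_mul_left a2 b2, by rw [coe_mul, map_mul, End.mul_apply, b3, a3]⟩
      inv_mem' := fun ⟨u, a1, a2, a3⟩ => ⟨u⁻¹, by simp [a1], comm_inv_left a2, inv u a3⟩ }
  have cm : ∀ g k, g * k * g⁻¹ * k⁻¹ ∈ N := fun g k => by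
    obtain ⟨u, a1, a2⟩ := lift g
    obtain ⟨w, b1, b2⟩ := lift k
    obtain ⟨c, hc⟩ := scal u a2
    obtain ⟨c', hc'⟩ := scal w b2
    refine ⟨u * w * u⁻¹ * w⁻¹, by simp [a1, b1], comm_mul_left (comm_mul_left
      (comm_mul_left a2 b2) (comm_inv_left a2)) (comm_inv_left b2), ?_⟩
    have e1 : ρ (w * u : G) b = ρ (u * w : G) b := by
      simp only [map_mul, End.mul_apply, hc, hc', map_smul, smul_smul, mul_comm]
    obtain ⟨c'', hc''⟩ := scal (w * u)⁻¹ (comm_inv_left (comm_mul_left b2 a2))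
    rw [show ((u * w * u⁻¹ * w⁻¹ : centralizer ({z} : Set G)) : G) =
      (u * w : G) * ((w * u)⁻¹ : centralizer ({z} : Set G)) by simp [mul_assoc], map_mul,
      End.mul_apply, hc'', map_smul, ← e1, ← map_smul, ← hc'', ← End.mul_apply, ← map_mul]
    simp
  have hN : N = ⊤ := by
    have := simple_co2 d
    refine (IsSimpleGroup.eq_bot_or_eq_top_of_normal N ⟨fun k hk g => ?_⟩).resolve_left fun e0 => ?_
    · simpa using N.mul_mem (cm g k) hk
    · have : IsMulCommutative (MulAction.stabilizer Co0 v) := ⟨⟨fun g k => by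
        have := cm g k
        rw [e0, mem_bot, mul_inv_eq_one, mul_inv_eq_iff_eq_mul] at this
        exact this⟩⟩
      have := Group.is_simple_iff_prime_card.1
        (inferInstance : IsSimpleGroup (MulAction.stabilizer Co0 v))
      rw [card_stab_32 d] at this
      exact absurd (this.eq_one_or_self_of_dvd 2 (by norm_num)) (by norm_num)
  let u : centralizer ({z} : Set G) := ⟨y, mem_centralizer_singleton_iff.2 hz⟩
  obtain ⟨g, hg, hv⟩ : ∃ g : Co0, (g : Co1) = π u ∧ g • v = v := by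
    obtain ⟨g, hg⟩ := QuotientGroup.mk_surjective (π u)
    rcases h.pm_of_comm hg e d hy with a | a
    · exact ⟨g, hg, a⟩
    · exact ⟨negOne * g, (LES.Co.mk_eq_mk_Co1.2 (Or.inr rfl)).trans hg,
        by rw [mul_smul, a, negOne_smul, neg_neg]⟩
  obtain ⟨w, b1, b2, b3⟩ : (⟨g, hv⟩ : MulAction.stabilizer Co0 v) ∈ N := hN ▸ mem_top _
  have hq : ((w⁻¹ * u : centralizer ({z} : Set G)) : G) ∈ Q :=
    (h.mon.ker _).1 (by rw [map_mul, map_inv, ← b1, ← hg, inv_mul_cancel])
  have := hb _ hq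
  rw [sg_pos (x := ((w⁻¹ * u : centralizer ({z} : Set G)) : G))
    (comm_mul_left (comm_inv_left b2) hy), one_smul] at this
  rw [show y = w * ((w⁻¹ * u : centralizer ({z} : Set G)) : G) by simp [u], map_mul,
    End.mul_apply, this, b3]

end Cfsg.Agent.Mon.Deg
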