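import Cfsg.Agent.Mon.CuDegB

/-! The fixed space of `Q` as a module for the centraliser of a 2B-pure four-group. -/

set_option autoImplicit false

namespace Cfsg.Agent.Mon.Deg

open Module Cfsg Subgroup Cfsg.Agent.TT Cfsg.Agent.LES

variable {G : Type*} [Group G] {V : Type*} [AddCommGroup V] [Module ℂ V] {ρ : G →* End ℂ V}

/-- The eigenspaces of `P` are lines for the classes in `A` and vanish for the other nontrivial
classes. -/
structure Lines (ρ : G →* End ℂ V) (A : Set G) (P : Subgroup G) (s : G) : Prop where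
  one : ∀ t ∈ P, t ∈ A → finrank ℂ (Eig ρ P t) = 1
  bot : ∀ t ∈ P, t ≠ 1 → t ≠ s → t ∉ A → Eig ρ P t = ⊥
  fix : ∀ t ∈ P, t ∈ A → ∀ y, y * s = s * y → y * t = t * y → ∀ a ∈ Eig ρ P t, ρ y a = a

theorem Lines.conj {A : Set G} {Q : Subgroup G} {z : G} (g : G)
    (hA : ∀ x, g * x * g⁻¹ ∈ A ↔ x ∈ A) (h : Lines (ρ.comp (MulAut.conj g).toMonoidHom) A Q z) :
    Lines ρ A (Q.map (MulAut.conj g).toMonoidHom) (g * z * g⁻¹) := by
  have e : ∀ t, Eig ρ (Q.map (MulAut.conj g).toMonoidHom) (g * t * g⁻¹) =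
      Eig (ρ.comp (MulAut.conj g).toMonoidHom) Q t := fun t => Submodule.ext fun x =>
    ⟨fun hx q hq => by rw [← sg_conj g]; exact hx _ ⟨q, hq, rfl⟩, by
      rintro hx _ ⟨q, hq, rfl⟩
      exact (hx q hq).trans (by rw [← sg_conj g]; rfl)⟩
  refine ⟨?_, ?_, ?_⟩ <;> rintro _ ⟨t, ht, rfl⟩ <;>
    simp only [MulEquiv.coe_toMonoidHom, MulAut.conj_apply, e, hA]
  · exact fun a => e t ▸ h.one t ht a
  · exact fun a b => h.bot t ht (fun c => a (by simp [c])) fun c => b (by rw [c])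
  · intro a y hz hy x hx
    have := h.fix t ht a (g⁻¹ * y * g) (by
      rw [show g⁻¹ * y * g * z = g⁻¹ * (y * (g * z * g⁻¹)) * g by group, hz]; group) (by
      rw [show g⁻¹ * y * g * t = g⁻¹ * (y * (g * t * g⁻¹)) * g by group, hy]; group) x hx
    simpa [mul_assoc] using this

open Classical in
/-- The sign with which `y` acts on the line belonging to `t`. -/
noncomputable def eta (z s y t : G) : ℂ :=
  if Eqv z (y * t * y⁻¹) t then 1 else if Eqv z (y * t * y⁻¹) (t * s) then -1 else 0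

variable [Finite G] {Q P : Subgroup G} {z s : G} {A : Set G}

theorem pr_mul {H : Subgroup G} {t k : G} (h : Ch H t) (hk : k ∈ H) :
    pr ρ H t * ρ k = sg k t • pr ρ H t := by
  rw [pr, smul_mul_assoc, smul_comm (sg k t), Finset.sum_mul, Finset.smul_sum (r := sg k t),
    ← sum_mul_right hk fun a => sg k t • sg a t • ρ a]
  congr 1
  refine Finset.sum_congr rfl fun a ha => ?_
  rw [h a (mem_fs.1 ha) k hk, smul_smul, mul_comm (sg a t), ← mul_assoc, sg_sq, one_mul, map_mul,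
    smul_mul_assoc]

theorem comm_pr_one {H : Subgroup G} {c : G} (hc : ∀ h, h ∈ H ↔ c * h * c⁻¹ ∈ H) :
    ρ c * pr ρ H 1 = pr ρ H 1 * ρ c := by simpa using conj_pr (ρ := ρ) hc 1

omit [Finite G] in
theorem norm_iff (h : LX Q z) {c : G} (hc : c * z = z * c) (x : G) : x ∈ Q ↔ c * x * c⁻¹ ∈ Q :=
  mem_normalizer_iff.1 (h.mem_normalizer hc) x

theorem comm_pr_pr (h : LX Q z) (t : G) : pr ρ (P ⊓ centralizer {z}) t * pr ρ Q 1 =
    pr ρ Q 1 * pr ρ (P ⊓ centralizer {z}) t := by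
  rw [pr, smul_mul_assoc, mul_smul_comm, Finset.sum_mul, Finset.mul_sum]
  congr 1
  refine Finset.sum_congr rfl fun a ha => ?_
  rw [smul_mul_assoc, mul_smul_comm,
    comm_pr_one (norm_iff h (mem_centralizer_singleton_iff.1 (mem_fs.1 ha).2))]

theorem isProj_prpr (h : LX Q z) {t : G} (ht : Ch (P ⊓ centralizer {z}) t) :
    LinearMap.IsProj (Eig ρ (P ⊓ centralizer {z}) t ⊓ Eig ρ Q 1)
      (pr ρ (P ⊓ centralizer {z}) t * pr ρ Q 1) :=
  ⟨fun x => ⟨(isProj_pr ht).map_mem _, by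
      rw [comm_pr_pr h]; exact (isProj_pr (ch_one Q)).map_mem _⟩,
    fun x hx => by rw [End.mul_apply, (isProj_pr (ch_one Q)).map_id x hx.2,
      (isProj_pr ht).map_id x hx.1]⟩

omit [Finite G] in
theorem eq_zero_of_isProj {f : End ℂ V} {W : Submodule ℂ V} (h : LinearMap.IsProj W f)
    (e : W = ⊥) : f = 0 := LinearMap.ext fun x => by simpa [e] using h.map_mem x

omit [Finite G] in
theorem eq_zero_of_sg {x : V} {a b : ℂ} (h : a • x = b • x) (e : a = -b) (hb : b * b = 1) :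
    x = 0 := by
  rw [← sub_eq_zero, ← sub_smul, smul_eq_zero] at h
  refine h.resolve_left fun h => ?_
  have : b = 0 := by linear_combination (e - h) / 2
  simp [this] at hb

/-- The line of `V^Q` belonging to a class of `Q ∩ P` in `A`. -/
theorem exists_line (hp : LXPair Q P z s) (LQ : Lines ρ A Q z) (LP : Lines ρ A P s) (hs : s ∉ A)
    {t : G} (ht : t ∈ Q ⊓ P) (hA : t ∈ A) (hA' : t * z ∈ A)
    (hn : ¬ (t = 1 ∨ t = z ∨ t = s ∨ t = s * z)) :
    ∃ w : V, w ≠ 0 ∧ Eig ρ (P ⊓ centralizer {z}) t ⊓ Eig ρ Q 1 = Submodule.span ℂ {w} ∧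
      ∀ y, y * z = z * y → y * s = s * y → Eqv z (y * t * y⁻¹) t → ρ y w = w := by
  obtain ⟨⟨a, ha⟩, a0, ha'⟩ := finrank_eq_one_iff'.1 (LP.one t ht.2 hA)
  obtain ⟨q, hq, qs, qt⟩ : ∃ q ∈ Q, q * s = s * q ∧ q * t ≠ t * q := by
    by_contra hc
    push Not at hc
    exact hn (hp.hQ.toXS.eq_of_comm_centralizer hp.s_mem ht.1 hc)
  have qz := hp.hQ.z_comm q hq
  have qt' : q * t * q⁻¹ = t * z := hp.hQ.toXS.conj_of_ne hq ht.1 qt
  have tz : t * z ∈ P := mul_mem ht.2 hp.z_mem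
  have hb : ρ q a ∈ Eig ρ P (t * z) := qt' ▸ map_mem_Eig (fun p hp' => by
    simpa using hp.hP.norm _ (comm_inv_left qs) p hp') ha
  have qq : ρ q (ρ q a) = a := by
    rw [← End.mul_apply, ← map_mul]
    exact LP.fix t ht.2 hA _ (comm_mul_left qs qs) (hp.hQ.toXS.sq_comm hq ht.1) a ha
  have ind : ∀ c : ℂ, c ≠ 0 → ρ q a ≠ c • a := fun c hc e => by
    obtain ⟨p, hp', pz⟩ := hp.hP.toXS.exists_not_comm hp.z_mem hp.hQ.z_ne hp.ne.symm
    have h1 := hb p hp'
    rw [e, map_smul, ha p hp', smul_comm c, sg_comm p (t * z),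
      sg_mul hp.hP.toXS ht.2 hp.z_mem hp', sg_neg pz, sg_comm t] at h1
    exact a0 (Subtype.ext ((smul_eq_zero.1 (eq_zero_of_sg h1.symm (by ring) (sg_sq _ _))).resolve_left hc))
  have fix0 : ∀ y, y * z = z * y → y * s = s * y → y * t = t * y →
      ρ y (a + ρ q a) = a + ρ q a := fun y yz ys yt => by
    rw [map_add, LP.fix t ht.2 hA y ys yt a ha,
      LP.fix _ tz hA' y ys (comm_mul_left yt.symm yz.symm).symm _ hb]
  have fix : ∀ y, y * z = z * y → y * s = s * y → Eqv z (y * t * y⁻¹) t →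
      ρ y (a + ρ q a) = a + ρ q a := fun y yz ys yt => by
    rcases yt with e | e
    · exact fix0 y yz ys (comm_of_conj_eq e)
    · rw [← mul_inv_cancel_left q y, map_mul, End.mul_apply, fix0 _
        (comm_mul_left (comm_inv_left qz) yz) (comm_mul_left (comm_inv_left qs) ys)
        (comm_of_conj_eq (by
          rw [show q⁻¹ * y * t * (q⁻¹ * y)⁻¹ = q⁻¹ * (y * t * y⁻¹) * q by group, e, ← qt']
          group)), map_add, qq, add_comm]
  refine ⟨a + ρ q a, fun e => ind (-1) (by norm_num) (by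
    rw [neg_smul, one_smul]; exact eq_neg_of_add_eq_zero_right e), le_antisymm ?_ ?_, fix⟩
  · rintro x ⟨h1, h2⟩
    have h3 := (isProj_pr (ch_of hp.hP.toXS inf_le_left ht.2)).map_id x h1
    rw [← pr_add hp.hP.toXS hp.z_mem hp.hQ.z_ne hp.ne.symm ht.2, LinearMap.add_apply] at h3
    obtain ⟨α, hα⟩ := ha' ⟨_, (isProj_pr (ch_of hp.hP.toXS le_rfl ht.2)).map_mem x⟩
    obtain ⟨β, hβ⟩ := (finrank_eq_one_iff_of_nonzero' (⟨_, hb⟩ : Eig ρ P (t * z)) (fun e =>
      a0 (Subtype.ext (show a = 0 by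
        rw [← qq, show ρ q a = 0 from congrArg Subtype.val e, map_zero])))).1
      (LP.one _ tz hA') ⟨_, (isProj_pr (ch_of hp.hP.toXS le_rfl tz)).map_mem x⟩
    rw [← show α • a = pr ρ P t x from congrArg Subtype.val hα,
      ← show β • ρ q a = pr ρ P (t * z) x from congrArg Subtype.val hβ] at h3
    have h4 := mem_Eig_one.1 h2 q hq
    rw [← h3, map_add, map_smul, map_smul, qq] at h4
    have h5 : α = β := by
      by_contra hc
      refine ind 1 one_ne_zero (smul_right_injective V (sub_ne_zero.2 hc) ?_)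
      simp only [sub_smul, one_smul]
      linear_combination (norm := abel) h4
    exact Submodule.mem_span_singleton.2 ⟨α, by rw [← h3, h5, smul_add]⟩
  · rw [Submodule.span_singleton_le_iff_mem]
    refine ⟨add_mem (fun p hp' => ha p hp'.1) fun p hp' => ?_, ?_⟩
    · rw [hb p hp'.1, sg_comm p (t * z), sg_mul hp.hP.toXS ht.2 hp.z_mem hp'.1,
        sg_pos (mem_centralizer_singleton_iff.1 hp'.2).symm, mul_one, sg_comm]
    · have h1 : a + ρ q a ∈ Eig ρ (Q ⊓ centralizer {s}) 1 := mem_Eig_one.2 fun k hk =>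
        fix k (hp.hQ.z_comm k hk.1) (mem_centralizer_singleton_iff.1 hk.2)
          (hp.hQ.toXS.conj hk.1 ht.1)
      rw [← (isProj_pr (ch_one _)).map_id _ h1,
        ← pr_add hp.hQ.toXS hp.s_mem hp.hP.z_ne hp.ne Q.one_mem, one_mul,
        eq_zero_of_isProj (isProj_pr (ch_of hp.hQ.toXS le_rfl hp.s_mem))
          (LQ.bot s hp.s_mem hp.hP.z_ne hp.ne hs), add_zero]
      exact (isProj_pr (ch_one Q)).map_mem _

variable [FiniteDimensional ℂ V]

theorem trace_line (hp : LXPair Q P z s) (LQ : Lines ρ A Q z) (LP : Lines ρ A P s) (hs : s ∉ A)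
    {t : G} (ht : t ∈ Q ⊓ P) (hA : t ∈ A) (hA' : t * z ∈ A)
    (hn : ¬ (t = 1 ∨ t = z ∨ t = s ∨ t = s * z)) {y : G} (yz : y * z = z * y)
    (ys : y * s = s * y) :
    LinearMap.trace ℂ V (ρ y * (pr ρ (P ⊓ centralizer {z}) t * pr ρ Q 1)) = eta z s y t := by
  obtain ⟨w, w0, hw, fix⟩ := exists_line hp LQ LP hs ht hA hA' hn
  have ch : ∀ {u : G}, u ∈ P → Ch (P ⊓ centralizer {z}) u := ch_of hp.hP.toXS inf_le_left
  have pj := isProj_prpr (ρ := ρ) hp.hQ (ch ht.2)
  have key : ∀ c : ℂ, ρ y w = c • w →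
      LinearMap.trace ℂ V (ρ y * (pr ρ (P ⊓ centralizer {z}) t * pr ρ Q 1)) = c := fun c hc => by
    rw [show ρ y * (pr ρ (P ⊓ centralizer {z}) t * pr ρ Q 1) =
        c • (pr ρ (P ⊓ centralizer {z}) t * pr ρ Q 1) from LinearMap.ext fun x => by
      obtain ⟨b, hb⟩ := Submodule.mem_span_singleton.1 (hw ▸ pj.map_mem x)
      rw [End.mul_apply, LinearMap.smul_apply, ← hb, map_smul, hc, smul_comm], map_smul, pj.trace,
      hw, finrank_span_singleton w0]
    simp
  have exp : ∀ u ∈ P, ¬ (u = 1 ∨ u = s ∨ u = z ∨ u = z * s) →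
      ∃ p ∈ P, p * z = z * p ∧ p * u ≠ u * p := fun u hu h => by
    by_contra hc
    push Not at hc
    exact h (hp.hP.toXS.eq_of_comm_centralizer hp.z_mem hu hc)
  unfold eta
  split_ifs with e1 e2
  · exact key 1 (by rw [fix y yz ys e1, one_smul])
  · obtain ⟨p, hp', pz, pt⟩ := exp t ht.2 (by rw [← hp.sz]; tauto)
    have h1 : w ∈ Eig ρ (P ⊓ centralizer {z}) t ⊓ Eig ρ Q 1 :=
      hw ▸ Submodule.mem_span_singleton_self w
    refine key (-1) ?_
    rw [← mul_inv_cancel_left p y, map_mul, End.mul_apply, fix _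
      (comm_mul_left (comm_inv_left pz) yz)
      (comm_mul_left (comm_inv_left (hp.hP.z_comm p hp')) ys) ?_,
      h1.1 p ⟨hp', mem_centralizer_singleton_iff.2 pz⟩, sg_neg pt]
    have := e2.conj (comm_inv_left pz)
    rw [← hp.hP.toXS.conj_of_ne hp' ht.2 pt] at this
    convert this using 1 <;> group
  · have yP : y * t * y⁻¹ ∈ P := hp.hP.norm y ys t ht.2
    obtain ⟨p, hp', pz, pt⟩ := exp (t⁻¹ * (y * t * y⁻¹)) (mul_mem (inv_mem ht.2) yP) (by
      simp only [inv_mul_eq_iff_eq_mul, mul_one]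
      rintro (e | e | e | e)
      · exact e1 (Or.inl e)
      · exact e2 (Or.inl e)
      · exact e1 (Or.inr e)
      · exact e2 (Or.inr (by rw [e, ← hp.sz, mul_assoc])))
    have p0 : p ∈ P ⊓ centralizer {z} := ⟨hp', mem_centralizer_singleton_iff.2 pz⟩
    have h1 : sg p (y * t * y⁻¹) = -sg p t := by
      have := sg_mul hp.hP.toXS ht.2 (mul_mem (inv_mem ht.2) yP) hp'
      rw [mul_inv_cancel_left, sg_neg (Ne.symm pt), sg_comm, sg_comm t] at this
      rw [this]; ring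
    have hy : ∀ x, x ∈ P ⊓ centralizer {z} ↔ y * x * y⁻¹ ∈ P ⊓ centralizer {z} := fun x =>
      and_congr (norm_iff hp.hP ys x) (by
        change x ∈ centralizer {z} ↔ y * x * y⁻¹ ∈ centralizer {z}
        have := mem_centralizer_singleton_iff.2 yz
        rw [Subgroup.mul_mem_cancel_right _ (inv_mem this), Subgroup.mul_mem_cancel_left _ this])
    have h2 := LinearMap.trace_mul_comm ℂ (ρ p) (ρ y * (pr ρ (P ⊓ centralizer {z}) t * pr ρ Q 1))
    rw [mul_assoc, mul_assoc, ← comm_pr_one (norm_iff hp.hQ pz), ← mul_assoc (pr _ _ t),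
      pr_mul (ch ht.2) p0, smul_mul_assoc, mul_smul_comm, map_smul, ← mul_assoc (ρ y),
      conj_pr hy, ← mul_assoc, ← mul_assoc, mul_pr (ch yP) p0, smul_mul_assoc,
      smul_mul_assoc, map_smul] at h2
    rw [← mul_assoc, conj_pr hy]
    exact eq_zero_of_sg h2 h1 (sg_sq _ _)

open Classical in
theorem trace_fix (hp : LXPair Q P z s) (LQ : Lines ρ A Q z) (LP : Lines ρ A P s)
    (hE : 2 * Nat.card P ≤ Nat.card (Q ⊓ P : Subgroup G) ^ 2)
    (hA : ∀ t ∈ Q, t ∈ A ↔ t * z ∈ A) (h1 : 1 ∉ A) (hs : s ∉ A) {y : G} (yz : y * z = z * y)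
    (ys : y * s = s * y) : 4 * LinearMap.trace ℂ V (ρ y * pr ρ Q 1) =
      4 * LinearMap.trace ℂ V (ρ y * (pr ρ (P ⊓ centralizer {z}) 1 * pr ρ Q 1)) +
        ∑ t ∈ (fs (Q ⊓ P)).filter (· ∈ A), eta z s y t := by
  have xP := hp.hP.toXS
  have e1 : ∑ t ∈ fs P, pr ρ (P ⊓ centralizer {z}) t * pr ρ Q 1 = (4 : ℂ) • pr ρ Q 1 := by
    rw [← Finset.sum_mul, ← Finset.sum_congr rfl fun t ht =>
      pr_add xP hp.z_mem hp.hQ.z_ne hp.ne.symm (mem_fs.1 ht), Finset.sum_add_distrib,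
      sum_mul_right hp.z_mem (pr ρ P), sum_pr xP, add_mul, add_mul, one_mul,
      mul_pr (ch_one Q) hp.s_mem, sg_pos (by simp)]
    module
  have hz : z ∉ A := fun e => h1 ((hA 1 Q.one_mem).2 (by rwa [one_mul]))
  have hsz : s * z ∉ A := fun e => hs ((hA s hp.s_mem).2 e)
  have four : ∀ t ∈ ({1, z, s, s * z} : Finset G), t ∈ P ∧ t ∉ A ∧
      pr ρ (P ⊓ centralizer {z}) t = pr ρ (P ⊓ centralizer {z}) 1 := fun t ht => by
    have c : ∀ u, (∀ p ∈ P ⊓ centralizer {z}, p * u = u * p) →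
        pr ρ (P ⊓ centralizer {z}) u = pr ρ (P ⊓ centralizer {z}) 1 := fun u hu =>
      pr_congr fun p hp' => by rw [sg_pos (hu p hp'), sg_pos (by simp)]
    simp only [Finset.mem_insert, Finset.mem_singleton] at ht
    rcases ht with rfl | rfl | rfl | rfl
    · exact ⟨one_mem _, h1, rfl⟩
    · exact ⟨hp.z_mem, hz, c _ fun p h => mem_centralizer_singleton_iff.1 h.2⟩
    · exact ⟨xP.z_mem, hs, c _ fun p h => xP.z_comm p h.1⟩
    · exact ⟨mul_mem xP.z_mem hp.z_mem, hsz, c _ fun p h => (comm_mul_left (xP.z_comm p h.1).symm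
        (mem_centralizer_singleton_iff.1 h.2).symm).symm⟩
  have c4 : ({1, z, s, s * z} : Finset G).card = 4 := by
    have a1 := hp.hQ.z_ne
    have a2 := xP.z_ne
    have a3 := hp.ne
    have a4 : 1 ≠ s * z := fun e => a3 (by rw [← hp.hQ.toXS.mul_z_z s, ← e, one_mul])
    rw [Finset.card_insert_of_notMem (by simp [a1.symm, a2.symm, a4]),
      Finset.card_insert_of_notMem (by simp [a2, a3.symm]), Finset.card_pair (by simp [a1])]
  rw [← smul_eq_mul, ← map_smul, ← mul_smul_comm, ← e1, Finset.mul_sum, map_sum,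
    ← Finset.sum_subset (s₁ := {1, z, s, s * z} ∪ (fs (Q ⊓ P)).filter (· ∈ A)) ?_ ?_,
    Finset.sum_union (Finset.disjoint_left.2 fun t a b => (four t a).2.1 (Finset.mem_filter.1 b).2),
    Finset.sum_congr rfl fun t ht => by rw [(four t ht).2.2], Finset.sum_const, c4]
  · rw [nsmul_eq_mul, Nat.cast_ofNat]
    congr 1
    refine Finset.sum_congr rfl fun t ht => ?_
    obtain ⟨a, b⟩ := Finset.mem_filter.1 ht
    refine trace_line hp LQ LP hs (mem_fs.1 a) b ((hA t (mem_fs.1 a).1).1 b) ?_ yz ys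
    rintro (rfl | rfl | rfl | rfl) <;> contradiction
  · intro t ht
    rcases Finset.mem_union.1 ht with a | a
    · exact mem_fs.2 (four t a).1
    · exact mem_fs.2 (mem_fs.1 (Finset.mem_filter.1 a).1).2
  · intro t ht hn
    rw [mem_fs] at ht
    simp only [Finset.mem_union, Finset.mem_insert, Finset.mem_singleton, Finset.mem_filter,
      mem_fs, not_or, not_and] at hn
    suffices pr ρ (P ⊓ centralizer {z}) t * pr ρ Q 1 = 0 by rw [this, mul_zero, map_zero]
    by_cases hQ : t ∈ Q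
    · have tA := hn.2 ⟨hQ, ht⟩
      have tz : t * z ∈ P := mul_mem ht hp.z_mem
      rw [← pr_add xP hp.z_mem hp.hQ.z_ne hp.ne.symm ht,
        eq_zero_of_isProj (isProj_pr (ch_of xP le_rfl ht)) (LP.bot t ht hn.1.1 hn.1.2.2.1 tA),
        eq_zero_of_isProj (isProj_pr (ch_of xP le_rfl tz)) (LP.bot _ tz
          (fun e => hn.1.2.1 (by rw [← hp.hQ.toXS.mul_z_z t, e, one_mul]))
          (fun e => hn.1.2.2.2 (by rw [← hp.hQ.toXS.mul_z_z t, e])) (mt (hA t hQ).2 tA)),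
        add_zero, zero_mul]
    · obtain ⟨k, hk, kt⟩ : ∃ k ∈ Q ⊓ P, k * t ≠ t * k := by
        by_contra hc
        push Not at hc
        have a1 := xP.card_mul_card_centralizer (A := Q ⊓ P) inf_le_right ⟨hp.s_mem, xP.z_mem⟩
        have a2 : Q ⊓ P = P ⊓ centralizer ((Q ⊓ P : Subgroup G) : Set G) :=
          eq_of_le_of_card_ge (fun x hx => ⟨hx.2, fun k hk => E_comm hp hk hx⟩)
            (Nat.le_of_mul_le_mul_left (by rw [a1, ← pow_two]; exact hE) Nat.card_pos)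
        exact hQ (a2.ge ⟨ht, hc⟩).1
      refine eq_zero_of_isProj (isProj_prpr hp.hQ (ch_of xP inf_le_left ht)) ?_
      rw [eq_bot_iff]
      rintro x ⟨a, b⟩
      have := a k ⟨hk.2, mem_centralizer_singleton_iff.2 (hp.hQ.z_comm k hk.1)⟩
      rw [mem_Eig_one.1 b k hk.1, sg_neg kt] at this
      exact eq_zero_of_sg (b := 1) (by rw [← this, one_smul]) rfl (one_mul _)

end Cfsg.Agent.Mon.Deg
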