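import Cfsg.Agent.Mon.CuDegA
import Cfsg.Agent.Spor.M24Orbit
import Cfsg.Agent.Spor.M24Class

/-! A representation of `M24` whose character agrees on involutions with the permutation
character up to a constant has degree at least 23. -/

set_option autoImplicit false

namespace Cfsg.Agent.Mon.Deg

open Module Cfsg Cfsg.Agent.Comp Cfsg.Agent.Spor Cfsg.Agent.Spor.M24C

/-- Codes of the subproducts. -/
noncomputable def prodsC (l : List ℕ) : List ℕ :=
  List.rec (motive := fun _ => List ℕ) [oneC] (fun c _ ih => ih ++ ih.map (mulC c)) l

theorem code_prods {l : List ℕ} (h : ∀ c ∈ l, okM c = true) :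
    (prods (l.map mc)).map (fun g : M24 => code g) = prodsC l := by
  induction l with
  | nil => simp [prods, prodsC, code_one]
  | cons c l ih =>
    have : prodsC (c :: l) = prodsC l ++ (prodsC l).map (mulC c) := rfl
    rw [this, ← ih fun d hd => h d (List.mem_cons_of_mem _ hd), List.map_cons, prods,
      List.map_append, List.map_map, List.map_map]
    congr 2
    ext g
    simp [code_mul, code_mc (h c List.mem_cons_self)]

/-- The codes are commuting involutions of `M24`. -/
noncomputable def chk (l : List ℕ) : Bool :=
  allL l fun c => and' (okM c) (and' (Nat.beq (mulC c c) oneC)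
    (allL l fun d => Nat.beq (mulC c d) (mulC d c)))

theorem ext_code {g h : M24} (e : code g = code h) : g = h := Subtype.ext (code_injective e)

theorem chk_spec {l : List ℕ} (h : chk l = true) : (∀ c ∈ l, okM c = true) ∧
    ∀ g ∈ l.map mc, g * g = 1 ∧ ∀ k ∈ l.map mc, Commute g k := by
  simp only [chk, allL_iff, and'_eq_true, beq_iff] at h
  refine ⟨fun c hc => (h c hc).1, ?_⟩
  simp only [List.forall_mem_map]
  refine fun c hc => ⟨ext_code ?_, fun d hd => ext_code ?_⟩
  · rw [Subgroup.coe_mul, code_mul, code_mc (h c hc).1, (h c hc).2.1, Subgroup.coe_one, code_one]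
  · rw [Subgroup.coe_mul, Subgroup.coe_mul, code_mul, code_mul, code_mc (h c hc).1,
      code_mc (h d hd).1, (h c hc).2.2 d hd]

variable {V : Type*} [AddCommGroup V] [Module ℂ V] [FiniteDimensional ℂ V] {ρ : M24 →* End ℂ V}

/-- The character agrees on involutions with the permutation character up to a constant. -/
def PermLike (ρ : M24 →* End ℂ V) : Prop := ∀ x : M24, x * x = 1 →
  LinearMap.trace ℂ V (ρ x) + 24 = finrank ℂ V + (fixSet (x : Equiv.Perm GolayPt)).card

theorem PermLike.dim (h : PermLike ρ) {l : List ℕ} {N : ℕ} (hl : chk l = true)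
    (hN : ((prodsC l).map fun c => pop 24 (fixC c)).sum = 2 ^ l.length * N) :
    finrank ℂ (Fix ρ (l.map mc)) + 24 = finrank ℂ V + N := by
  obtain ⟨h1, h2⟩ := chk_spec hl
  have h3 := finrank_Fix ρ h2
  have h4 : ∀ L : List M24, (∀ g ∈ L, g * g = 1) →
      (L.map fun g => LinearMap.trace ℂ V (ρ g)).sum + L.length * 24 = L.length * finrank ℂ V +
      (((L.map fun g : M24 => code g).map fun c => pop 24 (fixC c)).sum : ℕ) := fun L hL => by
    induction L with
    | nil => simp
    | cons g L ih =>
      have := h g (hL g List.mem_cons_self)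
      rw [fixSet, card_fixed_eq] at this
      have ih := ih fun k hk => hL k (List.mem_cons_of_mem _ hk)
      simp only [List.map_cons, List.sum_cons, List.length_cons, Nat.cast_add, Nat.cast_one] at ih ⊢
      linear_combination this + ih
  have h5 : ∀ L : List M24, (prods L).length = 2 ^ L.length := fun L => by
    induction L with
    | nil => rfl
    | cons g L ih => simp [prods, ih, pow_succ, mul_two]
  have h6 := h4 _ fun g hg => sq_prods h2 hg
  rw [← h3, code_prods h1, hN, h5, List.length_map] at h6
  push_cast at h6
  have : ((finrank ℂ (Fix ρ (l.map mc)) + 24 : ℕ) : ℂ) = (finrank ℂ V + N : ℕ) := by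
    push_cast
    exact mul_left_cancel₀ (pow_ne_zero l.length two_ne_zero) (by linear_combination h6)
  exact_mod_cast this

def cA : List ℕ := [
  237088193432378916389358651429618755, 590164260625702196097460789311507457,
  216031257977568192633985706410183681, 596654750537752186788767474980520034,
  216318847532394293368276183264821346, 970499966350631336865513127433832480]

def LA : List ℕ := [
  984818244535754528103549039458486304, 970499966350631336865513127433832480,
  216318847532394293368276183264821346, 220252532000447816943241873487593570,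
  596654750537752186788767474980520034, 610972711791184720857040928538394722,
  718712872302102422341373956619077664, 714779504765739530547128581499226144,
  216031257977568192633985706410183681, 220121809236599362611927091125488641,
  984687521771906074924029827437560899, 970212376795805237283018220920374339,
  718582466469944612485300561041687619, 714491598279222785337596717859603523,
  596366844051235442731031181682347009, 610842305959026912152763103302454273,
  590164260625702196097460789311507457, 594097469710726884127915119936080897,
  735587559802120952862548468252542019, 721269757000026622558066059189945411,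
  967943160906634882443693203669386307, 964009317987243155104936468951336003,
  222808941315343168920901544778468353, 237127377951804563922728501298400257,
  735457312421301346770266117170628640, 720981692062171673584743151055243296,
  589876195687847248275933451517984866, 593967222329907279187428339195347042,
  222521510211855271950402112419037282, 236996496736617905827622674440945762,
  967812279691448225500382947153381408, 963721886883755259286232606933354528,
  237088193432378916389358651429618755, 222848521963869917746636076779308099,
  964048898635769892387945499611696129, 967903976387209248756639995823983617,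
  721309179197215149166510279720242177, 735548533734033527546468929854573569,
  594058443642639447269110080197362755, 590203682822890736552221651864912963,
  963918492803612076772893908740898914, 967616069900692509306086327477895266,
  236800286945862178090600553424980000, 222718116131712103283380056249960480,
  593770854087813340775841408049317920, 590072960059042287979885064796342304,
  721178456433366701745969262992851042, 735260944179207422204995828047708258,
  714818689285165176928702861026558050, 718673291653575672363843854276788322,
  610933131142657984725827468219484192, 596693935057177821627616253167372320,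
  220213109803259289183002082616117280, 216357873600481717532560151321610272,
  970538992418718774876113737513730146, 984778822338565988800583747246260322,
  610645700039170093514306231153460291, 596563053841991157773532231016383555,
  714687808069978514226414409217018881, 718385860550087782304118187552214017,
  970408745037899174542809581725223937, 984490757400711034068282643818023937,
  219925044865404335602496549529060419, 216227626219662118351051565874283587]

def cB : List ℕ := [
  236996496736617905827622674440945762, 970212376795805237283018220920374339,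
  967903976387209248756639995823983617, 964510463350997296860926399632455348,
  718712872302102422341373956619077664, 639530424279394204270704014296975392]

def s1 : ℕ := 734834830362565928195534817039405490
def C1 : List ℕ := [
  967903976387209248756639995823983617, 967616069900692509306086327477895266,
  718582466469944612485300561041687619]

def s2 : ℕ := 548008664198992417340242073871256608
def C2 : List ℕ := [
  216031257977568192633985706410183681, 610842305959026912152763103302454273,
  236800286945862178090600553424980000]

def s3 : ℕ := 677174094540983625651807491737062432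
def C3 : List ℕ := [
  220213109803259289183002082616117280, 594097469710726884127915119936080897,
  967903976387209248756639995823983617]

def s4 : ℕ := 735578527787638432662099159443145792
def C4 : List ℕ := [
  967943160906634882443693203669386307, 718582466469944612485300561041687619,
  735587559802120952862548468252542019]

def s5 : ℕ := 969202056781860934635753244362607648
def C5 : List ℕ := [
  970499966350631336865513127433832480, 967903976387209248756639995823983617,
  735548533734033527546468929854573569]

def cw : ℕ := 219927859056116318714438919114556418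
def cn : ℕ := 317389543102384574426573336821044791


theorem prods_cA : prodsC cA = LA := by decide +kernel

theorem chk_cA : chk cA = true := by decide +kernel

/-- Membership in the `2^6` of the sextet group. -/
noncomputable def inA (c : ℕ) : Bool := force c fun c => anyL LA (Nat.beq c)

/-- The fixed space of the `2^6` of the sextet group. -/
noncomputable abbrev UU (ρ : M24 →* End ℂ V) : Submodule ℂ V := Fix ρ (cA.map mc)

/-- `g` acts on `UU` as `r`. -/
def Rel (ρ : M24 →* End ℂ V) (c : ℕ) (r : End ℂ (UU ρ)) : Prop :=
  ∃ g : M24, code g = c ∧ ∀ x : UU ρ, ρ g x = r x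

omit [FiniteDimensional ℂ V]

theorem fix_of_inA {g : M24} (h : inA (code g) = true) {x : V} (hx : x ∈ UU ρ) : ρ g x = x := by
  rw [inA, force_eq, anyL_iff] at h
  obtain ⟨c, hc, e⟩ := h
  rw [← prods_cA, ← code_prods (chk_spec chk_cA).1] at hc
  obtain ⟨k, hk, rfl⟩ := List.mem_map.1 hc
  rw [ext_code ((beq_iff _ _).1 e)]
  exact fix_of_prods ρ hx hk

theorem Rel.mul {c d : ℕ} {r s : End ℂ (UU ρ)} (h : Rel ρ c r) (h' : Rel ρ d s) :
    Rel ρ (mulC c d) (r * s) := by
  obtain ⟨g, rfl, e⟩ := h
  obtain ⟨k, rfl, e'⟩ := h'
  exact ⟨g * k, code_mul _ _, fun x => by rw [map_mul, End.mul_apply, e', e, End.mul_apply]⟩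

theorem Rel.one {c : ℕ} {r : End ℂ (UU ρ)} (h : Rel ρ c r) (hc : inA c = true) : r = 1 := by
  obtain ⟨g, rfl, e⟩ := h
  ext x
  rw [← e, fix_of_inA hc x.2, End.one_apply]

theorem Rel.eq {c d : ℕ} {r s : End ℂ (UU ρ)} (h : Rel ρ c r) (h' : Rel ρ d s)
    (hc : inA (mulC (invC c) d) = true) : r = s := by
  obtain ⟨g, rfl, e⟩ := h
  obtain ⟨k, rfl, e'⟩ := h'
  rw [← code_inv, ← code_mul] at hc
  ext x
  rw [← e, ← e', ← mul_inv_cancel_left g k, map_mul, End.mul_apply,
    fix_of_inA (g := g⁻¹ * k) hc x.2]

/-- `c` normalises the `2^6`. -/
noncomputable def nrm (c : ℕ) : Bool :=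
  and' (okM c) (allL cA fun a => inA (mulC (invC c) (mulC a c)))

theorem exists_rel {c : ℕ} (h : nrm c = true) : ∃ r, Rel ρ c r := by
  rw [nrm, and'_eq_true, allL_iff] at h
  refine ⟨(ρ (mc c)).restrict (p := UU ρ) (q := UU ρ) fun x hx g hg => ?_, mc c, code_mc h.1,
    fun x => rfl⟩
  obtain ⟨a, ha, rfl⟩ := List.mem_map.1 hg
  have h1 := h.2 a ha
  rw [← code_mc h.1, ← code_mc ((chk_spec chk_cA).1 a ha), ← code_inv, ← code_mul,
    ← code_mul] at h1
  rw [← End.mul_apply, ← map_mul, ← mul_inv_cancel_left (mc c) (mc a * mc c), map_mul,
    End.mul_apply, fix_of_inA (g := (mc c)⁻¹ * (mc a * mc c)) h1 hx]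

theorem Rel.line [FiniteDimensional ℂ V] (hρ : PermLike ρ) {c : ℕ} {C : List ℕ}
    {r : End ℂ (UU ρ)} (h : Rel ρ c r) (h1 : chk (c :: C) = true) (h2 : chk C = true)
    (h3 : allL C inA = true)
    (h4 : ((prodsC C).map fun c => pop 24 (fixC c)).sum = 2 ^ C.length * 10)
    (h5 : ((prodsC (c :: C)).map fun c => pop 24 (fixC c)).sum = 2 ^ (c :: C).length * 9)
    (hr : r ≠ 1) : ∃ v, Rf r v := by
  have e1 := hρ.dim h1 h5
  have e2 := hρ.dim h2 h4
  have sq : r * r = 1 := (h.mul h).one (by
    simp only [chk, allL_iff, and'_eq_true, beq_iff] at h1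
    rw [(h1 c List.mem_cons_self).2.1]
    decide +kernel)
  obtain ⟨g, rfl, e⟩ := h
  rw [List.map_cons, mc_code] at e1
  have hle : ∀ x : UU ρ, (x : V) ∈ Fix ρ (C.map mc) := fun x k hk => by
    obtain ⟨a, ha, rfl⟩ := List.mem_map.1 hk
    exact fix_of_inA (by rw [code_mc ((chk_spec h2).1 a ha)]; exact (allL_iff _ _).1 h3 a ha) x.2
  refine exists_rf sq hr fun x y hx hy h0 => ?_
  obtain ⟨a, ha⟩ := line_of_finrank ρ (g := g) (by omega) (hle x) (hle y)
    (by rw [e, hx]; rfl) (by rw [e, hy]; rfl) fun e0 => h0 (Subtype.ext e0)
  exact ⟨a, Subtype.ext ha⟩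

theorem PermLike.le [FiniteDimensional ℂ V] (hρ : PermLike ρ) : 23 ≤ finrank ℂ V := by
  have dU := hρ.dim (N := 6) chk_cA (by decide +kernel)
  have dB := hρ.dim (l := cB) (N := 3) (by decide +kernel) (by decide +kernel)
  obtain ⟨r1, h1⟩ := exists_rel (ρ := ρ) (c := s1) (by decide +kernel)
  obtain ⟨r2, h2⟩ := exists_rel (ρ := ρ) (c := s2) (by decide +kernel)
  obtain ⟨r3, h3⟩ := exists_rel (ρ := ρ) (c := s3) (by decide +kernel)
  obtain ⟨r4, h4⟩ := exists_rel (ρ := ρ) (c := s4) (by decide +kernel)
  obtain ⟨r5, h5⟩ := exists_rel (ρ := ρ) (c := s5) (by decide +kernel)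
  obtain ⟨t, ht⟩ := exists_rel (ρ := ρ) (c := cw) (by decide +kernel)
  obtain ⟨n, hn⟩ := exists_rel (ρ := ρ) (c := cn) (by decide +kernel)
  obtain ⟨m, hm⟩ := exists_rel (ρ := ρ) (c := invC cn) (by decide +kernel)
  have q1 : r1 * r1 = 1 := (h1.mul h1).one (by decide +kernel)
  have q3 : r3 * r3 = 1 := (h3.mul h3).one (by decide +kernel)
  have q5 : r5 * r5 = 1 := (h5.mul h5).one (by decide +kernel)
  have n1 : r3 = n * r1 * m := h3.eq ((hn.mul h1).mul hm) (by decide +kernel)
  have n3 : r5 = n * r3 * m := h5.eq ((hn.mul h3).mul hm) (by decide +kernel)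
  have n5 : r1 = n * r5 * m := h1.eq ((hn.mul h5).mul hm) (by decide +kernel)
  have key : ¬ (r1 = r3 ∧ r3 = r5) := fun ⟨a, b⟩ => by
    have hle : UU ρ ≤ Fix ρ (cB.map mc) := fun x hx g hg => by
      obtain ⟨c, hc, rfl⟩ := List.mem_map.1 hg
      have hk : allL cB (fun c => and' (okM c) (or' (inA c) (or' (inA (mulC (mulC s1 s5) c))
        (inA (mulC (mulC s3 s5) c))))) = true := by decide +kernel
      have := (allL_iff _ _).1 hk c hc
      rw [and'_eq_true, or'_eq_true, or'_eq_true] at this
      have red : ∀ {d : ℕ}, Rel ρ d 1 → inA (mulC d c) = true → ρ (mc c) x = x := by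
        rintro _ ⟨k, rfl, e⟩ hd
        rw [← code_mc this.1, ← code_mul] at hd
        have h6 := fix_of_inA (g := k * mc c) hd hx
        have h7 : ρ k⁻¹ x = x := by
          conv_lhs => rw [← show ρ k x = x from e ⟨x, hx⟩]
          rw [← End.mul_apply, ← map_mul, inv_mul_cancel, map_one, End.one_apply]
        rw [← inv_mul_cancel_left k (mc c), map_mul, End.mul_apply, h6, h7]
      rcases this.2 with e | e | e
      · exact fix_of_inA (by rwa [code_mc this.1]) hx
      · exact red (by have := h1.mul h5; rwa [a, b, q5] at this) e
      · exact red (by have := h3.mul h5; rwa [b, q5] at this) e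
    have := Submodule.finrank_mono hle
    unfold UU at this
    omega
  have n13 : r1 ≠ r3 := fun e => key ⟨e, by rw [n3, ← e, ← n1, e]⟩
  have n35 : r3 ≠ r5 := fun e => key ⟨by rw [n5, ← e, ← n3, e], e⟩
  have n15 : r1 ≠ r5 := fun e => n13 (by rw [n1, e, ← n5, e])
  have b12 : r1 * r2 * r1 = r2 * r1 * r2 :=
    ((h1.mul h2).mul h1).eq ((h2.mul h1).mul h2) (by decide +kernel)
  have b23 : r2 * r3 * r2 = r3 * r2 * r3 :=
    ((h2.mul h3).mul h2).eq ((h3.mul h2).mul h3) (by decide +kernel)
  have b34 : r3 * r4 * r3 = r4 * r3 * r4 :=
    ((h3.mul h4).mul h3).eq ((h4.mul h3).mul h4) (by decide +kernel)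
  have b45 : r4 * r5 * r4 = r5 * r4 * r5 :=
    ((h4.mul h5).mul h4).eq ((h5.mul h4).mul h5) (by decide +kernel)
  have o1 : r1 ≠ 1 := fun e => n13 (by
    rw [n1, e, mul_one]; exact ((hn.mul hm).one (by decide +kernel)).symm)
  have o3 : r3 ≠ 1 := fun e => n35 (by
    rw [n3, e, mul_one]; exact ((hn.mul hm).one (by decide +kernel)).symm)
  have o5 : r5 ≠ 1 := fun e => n15 (by
    rw [n5, e, mul_one]; exact (hn.mul hm).one (by decide +kernel))
  have o2 : r2 ≠ 1 := fun e => o1 (by simpa [e, q1] using b12.symm)
  have o4 : r4 ≠ 1 := fun e => o5 (by simpa [e, q5] using b45)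
  obtain ⟨v1, f1⟩ := h1.line hρ (C := C1) (by decide +kernel) (by decide +kernel)
    (by decide +kernel) (by decide +kernel) (by decide +kernel) o1
  obtain ⟨v2, f2⟩ := h2.line hρ (C := C2) (by decide +kernel) (by decide +kernel)
    (by decide +kernel) (by decide +kernel) (by decide +kernel) o2
  obtain ⟨v3, f3⟩ := h3.line hρ (C := C3) (by decide +kernel) (by decide +kernel)
    (by decide +kernel) (by decide +kernel) (by decide +kernel) o3
  obtain ⟨v4, f4⟩ := h4.line hρ (C := C4) (by decide +kernel) (by decide +kernel)
    (by decide +kernel) (by decide +kernel) (by decide +kernel) o4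
  obtain ⟨v5, f5⟩ := h5.line hρ (C := C5) (by decide +kernel) (by decide +kernel)
    (by decide +kernel) (by decide +kernel) (by decide +kernel) o5
  have c13 : r1 * r3 = r3 * r1 := (h1.mul h3).eq (h3.mul h1) (by decide +kernel)
  have c15 : r1 * r5 = r5 * r1 := (h1.mul h5).eq (h5.mul h1) (by decide +kernel)
  have c35 : r3 * r5 = r5 * r3 := (h3.mul h5).eq (h5.mul h3) (by decide +kernel)
  have t1 : t = 1 := eq_one_of_inverted f1 f3 f5 c13 c15 c35 n13 n15 n35
    (((ht.mul ht).mul ht).one (by decide +kernel))
    ((((h1.mul ht).mul h1).mul ht).one (by decide +kernel))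
    ((((h3.mul ht).mul h3).mul ht).one (by decide +kernel))
    ((((h5.mul ht).mul h5).mul ht).one (by decide +kernel))
  have c24 : r2 * r4 = r4 * r2 := by
    have := (h2.mul h4).eq (ht.mul (h4.mul h2)) (by decide +kernel)
    rwa [t1, one_mul] at this
  have := five f1 f2 f3 f4 f5 b12 b23 b34 b45 c13 ((h1.mul h4).eq (h4.mul h1) (by decide +kernel))
    c15 c24 ((h2.mul h5).eq (h5.mul h2) (by decide +kernel)) c35 n13 n15 n35
  unfold UU at this
  omega

end Cfsg.Agent.Mon.Deg
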