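import Cfsg.Agent.Mon.CuDegC
import Cfsg.Agent.Mon.CuDegM
import Cfsg.Agent.MonL.V4

/-! A faithful complex representation of a group of Monster type has degree at least 196883. -/

set_option autoImplicit false

namespace Cfsg.Agent.Mon.Deg

open Module Cfsg Cfsg.Spor Cfsg.Agent.Spor Cfsg.Agent.Spor.Leech Subgroup Cfsg.Agent.TT
  Cfsg.Agent.LES Cfsg.Agent.Mon.LC Cfsg.Agent.LES.Co Cfsg.Agent.Spor.M24C

/-- The short vectors `4 e_i ± 4 e_j`. -/
def vec (i j : GolayPt) (b : Bool) : leechLattice :=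
  ⟨Pi.single i 4 + Pi.single j (if b then 4 else -4),
    single_add_single_mem_leech i j rfl (by cases b <;> rfl) (by cases b <;> rfl)⟩

theorem vec_apply (i j : GolayPt) (b : Bool) (k : GolayPt) : (vec i j b : GolayPt → ℤ) k =
    (if k = i then 4 else 0) + if k = j then (if b then 4 else -4) else 0 := by
  simp [vec, Pi.single_apply]

theorem nm_vec {i j : GolayPt} (h : i ≠ j) (b : Bool) : nm (vec i j b) = 32 := by
  change sqNorm (_ + _) = 32
  rw [sqNorm_add, sqNorm_single, sqNorm_single, dotInt_single_left, Pi.single_eq_of_ne h]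
  cases b <;> rfl

theorem vec_congr {i j k l : GolayPt} (h : i ≠ j) (h' : k ≠ l) {b c : Bool} :
    (∃ y, vec k l c - vec i j b = y + y) ↔ (k = i ∧ l = j ∨ k = j ∧ l = i) ∧ c = b := by
  constructor
  · rintro ⟨y, e⟩
    have : (∀ m, (vec k l c : GolayPt → ℤ) m = (vec i j b : GolayPt → ℤ) m) ∨
        ∀ m, (vec k l c : GolayPt → ℤ) m = -(vec i j b : GolayPt → ℤ) m :=
      (CE.short_eq (nm_vec h' c) (nm_vec h b) e).imp (fun a m => by rw [a]) fun a m => by
        rw [a]; rfl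
    simp only [vec_apply] at this
    rcases this with a | a <;> have a1 := a k <;> have a2 := a l <;>
      by_cases p1 : k = i <;> by_cases p2 : k = j <;> by_cases p3 : l = i <;>
      by_cases p4 : l = j <;> cases b <;> cases c <;> simp_all
  · rintro ⟨⟨rfl, rfl⟩ | ⟨rfl, rfl⟩, rfl⟩
    · exact ⟨0, by simp⟩
    · cases c
      · refine ⟨vec k l false, Subtype.ext (funext fun m => ?_)⟩
        simp only [AddSubgroup.coe_sub, AddSubgroup.coe_add, Pi.sub_apply, Pi.add_apply, vec_apply]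
        split_ifs <;> simp_all
      · refine ⟨0, Subtype.ext (funext fun m => ?_)⟩
        simp [vec_apply, add_comm]

theorem exists_vec {v : leechLattice} (hv : nm v = 32) (h4 : ∀ i, (v : GolayPt → ℤ) i % 4 = 0) :
    ∃ i j b, i ≠ j ∧ ∃ y, v - vec i j b = y + y := by
  have h1 : ∀ i, (v : GolayPt → ℤ) i = 0 ∨ (v : GolayPt → ℤ) i = 4 ∨ (v : GolayPt → ℤ) i = -4 :=
    fun i => by
      have a := sq_le_sqNorm (v : GolayPt → ℤ) i
      have b := h4 i
      have c : -8 < (v : GolayPt → ℤ) i ∧ (v : GolayPt → ℤ) i < 8 := by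
        change sqNorm _ = 32 at hv
        constructor <;> nlinarith
      omega
  have h2 := sum_ite_mem_const (Finset.univ.filter fun i => (v : GolayPt → ℤ) i ≠ 0) 16 0
  rw [show (∑ i, if i ∈ Finset.univ.filter fun i => (v : GolayPt → ℤ) i ≠ 0 then (16 : ℤ) else 0) =
    32 from Eq.trans (Finset.sum_congr rfl fun i _ => by
      rcases h1 i with a | a | a <;> simp [a]) hv] at h2
  obtain ⟨i, j, hij, e⟩ := Finset.card_eq_two.1
    (show (Finset.univ.filter fun i => (v : GolayPt → ℤ) i ≠ 0).card = 2 by omega)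
  have h3 : ∀ m, (v : GolayPt → ℤ) m ≠ 0 ↔ m = i ∨ m = j := fun m => by
    simpa using Finset.ext_iff.1 e m
  have key : ∀ (b : Bool) (a : ℤ), (v : GolayPt → ℤ) i = a * 4 →
      (v : GolayPt → ℤ) j = a * (if b then 4 else -4) → ∀ m, (v : GolayPt → ℤ) m =
        a * (vec i j b : GolayPt → ℤ) m := fun b a p q m => by
    rw [vec_apply]
    by_cases c : m = i
    · simp [c, hij, p]
    · by_cases d : m = j
      · simp [d, hij.symm, q]
      · simpa [c, d] using h3 m
  have pos : ∀ b, (∀ m, (v : GolayPt → ℤ) m = 1 * (vec i j b : GolayPt → ℤ) m) →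
      ∃ i j b, i ≠ j ∧ ∃ y, v - vec i j b = y + y := fun b a =>
    ⟨i, j, b, hij, 0, Subtype.ext (funext fun m => by simp [a])⟩
  have neg : ∀ b, (∀ m, (v : GolayPt → ℤ) m = -1 * (vec i j b : GolayPt → ℤ) m) →
      ∃ i j b, i ≠ j ∧ ∃ y, v - vec i j b = y + y := fun b a =>
    ⟨i, j, b, hij, v, Subtype.ext (funext fun m => by simp [a m, sub_eq_add_neg])⟩
  have a1 := (h3 i).2 (Or.inl rfl)
  have a2 := (h3 j).2 (Or.inr rfl)
  rcases h1 i with a | a | a <;> rcases h1 j with b | b | b <;> try contradiction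
  · exact pos true (key _ _ a b)
  · exact pos false (key _ _ a b)
  · exact neg false (key _ _ a b)
  · exact neg true (key _ _ a b)

theorem vec_add_e8 (i j : GolayPt) (b : Bool) :
    ∃ y, vec i j b + e8 none - vec i j (!b) = y + y := by
  refine ⟨vec none j b, Subtype.ext (funext fun m => ?_)⟩
  simp only [AddSubgroup.coe_sub, AddSubgroup.coe_add, Pi.sub_apply, Pi.add_apply, vec_apply,
    coe_e8, Pi.single_apply]
  cases b <;> split_ifs <;> simp_all

theorem perm_vec (σ : M24) (i j : GolayPt) (b : Bool) : permHom σ • vec i j b =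
    vec ((σ : Equiv.Perm GolayPt) i) ((σ : Equiv.Perm GolayPt) j) b :=
  Subtype.ext (funext fun m => by simp only [permHom_smul, vec_apply, Equiv.symm_apply_eq])

theorem sgn_vec {c : Finset GolayPt} (hc : c ∈ GC) {i j : GolayPt} (h : i ≠ j) (b : Bool) :
    ∃ y, sgn c hc • vec i j b - vec i j (if i ∈ c ↔ j ∈ c then b else !b) = y + y := by
  by_cases p : i ∈ c
  · refine ⟨sgn c hc • vec i j b, Subtype.ext (funext fun m => ?_)⟩
    simp only [AddSubgroup.coe_sub, AddSubgroup.coe_add, Pi.sub_apply, Pi.add_apply, vec_apply,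
      sgn_smul]
    by_cases q : j ∈ c <;> by_cases r : m = i <;> by_cases t : m = j <;> cases b <;> simp_all
  · refine ⟨0, Subtype.ext (funext fun m => ?_)⟩
    simp only [AddSubgroup.coe_sub, AddSubgroup.coe_add, Pi.sub_apply, Pi.add_apply, vec_apply,
      sgn_smul]
    by_cases q : j ∈ c <;> by_cases r : m = i <;> by_cases t : m = j <;> cases b <;> simp_all

variable {G : Type} [Group G] [Finite G] {z s : G} {Q P : Subgroup G}
  {π : centralizer ({z} : Set G) →* Co1} {ψ : leechLattice → G}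

omit [Finite G] in
theorem eta_vec (h : If0 z Q π ψ) (hs : Eqv z s (ψ (e8 none))) {y : centralizer ({z} : Set G)}
    {g : Co0} (hg : (g : Co1) = π y) {t : G} {i j k l : GolayPt} {b c : Bool} (hij : i ≠ j)
    (hkl : k ≠ l) (ht : Eqv z t (ψ (vec i j b))) (e : ∃ w, g • vec i j b - vec k l c = w + w) :
    eta z s y t = if k = i ∧ l = j ∨ k = j ∧ l = i then (if c = b then 1 else -1) else 0 := by
  have zz := h.mon.z_sq
  obtain ⟨w, e⟩ := e
  have h1 := h.eqv_congr (h.mon.conj_eqv hg ht) e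
  have key : ∀ {u : G} {d : Bool}, Eqv z u (ψ (vec i j d)) →
      (Eqv z (y * t * (y : G)⁻¹) u ↔ (k = i ∧ l = j ∨ k = j ∧ l = i) ∧ c = d) := fun hu => by
    rw [← vec_congr hij hkl, ← h.mon.eqv_iff]
    exact ⟨fun a => ((h1.symm zz).trans zz a).trans zz hu,
      fun a => (h1.trans zz a).trans zz (hu.symm zz)⟩
  obtain ⟨w', e'⟩ := vec_add_e8 i j b
  unfold eta
  simp only [key ht, key (h.eqv_congr (h.eqv_mul' ht hs) e')]
  cases b <;> cases c <;> simp

open Classical in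
theorem sum_eta (h : If0 z Q π ψ) (hp : LXPair Q P z s) (hP : Nat.card P = 2 ^ 25)
    (hs : Eqv z s (ψ (e8 none))) {y : G} {f : GolayPt → GolayPt → ℂ}
    (hf : ∀ i j b t, i ≠ j → Eqv z t (ψ (vec i j b)) → eta z s y t = f i j) :
    ∑ t ∈ (fs (Q ⊓ P)).filter (· ∈ Mon.cA ψ), eta z s y t =
      2 * ∑ i, ∑ j, if i = j then 0 else f i j := by
  have zz := h.mon.z_sq
  have mem : ∀ {i j b t}, i ≠ j → Eqv z t (ψ (vec i j b)) →
      t ∈ (fs (Q ⊓ P)).filter (· ∈ Mon.cA ψ) := fun {i j b t} a e =>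
    Finset.mem_filter.2 ⟨mem_fs.2 ⟨h.mon.mem_of_eqv e, h.mem_of_four hp hP hs e fun m => by
      rw [vec_apply]; split_ifs <;> rfl⟩, h.mem_A_of_eqv e (nm_vec a b)⟩
  have e1 : ∑ t ∈ (fs (Q ⊓ P)).filter (· ∈ Mon.cA ψ), ∑ k : GolayPt × GolayPt × Bool,
      (if k.1 ≠ k.2.1 ∧ Eqv z t (ψ (vec k.1 k.2.1 k.2.2)) then eta z s y t else 0) =
      2 * ∑ t ∈ (fs (Q ⊓ P)).filter (· ∈ Mon.cA ψ), eta z s y t := by
    rw [Finset.mul_sum]
    refine Finset.sum_congr rfl fun t ht => ?_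
    obtain ⟨a, b⟩ := Finset.mem_filter.1 ht
    rw [mem_fs] at a
    obtain ⟨v, hv, h32⟩ := (h.mem_A_iff a.1).1 b
    have d : ∀ i j, ((v : GolayPt → ℤ) i + (v : GolayPt → ℤ) j) % 4 = 0 := fun i j => by
      have := (h.mon.comm_iff (Eqv.refl _ (ψ (vec i j true))) hv).1 (E_comm hp ⟨h.mon.mem _,
        h.mem_of_four hp hP hs (Eqv.refl _ _) fun m => by rw [vec_apply]; split_ifs <;> rfl⟩ a)
      change dotInt (_ + _) _ % 16 = 0 at this
      rw [dotInt_add_left, dotInt_single_left, dotInt_single_left, if_pos rfl] at this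
      omega
    obtain ⟨i, j, c, hij, w, hw⟩ := exists_vec h32 fun i => by
      by_contra hc
      have := card_mul_le_sqNorm (x := (v : GolayPt → ℤ)) (s := Finset.univ) (a := 4) fun m _ => by
        have p := d i m
        have q := d m m
        have r := d i i
        have : 2 ≤ (v : GolayPt → ℤ) m ∨ (v : GolayPt → ℤ) m ≤ -2 := by omega
        rcases this with u | u <;> nlinarith
      rw [Finset.card_univ, Leech.card_golayPt, h32] at this
      omega
    have hv' := h.eqv_congr hv hw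
    rw [← Finset.sum_filter, Finset.sum_const, show (Finset.univ.filter fun k :
      GolayPt × GolayPt × Bool => k.1 ≠ k.2.1 ∧ Eqv z t (ψ (vec k.1 k.2.1 k.2.2))) =
      {(i, j, c), (j, i, c)} from Finset.ext fun ⟨k, l, b⟩ => ?_, Finset.card_pair (by simp [hij]),
      nsmul_eq_mul, Nat.cast_ofNat]
    simp only [Finset.mem_filter, Finset.mem_univ, true_and, Finset.mem_insert,
      Finset.mem_singleton, Prod.mk.injEq]
    constructor
    · rintro ⟨p, q⟩
      have := (vec_congr hij p).1 (h.congr_of_eqv q hv')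
      tauto
    · rintro (⟨rfl, rfl, rfl⟩ | ⟨rfl, rfl, rfl⟩)
      · exact ⟨hij, hv'⟩
      · exact ⟨hij.symm, hv'.trans zz (h.mon.eqv_iff.2 ((vec_congr hij.symm hij).2 (by simp)))⟩
  rw [Finset.sum_comm, Fintype.sum_prod_type] at e1
  simp only [Fintype.sum_prod_type] at e1
  refine mul_left_cancel₀ two_ne_zero (e1.symm.trans ?_)
  simp only [Finset.mul_sum]
  refine Finset.sum_congr rfl fun i _ => Finset.sum_congr rfl fun j _ => ?_
  by_cases e : i = j
  · simp [e]
  rw [Finset.sum_congr (g := fun _ => 2 * f i j) rfl fun b _ => ?_]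
  · simp [e]
  rw [← Finset.sum_filter, Finset.sum_congr rfl fun t ht => hf i j b t e
    (Finset.mem_filter.1 ht).2.2, Finset.sum_const, show Finset.filter _ _ =
      {ψ (vec i j b), ψ (vec i j b) * z} from Finset.ext fun t => ?_,
    Finset.card_pair (by simp [h.xs.z_ne]), nsmul_eq_mul, Nat.cast_ofNat]
  rw [Finset.mem_filter, Finset.mem_insert, Finset.mem_singleton]
  exact ⟨fun a => a.2.2, fun a => ⟨mem e a, e, a⟩⟩

theorem sum_sgn (c : Finset GolayPt) :
    (∑ i, ∑ j, if i = j then 0 else if i ∈ c ↔ j ∈ c then 1 else -1 : ℂ) =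
      (24 - 2 * c.card) ^ 2 - 24 := by
  have h1 : (∑ i, if i ∈ c then -1 else 1 : ℂ) = 24 - 2 * c.card := by
    have := congrArg (Int.cast : ℤ → ℂ) (sum_ite_mem_const c (-1) 1)
    push_cast at this
    rw [this]; ring
  rw [← h1, pow_two, Finset.sum_mul_sum, show (24 : ℂ) = ∑ i : GolayPt, ∑ j, if i = j then 1 else 0
    by simp, ← Finset.sum_sub_distrib]
  refine Finset.sum_congr rfl fun i _ => ?_
  rw [← Finset.sum_sub_distrib]
  refine Finset.sum_congr rfl fun j _ => ?_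
  by_cases e : i = j <;> by_cases p : i ∈ c <;> by_cases q : j ∈ c <;> simp_all

theorem sum_perm {σ : Equiv.Perm GolayPt} (h : σ * σ = 1) :
    (∑ i, ∑ j, if i = j then 0 else if σ i = i ∧ σ j = j ∨ σ i = j ∧ σ j = i then 1 else 0 : ℂ) =
      (fixSet σ).card ^ 2 - 2 * (fixSet σ).card + 24 := by
  have h1 : (∑ i, if σ i = i then 1 else 0 : ℂ) = (fixSet σ).card := by simp [fixSet]
  have h2 : ∀ i, σ (σ i) = i := fun i => by rw [← Equiv.Perm.mul_apply, h]; rfl
  rw [← h1, pow_two, Finset.sum_mul_sum, show (24 : ℂ) = ∑ _i : GolayPt, 1 by simp,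
    Finset.mul_sum, ← Finset.sum_sub_distrib, ← Finset.sum_add_distrib]
  refine Finset.sum_congr rfl fun i _ => ?_
  by_cases p : σ i = i
  · rw [show (∑ j, if i = j then 0 else if σ i = i ∧ σ j = j ∨ σ i = j ∧ σ j = i then 1 else 0 : ℂ) =
      ∑ j, ((if σ j = j then 1 else 0) - if i = j then 1 else 0) from
        Finset.sum_congr rfl fun j _ => by by_cases e : i = j <;> simp_all]
    simp [p]; ring
  · rw [Finset.sum_eq_single (σ i) (fun j _ e => by simp [p, e.symm]) (by simp)]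
    simp [p, h2, Ne.symm p]

variable {V : Type*} [AddCommGroup V] [Module ℂ V] [FiniteDimensional ℂ V]

theorem le_finrank (h : If0 z Q π ψ) (ρ : G →* End ℂ V) (hρ : ∀ x, ρ x = 1 → x = 1) :
    196883 ≤ finrank ℂ V := by
  by_contra hn
  rw [not_le] at hn
  have L : ∀ ρ : G →* End ℂ V, ρ z ≠ 1 → Lines ρ (Mon.cA ψ) Q z := fun ρ hz =>
    have d := dims h hn hz
    ⟨d.1, d.2.1, fun t ht a y yz yt _ hx => fix_line h ht a (d.1 t ht a) yz yt hx⟩
  obtain ⟨hB, hsz⟩ := CE.J0.mem_B_of_eqv h (Eqv.refl _ (ψ (e8 none))) (sqNorm_e8 none)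
  obtain ⟨g, hg⟩ := isConj_iff.1 hB
  have hp := h.mon.pair (hg ▸ h.mon.mem (e8 none)) (hg ▸ hsz)
  have hP := h.mon.card_conj g
  have hs : Eqv z (g * z * g⁻¹) (ψ (e8 none)) := Or.inl hg
  have LQ := L ρ fun e => h.xs.z_ne (hρ _ e)
  have LP := Lines.conj (ρ := ρ) g (fun x => conj_mem_cA_iff g)
    (L _ fun e => hp.hP.z_ne (hρ _ e))
  have sA : g * z * g⁻¹ ∉ Mon.cA ψ := fun e => h.disj e (hg ▸ hB)
  generalize Q.map (MulAut.conj g).toMonoidHom = P at hp hP LP
  generalize g * z * g⁻¹ = s at hp hs LP sA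
  have main : ∀ {y : G}, y * z = z * y → y * s = s * y → ∀ {f : GolayPt → GolayPt → ℂ},
      (∀ i j b t, i ≠ j → Eqv z t (ψ (vec i j b)) → eta z s y t = f i j) →
      2 * LinearMap.trace ℂ V (ρ y * pr ρ Q 1) =
        2 * LinearMap.trace ℂ V (ρ y * (pr ρ (P ⊓ centralizer {z}) 1 * pr ρ Q 1)) +
        ∑ i, ∑ j, if i = j then 0 else f i j := fun yz ys f hf => by
    have := trace_fix hp LQ LP (by rw [h.mon.card_E hp hP, hP]; norm_num)
      (fun t ht => ⟨fun a => h.mul_z_mem_A a ht, fun a => by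
        simpa [h.xs.mul_z_z] using h.mul_z_mem_A a (mul_mem ht h.xs.z_mem)⟩)
      (fun e => h.ne_one_A e rfl) sA yz ys
    rw [sum_eta h hp hP hs hf] at this
    linear_combination this / 2
  have pj := isProj_prpr (ρ := ρ) (P := P) hp.hQ (ch_one _)
  set F := Eig ρ (P ⊓ centralizer {z}) 1 ⊓ Eig ρ Q 1 with hF
  have hsgn : ∀ (c : Finset GolayPt) (hc : c ∈ GC), ∃ p : centralizer ({z} : Set G),
      ((sgn c hc : Co0) : Co1) = π p ∧ 2 * LinearMap.trace ℂ V (ρ p * pr ρ Q 1) =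
        2 * finrank ℂ F + ((24 - 2 * c.card) ^ 2 - 24) := fun c hc => by
    obtain ⟨p, h1, h2⟩ := MonData.mem_preim.1
      ((h.mon.preim_eq hp hP hs).ge (sgn_mem_sgnSub c hc))
    refine ⟨p, h2, ?_⟩
    rw [main (MonData.comm_z p) (hp.hP.z_comm _ h1)
      (f := fun i j => if i ∈ c ↔ j ∈ c then 1 else -1) fun i j b t a e => by
        rw [eta_vec h hs h2 a a e (sgn_vec hc a b)]
        by_cases u : i ∈ c ↔ j ∈ c <;> simp [u], sum_sgn, ← mul_assoc,
      mul_pr (H := P ⊓ centralizer {z}) (ch_one _) ⟨h1, p.2⟩, sg_pos (by simp), one_smul, pj.trace]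
  obtain ⟨θ, θ1, θ2, θ3⟩ := MonL.exists_theta h.mon hp hP hs
  have inv : ∀ (y : centralizer ({z, s} : Set G)), ∀ x ∈ F, ρ y x ∈ F := fun y x hx => by
    obtain ⟨yz, ys⟩ := Mont.mem_cent2.1 y.2
    have a := map_mem_Eig (H := P ⊓ centralizer {z}) (c := y) (fun p hp' => ⟨by
      simpa using hp.hP.norm _ (comm_inv_left ys) p hp'.1, (centralizer {z}).mul_mem
        (mul_mem (inv_mem (Mont.cent_le z s y.2)) hp'.2) (Mont.cent_le z s y.2)⟩) hx.1
    have b := map_mem_Eig (H := Q) (c := y) (fun p hp' => by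
      simpa using hp.hQ.norm _ (comm_inv_left yz) p hp') hx.2
    rw [mul_one, mul_inv_cancel] at a b
    exact ⟨a, b⟩
  let res : centralizer ({z, s} : Set G) →* End ℂ F :=
    { toFun := fun y => (ρ y).restrict (inv y)
      map_one' := by ext x; simp
      map_mul' := fun a b => by ext x; simp }
  have ker : θ.ker ≤ res.toHomUnits.ker := fun y hy => by
    have h1 : MonL.RR Q P z s ≤ (res.toHomUnits.ker).map (centralizer ({z, s} : Set G)).subtype := by
      refine sup_le (fun p a => ?_) fun q a => ?_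
      · exact ⟨⟨p, Mont.mem_cent2.2 ⟨mem_centralizer_singleton_iff.1 a.2, hp.hP.z_comm _ a.1⟩⟩,
          Units.ext (LinearMap.ext fun x => Subtype.ext (mem_Eig_one.1 x.2.1 p a)), rfl⟩
      · exact ⟨⟨q, Mont.mem_cent2.2 ⟨hp.hQ.z_comm _ a.1, mem_centralizer_singleton_iff.1 a.2⟩⟩,
          Units.ext (LinearMap.ext fun x => Subtype.ext (mem_Eig_one.1 x.2.2 q a.1)), rfl⟩
    exact coe_mem_map_subtype.1 (h1 ((θ2 y).1 hy))
  have perm : PermLike ((Units.coeHom _).comp (θ.liftOfSurjective θ1 ⟨_, ker⟩)) := fun σ hσ => by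
    obtain ⟨y, hy, hy'⟩ : ∃ y, θ y = σ ∧
        ((permHom σ : Co0) : Co1) = π ⟨y, Mont.cent_le z s y.2⟩ := by
      obtain ⟨y, rfl⟩ := θ1 σ
      obtain ⟨e, he, h1⟩ := θ3 y
      obtain ⟨p, h2, h3⟩ := MonData.mem_preim.1 ((h.mon.preim_eq hp hP hs).ge he)
      let p' : centralizer ({z, s} : Set G) :=
        ⟨p, Mont.mem_cent2.2 ⟨MonData.comm_z p, hp.hP.z_comm _ h2⟩⟩
      refine ⟨p'⁻¹ * y, by
        rw [map_mul, map_inv, (θ2 p').2 (mem_sup_left ⟨h2, p.2⟩), inv_one, one_mul], ?_⟩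
      rw [show (⟨(p'⁻¹ * y : centralizer ({z, s} : Set G)), Mont.cent_le z s (p'⁻¹ * y).2⟩ :
        centralizer ({z} : Set G)) = p⁻¹ * ⟨y, Mont.cent_le z s y.2⟩ from rfl, map_mul, map_inv,
        ← h3, ← h1, QuotientGroup.mk_mul, inv_mul_cancel_left]
    obtain ⟨yz, ys⟩ := Mont.mem_cent2.1 y.2
    have h1 := main yz ys (f := fun i j => if (σ : Equiv.Perm GolayPt) i = i ∧
        (σ : Equiv.Perm GolayPt) j = j ∨ (σ : Equiv.Perm GolayPt) i = j ∧
        (σ : Equiv.Perm GolayPt) j = i then 1 else 0) fun i j b t a e => by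
      rw [show (y : G) = (⟨y, Mont.cent_le z s y.2⟩ : centralizer ({z} : Set G)) from rfl,
        eta_vec h hs hy' a ((σ : Equiv.Perm GolayPt).injective.ne a) e
          ⟨0, by rw [perm_vec, sub_self, add_zero]⟩, if_pos rfl]
    rw [sum_perm (congrArg Subtype.val hσ)] at h1
    obtain ⟨c, hc, e⟩ := XSC.C1.good_of_sq (g := permHom σ) (by rw [← map_mul, hσ, map_one])
    obtain ⟨p, h2, h3⟩ := hsgn c hc
    have h4 := XSC.C1.tr_of_isConj e
    rw [XSC.C1.tr_sgn, show permHom σ = mono σ ∅ GC_empty from rfl, XSC.C1.tr_mono',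
      Finset.inter_empty, Finset.card_empty] at h4
    have h5 : (24 - 2 * c.card : ℂ) = (fixSet (σ : Equiv.Perm GolayPt)).card := by
      have : (24 - 2 * c.card : ℤ) = (fixSet (σ : Equiv.Perm GolayPt)).card := by omega
      exact_mod_cast this
    obtain ⟨k, hk⟩ := isConj_iff.1 e
    obtain ⟨u, hu⟩ := h.mon.exists_lift k
    have h6 : ((p⁻¹ * (u * ⟨y, Mont.cent_le z s y.2⟩ * u⁻¹) : centralizer ({z} : Set G)) : G) ∈ Q :=
      (h.mon.ker _).1 (by
        rw [map_mul, map_mul, map_mul, map_inv, map_inv, ← h2, ← hu, ← hy', ← hk]; simp [mul_assoc])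
    have h7 := trace_conj (ρ := ρ) u y (pr ρ Q 1)
      (comm_pr_one (norm_iff hp.hQ (MonData.comm_z u)))
    rw [← mul_inv_cancel_left (p : G) (u * y * (u : G)⁻¹), map_mul ρ, mul_assoc,
      mul_pr (k := (p : G)⁻¹ * (u * y * (u : G)⁻¹)) (ch_one Q) h6, sg_pos (by simp),
      one_smul] at h7
    have h8 : LinearMap.trace ℂ F (res y) =
        LinearMap.trace ℂ V (ρ y * (pr ρ (P ⊓ centralizer {z}) 1 * pr ρ Q 1)) := by
      rw [← LinearMap.trace_restrict_eq_of_forall_mem F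
        (ρ y * (pr ρ (P ⊓ centralizer {z}) 1 * pr ρ Q 1)) fun x => inv y _ (pj.map_mem x)]
      congr 1
      ext x
      exact congrArg (ρ y) (pj.map_id x x.2).symm
    rw [← hy, MonoidHom.comp_apply, MonoidHom.liftOfRightInverse_comp_apply, hy]
    change LinearMap.trace ℂ F (res y) + 24 = _
    rw [h5] at h3
    linear_combination h8 - h1 / 2 + h3 / 2 - h7
  have h23 := perm.le
  obtain ⟨p, h1, h2⟩ := hsgn ∅ GC_empty
  rw [mul_pr (ch_one Q) ((h.mon.ker p).1 (by rw [← h1, XSC.C1.sgn_empty]; rfl)), sg_pos (by simp),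
    one_smul, trace_pr (ch_one Q)] at h2
  have h3 : finrank ℂ (Eig ρ Q 1) = finrank ℂ F + 276 := by
    have : (finrank ℂ (Eig ρ Q 1) : ℂ) = finrank ℂ F + 276 := by
      rw [Finset.card_empty] at h2; push_cast at h2; linear_combination h2 / 2
    exact_mod_cast this
  have := (dims h hn fun e => h.xs.z_ne (hρ _ e)).2.2
  omega

end Cfsg.Agent.Mon.Deg
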