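import Cfsg.Agent.Mon.CxB

/-! Extensions of `Co₂` by modules of dimension at most 23 split in characteristic not 2, 3. -/

set_option autoImplicit false
set_option maxRecDepth 100000

namespace Cfsg.Agent.Mon.Cx

open Subgroup Cfsg.Agent.TT Cfsg.Agent.Comp.BN Cfsg.Agent.XSC Cfsg.Agent.CO2T

section
variable {F V G : Type*} [Field F] [AddCommGroup V] [Module F V] [Group G]
  {ρ : G →* Module.End F V}

theorem exists_scalar [FiniteDimensional F V] {W : Submodule F V} (h : Module.finrank F W ≤ 1)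
    {f : Module.End F V} (hf : ∀ w ∈ W, f w ∈ W) : ∃ a : F, ∀ w ∈ W, f w = a • w := by
  obtain ⟨u, hu⟩ := finrank_le_one_iff.1 h
  obtain ⟨a, ha⟩ := hu ⟨_, hf u u.2⟩
  refine ⟨a, fun w hw => ?_⟩
  obtain ⟨c, hc⟩ := hu ⟨w, hw⟩
  obtain rfl : c • (u : V) = w := congrArg Subtype.val hc
  rw [map_smul, ← show a • (u : V) = f u from congrArg Subtype.val ha, smul_comm]

theorem pm_of_sq [FiniteDimensional F V] {W : Submodule F V} (h : Module.finrank F W ≤ 1) {g : G}
    (hg : ∀ w ∈ W, ρ (g * g) w = w) (hf : ∀ w ∈ W, ρ g w ∈ W) :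
    (∀ w ∈ W, ρ g w = w) ∨ ∀ w ∈ W, ρ g w = -w := by
  obtain ⟨a, ha⟩ := exists_scalar h hf
  by_cases e : a * a = 1
  · rcases mul_self_eq_one_iff.1 e with rfl | rfl
    · exact Or.inl (by simpa using ha)
    · exact Or.inr (by simpa using ha)
  · refine Or.inl fun w hw => ?_
    have := hg w hw
    rw [mul_ap, ha w hw, map_smul, ha w hw, smul_smul, ← sub_eq_zero] at this
    nth_rewrite 2 [← one_smul F w] at this
    rw [← sub_smul, smul_eq_zero_iff_right (sub_ne_zero.2 e)] at this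
    rw [this, map_zero]

theorem pm_closure {S : Set G} {W : Submodule F V}
    (pm : ∀ g ∈ S, (∀ v ∈ W, ρ g v = v) ∨ ∀ v ∈ W, ρ g v = -v) {g : G} (hg : g ∈ closure S) :
    (∀ v ∈ W, ρ g v = v) ∨ ∀ v ∈ W, ρ g v = -v := by
  induction hg using closure_induction with
  | mem g hg => exact pm g hg
  | one => simp
  | mul a b _ _ ha hb =>
    rcases ha with ha | ha <;> rcases hb with hb | hb
    · exact Or.inl fun v hv => by rw [mul_ap, hb v hv, ha v hv]
    · exact Or.inr fun v hv => by rw [mul_ap, hb v hv, map_neg, ha v hv]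
    · exact Or.inr fun v hv => by rw [mul_ap, hb v hv, ha v hv]
    · exact Or.inl fun v hv => by rw [mul_ap, hb v hv, map_neg, ha v hv, neg_neg]
  | inv a _ ha =>
    refine ha.imp (fun h => (cen ρ W).inv_mem h) fun h v hv => ?_
    rw [← neg_eq_iff_eq_neg, ← map_neg, ← h v hv, inv_ap]

theorem fix_of_odd {g : G} {v : V} (h : ρ g v = v ∨ ρ g v = -v) {n : ℕ}
    (hn : Odd n) (e : g ^ n = 1) : ρ g v = v := by
  refine h.elim id fun h => ?_
  obtain ⟨k, rfl⟩ := hn
  have : ∀ k, ρ (g ^ (2 * k)) v = v := fun k => by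
    induction k with
    | zero => simp
    | succ k ih => rw [mul_add, pow_add, mul_ap, mul_one, pow_two, mul_ap, h, map_neg, h, neg_neg, ih]
  have e1 := congrArg (fun a => ρ a v) e
  simp only [pow_succ', mul_ap, this, h, map_one, Module.End.one_apply] at e1
  rw [h, e1]

theorem cast_ne_of {p n : ℕ} (hp : p.Prime) (p0 : (p : F) = 0) (h : ¬ p ∣ n) : (n : F) ≠ 0 := by
  have := (Nat.Coprime.cast (R := F) (hp.coprime_iff_not_dvd.2 h))
  rw [p0, isCoprime_zero_left] at this
  exact this.ne_zero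

theorem idx_ne {K L : Subgroup G} (h : K ≤ L) {p n : ℕ} (hp : p.Prime) (p0 : (p : F) = 0)
    (h1 : p ^ n ∣ Nat.card K) (h2 : ¬ p ^ (n + 1) ∣ Nat.card L) : (K.relIndex L : F) ≠ 0 :=
  cast_ne_of hp p0 fun e => h2 (by
    rw [← card_mul_index (K.subgroupOf L), Nat.card_congr (subgroupOfEquivOfLe h).toEquiv, pow_succ]
    exact mul_dvd_mul h1 e)

theorem finite_closure {Γ : Type*} [Group Γ] [Finite G] (X : Ext F V G Γ) {p : ℕ} (hp : p ≠ 0)
    (p0 : (p : F) = 0) {S : Set Γ} (hS : S.Finite) : Finite (closure S) := by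
  have : Finite S := hS
  let φ := X.π.comp (closure S).subtype
  have h1 : Group.FG φ.ker := fg_of_index_ne_zero _
  have h2 : ∀ a : φ.ker, ∃ v, X.j v = a := fun a => (X.ker _).1 a.2
  let _ : CommGroup φ.ker := { (inferInstance : Group φ.ker) with
    mul_comm := fun a b => by
      obtain ⟨v, hv⟩ := h2 a
      obtain ⟨w, hw⟩ := h2 b
      refine Subtype.ext (Subtype.ext ?_)
      change (a : Γ) * b = b * a
      rw [← hv, ← hw, ← X.add, ← X.add, add_comm] }
  have h3 : Finite φ.ker := CommGroup.finite_of_fg_isMulTorsion _ fun a => by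
    obtain ⟨v, hv⟩ := h2 a
    refine isOfFinOrder_iff_pow_eq_one.2 ⟨p, Nat.pos_of_ne_zero hp, Subtype.ext (Subtype.ext ?_)⟩
    change (a : Γ) ^ p = 1
    rw [← hv, X.j_pow, p0, zero_smul, X.j_zero]
  exact Finite.of_subgroup_quotient φ.ker

end

variable {F U Γ : Type*} [Field F] [AddCommGroup U] [Module F U] [Group Γ] {X : Ext F U MM Γ}

theorem gr_of_sec {G : Subgroup Γ} {x : ℕ → G × MM} {S : ℕ} {s : MM → Γ} (h : X.Sec (gg S) s)
    (hx : ∀ k, S.testBit k = true → ((x k).1 : Γ) = s (m k) ∧ (x k).2 = m k) : Gr (genOn x S) := by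
  have : ∀ γ ∈ genOn x S, γ.2 ∈ gg S ∧ (γ.1 : Γ) = s γ.2 := fun γ hγ => by
    induction hγ using closure_induction with
    | mem g hg =>
      obtain ⟨k, hk, rfl⟩ := hg
      rw [(hx k hk).1, (hx k hk).2]
      exact ⟨mem_genOn hk, rfl⟩
    | one => exact ⟨one_mem _, h.one.symm⟩
    | mul a b _ _ ha hb =>
      exact ⟨mul_mem ha.1 hb.1, by rw [Prod.snd_mul, h.2 _ ha.1 _ hb.1, ← ha.2, ← hb.2]; rfl⟩
    | inv a _ ha => exact ⟨inv_mem ha.1, by rw [Prod.snd_inv, h.inv ha.1, ← ha.2]; rfl⟩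
  exact fun γ hγ e => Prod.ext (Subtype.ext (by rw [(this γ hγ).2, e, h.one]; rfl)) e

theorem amalgam {p : ℕ} (hp : p ≠ 0) (p0 : (p : F) = 0) {s1 s2 s3 : MM → Γ}
    (h1 : X.Sec (gg M1) s1) (h2 : X.Sec (gg M2) s2) (h3 : X.Sec (gg SP) s3)
    (e1 : ∀ a ∈ gg S12, s1 a = s2 a) (e2 : ∀ a ∈ gg SD2, s3 a = s2 a)
    (e3 : ∀ a ∈ gg SD1, s3 a = s1 a) : ∃ s, X.Sec ⊤ s := by
  let y : ℕ → Γ := fun k => if M2.testBit k then s2 (m k) else s1 (m k)
  have b : ∀ k, k < 25 → (M2.testBit k = true ∨ M1.testBit k = true) ∧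
      (M1.testBit k = true → M2.testBit k = true → S12.testBit k = true) ∧
      ((27197390 : ℕ).testBit k = true → (M2.testBit k = true → SD2.testBit k = true) ∧
        (M2.testBit k = false → SD1.testBit k = true)) := by decide
  have lt : ∀ S k : ℕ, S < 2 ^ 25 → S.testBit k = true → k < 25 := fun S k h e => by
    by_contra c
    rw [Nat.testBit_lt_two_pow (h.trans_le (Nat.pow_le_pow_right (by norm_num) (by omega)))] at e
    exact absurd e (by simp)
  have y0 : ∀ k, 25 ≤ k → y k = 1 := fun k hk => by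
    simp only [y, m_out hk, h1.one, h2.one, ite_self]
  have y1 : ∀ k, X.π (y k) = m k ∧ y k * y k = 1 := fun k => by
    by_cases hk : k < 25
    · simp only [y]
      split_ifs with c
      · exact ⟨h2.1 _ (mem_genOn c), by rw [← h2.2 _ (mem_genOn c) _ (mem_genOn c), m_sq, h2.one]⟩
      · have c := (b k hk).1.resolve_left c
        exact ⟨h1.1 _ (mem_genOn c), by rw [← h1.2 _ (mem_genOn c) _ (mem_genOn c), m_sq, h1.one]⟩
    · rw [y0 k (by omega), m_out (by omega)]; simp
  have := finite_closure X hp p0 (S := y '' {k | k < 25}) ((Set.finite_lt_nat 25).image y)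
  have ym : ∀ k, y k ∈ closure (y '' {k | k < 25}) := fun k => by
    by_cases hk : k < 25
    · exact subset_closure ⟨k, hk, rfl⟩
    · rw [y0 k (by omega)]; exact one_mem _
  let x : ℕ → closure (y '' {k | k < 25}) × MM := fun k => (⟨y k, ym k⟩, m k)
  have g := gr_all (x := x) ⟨⟨fun _ => rfl, orc, fun k => Prod.ext (Subtype.ext (y1 k).2) (m_sq k)⟩,
    ⟨gr_of_sec (h3.mono (gg_le (by decide))) fun k hk => ⟨?_, rfl⟩,
      gr_of_sec h2 fun k hk => ⟨if_pos hk, rfl⟩, gr_of_sec h1 fun k hk => ⟨?_, rfl⟩, trivial⟩, trivial⟩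
    fun k hk => Prod.ext (Subtype.ext (y0 k hk)) (m_out hk)
  · obtain ⟨s, hs, -⟩ := Ext.sec_of (X := X) (closure (y '' {k | k < 25})) fun γ hγ e => by
      have : ∀ γ (h : γ ∈ closure (y '' {k | k < 25})), (⟨γ, h⟩, X.π γ) ∈ gen x := fun γ h => by
        induction h using closure_induction with
        | mem g hg =>
          obtain ⟨k, -, rfl⟩ := hg
          rw [(y1 k).1]
          exact mem_gen x k
        | one => rw [map_one]; exact one_mem _
        | mul a b _ _ ha hb => rw [map_mul]; exact mul_mem ha hb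
        | inv a _ ha => rw [map_inv]; exact inv_mem ha
      exact congrArg (fun a => (a.1 : Γ)) (g _ (this γ hγ) e)
    exact ⟨s, hs.mono fun a _ => gen_le (fun k => mem_map.2 ⟨_, ym k, (y1 k).1⟩) (gen_top a)⟩
  · have c := (b k (lt _ k (by norm_num) hk)).2.2 hk
    change y k = _
    simp only [y]
    split_ifs with d
    · exact (e2 _ (mem_genOn (c.1 d))).symm
    · exact (e3 _ (mem_genOn (c.2 (by simpa using d)))).symm
  · change y k = _
    simp only [y]
    split_ifs with d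
    · exact (e1 _ (mem_genOn ((b k (lt _ k (by decide) hk)).2.1 hk d))).symm
    · rfl

theorem ord_of {W : List ℕ} {p : ℕ} [Fact p.Prime]
    (c : band (eqC val (powW W p) []) (neC val W []) = true) : orderOf (ev m W) = p := by
  rw [band_eq] at c
  exact orderOf_eq_prime (by simpa [ev_powW] using orc.eq c.1) (by simpa using orc.ne c.2)

theorem mm_split [FiniteDimensional F U] (X : Ext F U MM Γ) (h2 : (2 : F) ≠ 0) (h3 : (3 : F) ≠ 0)
    (hd : Module.finrank F U ≤ 23) : ∃ s, X.Sec ⊤ s := by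
  by_cases h0 : (Nat.card MM : F) ≠ 0
  · exact Ext.exists_sec (by rwa [card_top])
  have pm : ∀ k, M2.testBit k = true → (∀ v ∈ fixS X.ρ (gg SE), X.ρ (m k) v = v) ∨
      ∀ v ∈ fixS X.ρ (gg SE), X.ρ (m k) v = -v := fun k hk => by
    rcases fix_E (ρ := X.ρ) h2 hd with e | e
    · exact Or.inl fun v _ => by rw [e]; rfl
    · exact pm_of_sq e (fun w _ => by rw [m_sq]; simp) fun w hw =>
        map_fixS (hn_E (S := M2) (by decide) _ (mem_genOn hk)) hw
  have cE : (Nat.card (gg SE) : F) ≠ 0 := by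
    rw [card_E, show 1024 = 2 ^ 10 from rfl, Nat.cast_pow]; exact pow_ne_zero _ h2
  have ni : ∀ {S : ℕ}, Nat.land S M2 = S →
      ((nn X.ρ (gg S) (fixS X.ρ (gg SE))).relIndex (gg S) : F) ≠ 0 := fun {S} hS =>
    nn_index h2 (fun v hv => neg_mem hv) (m := 24) (by
      rw [show 24 = 2 ^ 3 * 3 from rfl, Nat.cast_mul, Nat.cast_pow]
      exact mul_ne_zero (pow_ne_zero _ h2) h3)
      (by rintro _ ⟨k, -, rfl⟩; exact m_sq k) (by rintro _ ⟨k, -, rfl⟩ _ ⟨l, -, rfl⟩; exact m_pair k l)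
      (by rintro _ ⟨k, hk, rfl⟩; exact pm k (sub_of hS hk))
  have pm2 : ∀ g ∈ gg M2, (∀ v ∈ fixS X.ρ (gg SE), X.ρ g v = v) ∨
      ∀ v ∈ fixS X.ρ (gg SE), X.ρ g v = -v := fun g hg =>
    pm_closure (by rintro _ ⟨k, hk, rfl⟩; exact pm k hk) hg
  have sec2 : ∀ {p : ℕ} {x : MM}, p.Prime → Odd p → (p : F) = 0 → x ∈ gg M2 → orderOf x = p →
      ¬ p ^ 2 ∣ Nat.card (gg M2) → ∃ s, X.Sec (gg M2) s := fun {p x} a b c d e f =>
    Ext.exists_sec_cyc (hn_E (by decide)) cE (ni (by decide)) a c d (fun v hv =>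
      fix_of_odd ((pm2 x d).imp (· v hv) (· v hv)) b (e ▸ pow_orderOf_eq_one x))
      (e ▸ pow_orderOf_eq_one x) (idx_ne (zpowers_le.2 d) a c (n := 1)
        (by rw [Nat.card_zpowers, e, pow_one]) f)
  have dir : ∀ {p : ℕ} {x : MM}, p.Prime → Odd p → (p : F) = 0 → x ∈ gg M2 → orderOf x = p →
      ¬ p ^ 2 ∣ 42305421312000 → ∃ s, X.Sec ⊤ s := fun {p x} a b c d e f => by
    rw [← card_MM] at f
    obtain ⟨s, hs⟩ := sec2 a b c d e fun g => f (g.trans (card_subgroup_dvd_card _))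
    exact hs.up (idx_ne le_top a c (n := 1) (by rw [pow_one, ← e]; exact orderOf_dvd_natCard _ d)
      (by rwa [card_top]))
  have am : ∀ {p : ℕ}, p ≠ 0 → (p : F) = 0 → (∃ s, X.Sec (gg M2) s) →
      ((gg S12).relIndex (gg M1) : F) ≠ 0 → ∃ s, X.Sec ⊤ s := fun {p} a b ⟨s2, c⟩ d => by
    have c1 := c.mono (gg_le (S := S12) (by decide))
    have c2 := c.mono (gg_le (S := SD2) (by decide))
    obtain ⟨t1, k1⟩ := c1.up d
    obtain ⟨v1, e1⟩ := (k1.mono (gg_le (S := S12) (by decide))).conj_nn c1 (gg_le (by decide))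
      (hn_E (by decide)) cE (ni (by decide))
    obtain ⟨t3, k3⟩ := c2.up (cast_ne h2 h3 idx_P)
    obtain ⟨v3, e3⟩ := (k3.mono (gg_le (S := SD2) (by decide))).conj_nn c2 (gg_le (by decide))
      (hn_E (by decide)) cE (ni (by decide))
    obtain ⟨v, f1, f2⟩ := ((k1.tw v1).mono (gg_le (S := SD1) (by decide))).conj_of
      ((k3.tw v3).mono (gg_le (by decide))) (gg_le (S := SB) (by decide)) (cast_ne h2 h3 idx_D)
      fun a ha => (e3 a (gg_le (by decide) ha)).symm.trans (e1 a (gg_le (by decide) ha))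
    refine amalgam a b ((k1.tw v1).tw v) c (k3.tw v3) (fun g hg => ?_) (fun g hg => (e3 g hg).symm) f2
    have f3 : v ∈ fixS X.ρ (gg SE) := fun o ho => f1 o (gg_le (by decide) ho)
    have f4 : gg S12 ≤ cen X.ρ {v} := genOn_le fun k hk w hw => by
      rw [Set.mem_singleton_iff.1 hw]
      by_cases k0 : k = 0
      · subst k0
        have g1 := f1 _ (mem_genOn (k := 1) (by decide))
        have g2 := fix_of_odd ((pm2 _ (mul_mem (mem_genOn (k := 0) (by decide))
          (mem_genOn (k := 1) (by decide)))).imp (· v f3) (· v f3)) (n := 3) (by decide) (by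
            simpa [ev_powW] using orc.eq (U := powW [0, 1] 3) (V := []) (by decide +kernel))
        rwa [mul_ap, g1] at g2
      · refine f1 _ (mem_genOn ?_)
        obtain ⟨k, rfl⟩ := Nat.exists_eq_succ_of_ne_zero k0
        rw [Nat.testBit_succ] at hk ⊢
        exact hk
    rw [← e1 g hg, X.cj_eq, c1.1 g hg, f4 hg v rfl, sub_self, X.j_zero, one_mul]
  rw [not_not, card_MM, show 42305421312000 = 2 ^ 18 * 3 ^ 6 * 5 ^ 3 * 7 * 11 * 23 from rfl] at h0
  simp only [Nat.cast_mul, Nat.cast_pow, mul_eq_zero, pow_eq_zero_iff', Nat.cast_ofNat] at h0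
  have f5 : Fact (Nat.Prime 5) := ⟨by norm_num⟩
  have f7 : Fact (Nat.Prime 7) := ⟨by norm_num⟩
  have f11 : Fact (Nat.Prime 11) := ⟨by norm_num⟩
  have f23 : Fact (Nat.Prime 23) := ⟨by norm_num⟩
  rcases h0 with ((((h | h) | h) | h) | h) | h
  · exact absurd h.1 h2
  · exact absurd h.1 h3
  · have o := ord_of (W := [0, 1, 2, 3]) (p := 5) (by decide +kernel)
    have c : ((5 : ℕ) : F) = 0 := by simpa using h.1
    exact am (by norm_num) c (sec2 f5.out (by decide) c (ev_mem_genOn (by decide +kernel)) o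
      (not_dvd_M2 (by decide) (by norm_num))) (idx_ne (gg_le (by decide)) f5.out c (n := 1)
        (by rw [pow_one, ← o]; exact orderOf_dvd_natCard _ (ev_mem_genOn (by decide +kernel)))
        fun e => absurd (e.trans card_M1) (by norm_num))
  · exact dir f7.out (by decide) (by simpa using h) (ev_mem_genOn (W := [2, 16, 22, 23])
      (by decide +kernel)) (ord_of (by decide +kernel)) (by norm_num)
  · exact dir f11.out (by decide) (by simpa using h) (ev_mem_genOn (W := [0, 1, 22, 23])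
      (by decide +kernel)) (ord_of (by decide +kernel)) (by norm_num)
  · have c : ((23 : ℕ) : F) = 0 := by simpa using h
    exact am (by norm_num) c (Ext.exists_sec (cast_ne_of f23.out c (by
      simpa using not_dvd_M2 (p := 23) (n := 1) (by decide) (by norm_num))))
      (idx_ne (gg_le (by decide)) f23.out c (n := 0) (by simp)
        fun e => absurd (e.trans card_M1) (by norm_num))

end Cfsg.Agent.Mon.Cx
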