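import Cfsg.Agent.Mon.CxC
import Cfsg.Agent.Mon.BvGeo
import Cfsg.Agent.Std.CoMono
import Cfsg.Agent.S0379

/-! Lifting the local subgroups of a group of Baby Monster type to an extension. -/

set_option autoImplicit false

namespace Cfsg.Agent.Mon.Cx

open Cfsg Cfsg.Spor Cfsg.Agent.Spor Cfsg.Agent.Spor.Leech Cfsg.Agent.TT Cfsg.Agent.LES
  Cfsg.Agent.LES.Co Cfsg.Agent.Mon.Bv Subgroup

universe u

variable {F V G : Type*} {Γ : Type u} [Field F] [AddCommGroup V] [Module F V] [Group G] [Group Γ]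

/-- Reduction to the quotient by a normal subgroup of invertible order. -/
theorem Ext.sec_of_quot (X : Ext F V G Γ) {M : Type*} [Group M] {L O : Subgroup G} (θ : L →* M)
    (hs : Function.Surjective θ) (hk : ∀ a : L, θ a = 1 ↔ (a : G) ∈ O) (hO : O ≤ L)
    (hc : (Nat.card O : F) ≠ 0)
    (H : ∀ (Δ : Type u) [Group Δ] (Y : Ext F (fixS X.ρ O) M Δ), ∃ s, Y.Sec ⊤ s) :
    ∃ s, X.Sec L s := by
  have hn : ∀ a ∈ L, ∀ o ∈ O, a⁻¹ * o * a ∈ O := fun a ha o ho =>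
    (hk ((⟨a, ha⟩ : L)⁻¹ * ⟨o, hO ho⟩ * ⟨a, ha⟩)).1 (by
      rw [map_mul, map_mul, (hk ⟨o, hO ho⟩).2 ho, map_inv]; simp)
  obtain ⟨s, h⟩ := Ext.exists_sec (X := X) hc
  let p : h.nrm hn →* L := (X.π.comp (Subgroup.subtype _)).codRestrict L fun γ => γ.2.1
  let S : Subgroup (h.nrm hn) :=
    { carrier := {γ | X.π γ ∈ O ∧ s (X.π γ) = γ}
      one_mem' := ⟨by simp, by simpa using h.one⟩
      mul_mem' := fun {a b} ha hb => ⟨by rw [coe_mul, map_mul]; exact mul_mem ha.1 hb.1, by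
        rw [coe_mul, map_mul, h.2 _ ha.1 _ hb.1, ha.2, hb.2]⟩
      inv_mem' := fun {a} ha => ⟨by rw [coe_inv, map_inv]; exact inv_mem ha.1, by
        rw [coe_inv, map_inv, h.inv ha.1, ha.2]⟩ }
  have : S.Normal := ⟨fun a ha g => by
    have e := (g⁻¹).2.2 _ ha.1
    have e' := hn _ (g⁻¹).2.1 _ ha.1
    rw [coe_inv, map_inv, inv_inv] at e e'
    refine ⟨by simpa using e', ?_⟩
    rw [ha.2, eq_inv_mul_iff_mul_eq, ← mul_assoc] at e
    simpa using e.symm⟩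
  have key : ∀ a b : L, θ a = θ b → ∀ w ∈ fixS X.ρ O, X.ρ a w = X.ρ b w := fun a b e w hw => by
    rw [← mul_inv_cancel_left (b : G) a, mul_ap,
      hw ((b : G)⁻¹ * a) ((hk (b⁻¹ * a)).1 (by simp [e]))]
  choose u hu using hs
  let r : M →* Module.End F (fixS X.ρ O) :=
    { toFun := fun m => (X.ρ (u m)).restrict fun _ hw => map_fixS (hn _ (u m).2) hw
      map_one' := LinearMap.ext fun w => Subtype.ext
        ((key _ 1 (by rw [hu, map_one]) _ w.2).trans (by simp))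
      map_mul' := fun a b => LinearMap.ext fun w => Subtype.ext
        ((key _ (u a * u b) (by rw [hu, map_mul, hu, hu]) _ w.2).trans (mul_ap _ _ _)) }
  let Y : Ext F (fixS X.ρ O) M (h.nrm hn ⧸ S) :=
    { ρ := r
      π := QuotientGroup.lift S (θ.comp p) fun γ hγ => (hk _).2 hγ.1
      j := fun v => QuotientGroup.mk ⟨X.j v, (h.j_mem hn).2 v.2⟩
      surj := fun m => by
        obtain ⟨γ, a, b⟩ := h.nrm_surj hn hc (u m).2
        exact ⟨QuotientGroup.mk ⟨γ, a⟩, (congrArg θ (Subtype.ext b)).trans (hu m)⟩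
      add := fun v w => congrArg QuotientGroup.mk (Subtype.ext (X.add v w))
      inj := fun v e => Subtype.ext (X.inj _ (by
        have := ((QuotientGroup.eq_one_iff _).1 e).2
        rw [X.pi_j, h.one] at this
        exact this.symm))
      ker := fun γ => by
        obtain ⟨γ, rfl⟩ := QuotientGroup.mk_surjective γ
        refine ⟨fun e => ?_, fun ⟨v, e⟩ => e ▸ (hk _).2 (by
          change X.π (X.j v) ∈ O
          rw [X.pi_j]; exact one_mem _)⟩
        have e1 : X.π γ ∈ O := (hk _).1 e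
        obtain ⟨v, hv⟩ := X.exists_j (h.1 _ e1).symm
        have e2 : X.j v ∈ h.nrm hn := by
          rw [eq_mul_inv_of_mul_eq hv.symm]; exact mul_mem γ.2 (inv_mem (h.s_mem hn hO e1))
        refine ⟨⟨v, (h.j_mem hn).1 e2⟩, QuotientGroup.eq.2 ?_⟩
        have e3 : (X.j v)⁻¹ * γ = s (X.π γ) := inv_mul_eq_iff_eq_mul.2 hv
        change X.π ((X.j v)⁻¹ * γ) ∈ O ∧ s (X.π ((X.j v)⁻¹ * γ)) = (X.j v)⁻¹ * γ
        rw [e3, h.1 _ e1]
        exact ⟨e1, rfl⟩
      conj := fun γ v => by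
        obtain ⟨γ, rfl⟩ := QuotientGroup.mk_surjective γ
        refine congrArg QuotientGroup.mk (Subtype.ext ((X.conj γ v).trans ?_))
        exact congrArg (fun x => X.j x * γ) (key (p γ) _ (hu _).symm _ v.2) }
  obtain ⟨t, ht⟩ := H _ Y
  let σ := MonoidHom.mk' t fun a b => ht.2 a trivial b trivial
  obtain ⟨s', hs', -⟩ := Ext.sec_of (X := X)
    (((QuotientGroup.mk' S).eqLocus (σ.comp (θ.comp p))).map (Subgroup.subtype _)) (by
      rintro _ ⟨γ, a, rfl⟩ b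
      have c : QuotientGroup.mk γ = σ (θ (p γ)) := a
      rw [show p γ = 1 from Subtype.ext b, map_one, map_one, QuotientGroup.eq_one_iff] at c
      rw [coe_subtype, ← c.2, show X.π γ = 1 from b, h.one])
  refine ⟨s', hs'.mono fun a ha => ?_⟩
  obtain ⟨γ, e⟩ := QuotientGroup.mk_surjective (t (θ ⟨a, ha⟩))
  have e1 : θ (p γ) = θ ⟨a, ha⟩ := (congrArg Y.π e).trans (ht.1 _ trivial)
  have e2 : (X.π γ)⁻¹ * a ∈ O := (hk ((p γ)⁻¹ * (⟨a, ha⟩ : L))).1 (by simp [e1])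
  let δ : h.nrm hn := ⟨_, h.s_mem hn hO e2⟩
  have e3 : p (γ * δ) = ⟨a, ha⟩ := Subtype.ext (by
    change X.π (γ * s _) = a
    rw [map_mul, h.1 _ e2, mul_inv_cancel_left])
  refine ⟨_, ⟨γ * δ, ?_, rfl⟩, congrArg Subtype.val e3⟩
  change QuotientGroup.mk (γ * δ) = t (θ (p (γ * δ)))
  rw [e3, ← e, QuotientGroup.mk_mul_of_mem]
  change X.π (s _) ∈ O ∧ s (X.π (s _)) = s _
  rw [h.1 _ e2]
  exact ⟨e2, rfl⟩

theorem le_nn [FiniteDimensional F V] {ρ : G →* Module.End F V} {L K : Subgroup G}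
    {W : Submodule F V} (h2 : (2 : F) ≠ 0) (hW : Module.finrank F W ≤ 1) (hK : K ≤ L)
    (inv : ∀ a ∈ K, ∀ w ∈ W, ρ a w ∈ W) {M : Type*} [Group M] [Finite M] [IsSimpleGroup M]
    (e2 : 2 ∣ Nat.card M) (e3 : ¬ (Nat.card M).Prime) (μ : K →* M) (hs : Function.Surjective μ)
    (hk : ∀ a, μ a = 1 → (a : G) ∈ cen ρ W ∧ (a : G) ^ 8 = 1) : K ≤ nn ρ L W := by
  have pf : commutator M = ⊤ := by
    refine (inferInstance : (commutator M).Normal).eq_bot_or_eq_top.resolve_left fun e => ?_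
    let _ : CommGroup M := { (inferInstance : Group M) with
      mul_comm := fun a b => commutatorElement_eq_one_iff_mul_comm.1
        (mem_bot.1 (e ▸ commutator_mem_commutator (mem_top a) (mem_top b))) }
    exact e3 IsSimpleGroup.prime_card
  have h1 : ∀ a : K, (a : G) ∈ cen ρ W := fun a =>
    (Bv.eq_top_of_perfect μ hs pf (M := (cen ρ W).subgroupOf K) (fun a ha => (hk a ha).1)
      fun a b w hw => by
        obtain ⟨c, hc⟩ := exists_scalar hW (inv _ a.2)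
        obtain ⟨d, hd⟩ := exists_scalar hW (inv _ b.2)
        exact Bv.comm_mem_Fx (hc w hw) (hd w hw)).ge (mem_top a)
  let A : Subgroup K := closure {y | ∃ m : ℕ, (m : F) ≠ 0 ∧ y ^ m = 1}
  have : A.Normal := ⟨fun a ha g => by
    induction ha using closure_induction with
    | mem y hy =>
      obtain ⟨m, m1, m2⟩ := hy
      exact subset_closure ⟨m, m1, by rw [conj_pow, m2]; simp⟩
    | one => simp
    | mul a b _ _ ha hb => rw [← conj_mul]; exact mul_mem ha hb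
    | inv a _ ha => rw [← conj_inv]; exact inv_mem ha⟩
  have a1 : ∀ (y : K) (k : ℕ), μ (y ^ 2 ^ k) = 1 → y ∈ A := fun y k e =>
    subset_closure ⟨2 ^ k * 2 ^ 3, by rw [← pow_add, Nat.cast_pow]; exact pow_ne_zero _ h2,
      Subtype.ext (by rw [pow_mul]; exact (hk _ e).2)⟩
  have a2 : A = ⊤ := by
    rw [← comap_map_eq_self (f := μ) (H := A) fun y hy => a1 y 0 (by simpa using hy)]
    rcases (Normal.map this μ hs).eq_bot_or_eq_top with e | e
    · obtain ⟨g, hg⟩ := exists_prime_orderOf_dvd_card' 2 e2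
      obtain ⟨y, rfl⟩ := hs g
      have := e.le ⟨y, a1 y 1 (by rw [map_pow, pow_one, ← hg, pow_orderOf_eq_one]), rfl⟩
      rw [mem_bot.1 this] at hg
      simp at hg
    · rw [e, comap_top]
  intro a ha
  refine (show A ≤ (nn ρ L W).subgroupOf K from (closure_le _).2 ?_) (a2.ge (mem_top ⟨a, ha⟩))
  rintro y ⟨m, m1, m2⟩
  exact subset_closure ⟨hK y.2, h1 y, m, m1, congrArg Subtype.val m2⟩

theorem map_fix {ρ : G →* Module.End F V} {K L : Subgroup G} {a : G}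
    (h : ∀ o ∈ L, a⁻¹ * o * a ∈ K) {v : V} (hv : v ∈ fixS ρ K) : ρ a v ∈ fixS ρ L := fun o ho => by
  conv_rhs => rw [← hv _ (h o ho)]
  rw [← mul_ap, ← mul_ap]; congr 2; group

theorem nm_cent [Finite G] {S : Set G} {g : G} (h : ∀ u ∈ S, g⁻¹ * u * g ∈ closure S) :
    g ∈ normalizer (centralizer S : Set G) := mem_normalizer_fintype fun k hk u hu => by
  have := (centralizer_closure S).ge hk _ (h u hu)
  calc _ = g * (g⁻¹ * u * g * k) * g⁻¹ := by group
    _ = _ := by rw [this]; group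

theorem hn_nm (K : Subgroup G) : ∀ a ∈ normalizer (K : Set G), ∀ o ∈ K, a⁻¹ * o * a ∈ K :=
  fun _ ha o ho => (mem_normalizer_iff''.1 ha o).1 ho

theorem mem_c2 {z s a : G} : a ∈ centralizer ({z, s} : Set G) ↔ a * z = z * a ∧ a * s = s * a := by
  simp only [mem_centralizer_iff, Set.forall_mem_insert, Set.mem_singleton_iff, forall_eq]
  exact and_congr eq_comm eq_comm

theorem c2_le {z s : G} : centralizer ({z, s} : Set G) ≤ centralizer {z} := fun _ h =>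
  mem_centralizer_singleton_iff.2 (mem_c2.1 h).1

theorem pres_of {σ : M24} {a : Finset GolayPt} {ha : a ∈ GC} (hu : mono σ a ha • leechU = leechU) :
    Pres σ := by
  have key : ∀ i : GolayPt, i = none ∨ i = some 0 → σ • i = none ∨ σ • i = some 0 := fun i hi => by
    have := congrArg (fun x : leechLattice => (x : GolayPt → ℤ) (σ • i)) hu
    simp only [mono_eq, mul_smul, sgn_smul] at this
    rw [show σ • i = (σ : Equiv.Perm GolayPt) i from rfl, permHom_smul', leechU_apply,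
      leechU_apply, if_pos hi] at this
    by_contra hc
    rw [if_neg (show ¬ ((σ : Equiv.Perm GolayPt) i = none ∨ (σ : Equiv.Perm GolayPt) i = some 0)
      from hc)] at this
    split_ifs at this; omega
  rcases key _ (.inl rfl) with p | p <;> rcases key _ (.inr rfl) with q | q
  · exact absurd (smul_left_cancel σ (p.trans q.symm)) (by decide)
  · exact .inl ⟨p, q⟩
  · exact .inr ⟨p, q⟩
  · exact absurd (smul_left_cancel σ (p.trans q.symm)) (by decide)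

/-- The properties of the module that are used. -/
structure VS (Pt : G → Prop) (ρ : G →* Module.End F V) : Prop where
  h2 : (2 : F) ≠ 0
  h3 : (3 : F) ≠ 0
  d23 : ∀ {x}, Pt x → Module.finrank F (fixS ρ (O2C x)) ≤ 23
  bot : ∀ {x y}, Ln Pt x y → Eig ρ (O2C x) y = ⊥
  line : ∀ {x y}, Ln Pt x y → Module.finrank F ↥(fixS ρ (O2C x) ⊓ fixS ρ (O2C y)) ≤ 1
  nofix : ∀ v, (∀ g, ρ g v = v) → v = 0

theorem two_ne (h2 : (2 : F) ≠ 0) [Finite G] {O : Subgroup G} (h : IsPGroup 2 O) :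
    (Nat.card O : F) ≠ 0 := by
  obtain ⟨n, hn⟩ := IsPGroup.iff_card.1 h
  rw [hn, Nat.cast_pow]; exact pow_ne_zero _ h2

variable [Finite G] {Pt : G → Prop} {T : G → G → Prop} (Ge : Geo Pt T) {x y z s τ : G}

section
variable {ρ : G →* Module.End F V} (hv : VS Pt ρ)
include Ge hv

theorem fix_le (hx : Pt x) {K : Subgroup G} (hK : K ≤ O2C x) (hz : x ∈ K)
    (h : ∀ r ∈ O2C x, (∀ k ∈ K, k * r = r * k) → r = 1 ∨ Pt r) : fixS ρ K ≤ fixS ρ (O2C x) :=
  fun v hv' => by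
    have : NeZero (2 : F) := ⟨hv.h2⟩
    refine mem_of_Eig (Ge.xs hx) hK hz (one_mem _) (mem_Eig_one.2 hv') fun r hr e => ?_
    rw [one_mul]
    by_cases a : Eqv x r 1
    · rw [Eig_eqv (Ge.xs hx) le_rfl a]; exact fun w hw => mem_Eig_one.1 hw
    · rw [hv.bot ⟨hx, (h r hr e).resolve_left fun b => a (.inl b), hr, fun b => a (.inr (by simp [b]))⟩]
      exact bot_le

theorem fix_ln (l : Ln Pt x y) {K : Subgroup G} (h : ∀ q ∈ O2C x, q * y = y * q → q ∈ K) :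
    fixS ρ K ≤ fixS ρ (O2C x) := fun v hv' =>
  fix_le Ge hv l.p (K := O2C x ⊓ centralizer {y}) inf_le_left
    ⟨(Ge.xs l.p).z_mem, mem_centralizer_singleton_iff.2 l.comm.symm⟩ (fun r hr e => by
      rcases (Ge.xs l.p).eq_of_comm_centralizer l.mem hr fun q a b =>
        e q ⟨a, mem_centralizer_singleton_iff.2 b⟩ with a | a | a | a <;> rw [a]
      exacts [.inl rfl, .inr l.p, .inr l.q, .inr (Ge.mul l).q])
    fun k hk => hv' k (h k hk.1 (mem_centralizer_singleton_iff.1 hk.2))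

theorem nn_N [FiniteDimensional F V] (l : Ln Pt z s) : ∃ O ≤ centralizer ({z, s} : Set G),
    (∀ a ∈ centralizer ({z, s} : Set G), ∀ o ∈ O, a⁻¹ * o * a ∈ O) ∧ (Nat.card O : F) ≠ 0 ∧
      ((nn ρ (centralizer {z, s}) (fixS ρ O)).relIndex (centralizer {z, s}) : F) ≠ 0 := by
  obtain ⟨γ, φ, -, h⟩ := Ge.exists_std l
  let f : centralizer ({z, s} : Set G) →* monoSub :=
    (co2Incl.comp (γ.comp (inclusion c2_le))).codRestrict _ fun a =>
      (h.mono_iff _).1 (.inl (conj_eq_of_comm (mem_c2.1 a.2).2))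
  let μ := Std.Co.pr.comp f
  let O := μ.ker.map (Subgroup.subtype _)
  have m1 : ∀ a, μ a = 1 → (a : G) ^ 8 = 1 := fun a e => by
    obtain ⟨c, hc, e'⟩ := Std.Co.exists_eq_mono (f a)
    rw [show Std.Co.pr (f a) = 1 from e] at e'
    have : ((inclusion c2_le a * inclusion c2_le a : centralizer {z}) : G) ∈ O2C z :=
      (h.d.ker _).1 (co2Incl_injective (by
        rw [map_mul, map_mul, map_one, show co2Incl (γ (inclusion c2_le a)) = _ from e']
        exact Std.Co.sgn_sq hc))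
    rw [show 8 = 2 * 4 from rfl, pow_mul, pow_two]
    exact h.d.lx.toXS.pow_four this
  have hn : ∀ a ∈ centralizer ({z, s} : Set G), ∀ o ∈ O, a⁻¹ * o * a ∈ O := fun a ha =>
    hn_nm O a (PLocal.Amb.le_normalizer_map_subtype _ ha)
  have hW : fixS ρ O ≤ fixS ρ (O2C z) ⊓ fixS ρ (O2C s) := le_inf
    (fix_ln Ge hv l fun q a b => ⟨⟨q, mem_c2.2 ⟨comm_of_mem_O2C a, b⟩⟩, by
      change Std.Co.pr (f _) = 1
      rw [show f _ = 1 from Subtype.ext ((congrArg co2Incl ((h.d.ker _).2 a)).trans (map_one _)),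
        map_one], rfl⟩)
    (fix_ln Ge hv (Ge.symm l) fun p a b => ⟨⟨p, mem_c2.2 ⟨b, comm_of_mem_O2C a⟩⟩, by
      obtain ⟨c, hc, e⟩ := mem_sgnSub_iff.1 ((h.d.mem_sgnSub_iff h.hp h.hP h.hs).2
        ⟨⟨p, mem_centralizer_singleton_iff.2 b⟩, a, rfl⟩)
      exact Std.Co.pr_eq (hc := hc) e, rfl⟩)
  let M := MulAction.stabilizer M24 (none : GolayPt) ⊓ MulAction.stabilizer M24 (some 0 : GolayPt)
  let K := (M.comap μ).map (Subgroup.subtype _)
  have kl : K ≤ centralizer {z, s} := map_subtype_le _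
  have := S0379.result none (some 0) (by simp)
  have c := S0378.result none (some 0) (by simp)
  have : Finite M := Nat.finite_of_card_ne_zero (by rw [c]; norm_num)
  refine ⟨O, map_subtype_le _, hn, two_ne hv.h2 ?_, relIndex_ne (le_nn (K := K) hv.h2
    ((Submodule.finrank_mono hW).trans (hv.line l)) kl (fun a ha w hw => map_fixS (hn a (kl ha)) hw)
    (M := M) (by rw [c]; norm_num) (by rw [c]; norm_num)
    ((μ.comp (inclusion kl)).codRestrict M fun a => ?_) (fun σ => ?_) fun a e => ?_) ?_⟩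
  · rintro ⟨_, a, ha, rfl⟩
    exact ⟨3, Subtype.ext (m1 a ha)⟩
  · obtain ⟨_, b, hb, rfl⟩ := a
    exact hb
  · obtain ⟨k, k1, k2⟩ := h.lift (Pres.u (.inl σ.2)).1 (Pres.u (.inl σ.2)).2
    have : μ ⟨k, mem_c2.2 ⟨MonData.comm_z k, k2⟩⟩ = σ := Std.Co.pr_eq (hc := GC_empty)
      (k1.trans (by rw [mono_eq, Std.Co.sgn_empty, one_mul]))
    exact ⟨⟨k, _, mem_comap.2 (this ▸ σ.2), rfl⟩, Subtype.ext this⟩
  · have e' := congrArg Subtype.val e
    exact ⟨fun w hw => hw _ ⟨_, e', rfl⟩, m1 _ e'⟩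
  · have p : ∀ a, Pres (μ a) := fun a => by
      obtain ⟨c, hc, e⟩ := Std.Co.exists_eq_mono (f a)
      exact pres_of (ha := hc) (e ▸ show (f a : Co0) • leechU = leechU from co2Incl_u _)
    have : (M.comap μ).index ∣ 2 := index_dvd_two_iff.2 (by
      by_cases e : ∀ a, a ∈ M.comap μ
      · exact ⟨1, fun b => .inr (e b)⟩
      push Not at e
      obtain ⟨a, e⟩ := e
      refine ⟨a, fun b => (p b).symm.imp (fun q => ?_) id⟩
      have r := (p a).resolve_left e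
      exact ⟨show μ (b * a) • _ = _ by rw [map_mul, mul_smul, r.1, q.2],
        show μ (b * a) • _ = _ by rw [map_mul, mul_smul, r.2, q.1]⟩)
    rw [relIndex, subgroupOf, comap_map_eq_self_of_injective (subtype_injective _)]
    exact cast_ne hv.h2 hv.h3 ⟨ne_zero_of_dvd_ne_zero two_ne_zero this,
      (Nat.le_of_dvd two_pos this).trans (by norm_num)⟩

theorem tau_fix (l : Ln Pt z s) (n : τ ∈ normalizer (centralizer ({z, s} : Set G) : Set G))
    (t3 : τ * τ * τ = 1) {d : G} (d1 : d ∈ O2C z) (d2 : d * τ * d * τ = 1) {v : V}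
    (h : v ∈ fixS ρ (centralizer {z, s})) : ρ τ v = v := by
  have k : ∀ w ∈ fixS ρ (centralizer {z, s}), ρ d w = w := fun w hw =>
    fix_ln Ge hv l (fun q a b => mem_c2.2 ⟨comm_of_mem_O2C a, b⟩) hw d d1
  have h1 := map_fixS (hn_nm _ τ n) h
  have e1 := congrArg (fun a => ρ a v) d2
  have e2 := congrArg (fun a => ρ a v) t3
  simp only [mul_ap, map_one, Module.End.one_apply] at e1 e2
  rw [k _ h1, k _ (map_fixS (hn_nm _ τ n) h1)] at e1
  rwa [e1] at e2

theorem fix_U [FiniteDimensional F V] (l : Ln Pt z s) (t2 : τ⁻¹ * s * τ = z)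
    (tf : ∀ v ∈ fixS ρ (centralizer {z, s}), ρ τ v = v) {U : Subgroup G} (u1 : U ≤ O2C z)
    (uz : z ∈ U) (u2 : ∀ u ∈ U, u = 1 ∨ Pt u) (n1 : τ ∈ normalizer (centralizer (U : Set G) : Set G))
    {ξ : G} (n2 : ξ ∈ normalizer (centralizer (U : Set G) : Set G)) (x1 : ξ * z = z * ξ)
    (x2 : ¬ Eqv z (ξ * s * ξ⁻¹) s) (gen : ∀ K : Subgroup G, centralizer {z} ≤ K → τ ∈ K → K = ⊤)
    {w : V} (hw : w ∈ fixS ρ (centralizer U)) : w = 0 := by
  by_contra w0
  have a1 : fixS ρ (centralizer U) ≤ fixS ρ (O2C z) := fun v h =>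
    fix_le Ge hv l.p (K := O2C z ⊓ centralizer U) inf_le_left
      ⟨u1 uz, fun u hu => comm_of_mem_O2C (u1 hu)⟩ (fun r hr e =>
        u2 r ((Ge.xs l.p).mem_of_comm_centralizer u1 uz hr fun q a b => e q ⟨a, b⟩))
      fun k hk => h k hk.2
  have a2 : fixS ρ (centralizer U) ≤ fixS ρ (O2C z) ⊓ fixS ρ (O2C s) := fun v h => ⟨a1 h, by
    rw [← ap_inv (ρ := ρ) τ v]
    refine map_fix (fun o ho => ?_) (a1 (map_fixS (hn_nm _ _ (inv_mem n1)) h))
    simpa [← t2] using (mem_Q_conj τ⁻¹).2 ho⟩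
  let K : Subgroup G :=
    { carrier := {g | ∃ a : F, ρ g w = a • w}
      one_mem' := ⟨1, by simp⟩
      mul_mem' := fun ⟨a, ha⟩ ⟨b, hb⟩ => ⟨b * a, by rw [mul_ap, hb, map_smul, ha, smul_smul]⟩
      inv_mem' := fun {g} ⟨a, ha⟩ => ⟨a⁻¹, by
        have e := inv_ap (ρ := ρ) g w
        rw [ha, map_smul] at e
        exact (eq_inv_smul_iff₀ fun b => w0 (by rw [← e, b, zero_smul])).2 e⟩ }
  have a3 : ∀ g, ρ g w ∈ fixS ρ (O2C z) ⊓ fixS ρ (O2C s) → g ∈ K := fun g h => by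
    obtain ⟨u, hu⟩ := finrank_le_one_iff.1 (hv.line l)
    obtain ⟨a, ha⟩ := hu ⟨_, a2 hw⟩
    obtain ⟨b, hb⟩ := hu ⟨_, h⟩
    have ha : a • (u : V) = w := congrArg Subtype.val ha
    have a0 : a ≠ 0 := fun e => w0 (by rw [← ha, e, zero_smul])
    exact ⟨b * a⁻¹, by rw [mul_smul, ← ha, inv_smul_smul₀ a0, ha]; exact (congrArg Subtype.val hb).symm⟩
  have a4 : ∀ c, c * z = z * c → c * s = s * c → c ∈ K := fun c p q => a3 c
    ⟨map_fixS (fun o ho => by simpa using conj_mem_O2C ho (comm_inv_left p)) (a2 hw).1,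
      map_fixS (fun o ho => by simpa using conj_mem_O2C ho (comm_inv_left q)) (a2 hw).2⟩
  have a5 : ∀ c, c * z = z * c → c ∈ K := fun c => Ge.gen_C l (fun c p q => by
    rcases q with q | q
    · exact a4 c p (comm_of_conj_eq q)
    · obtain ⟨r, r1, r2⟩ := Ge.flip l
      refine (K.mul_mem_cancel_left (inv_mem ⟨1, by rw [(a2 hw).1 r r1, one_smul]⟩)).1
        (a4 _ (comm_mul_left (comm_inv_left (comm_of_mem_O2C r1)) p) (comm_of_conj_eq ?_))
      rw [show r⁻¹ * c * s * (r⁻¹ * c)⁻¹ = r⁻¹ * (c * s * c⁻¹) * r by group, q, ← r2]; group)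
    (a3 ξ (a2 (map_fixS (hn_nm _ _ n2) hw))) x1 x2
  have a6 : centralizer {z} ≤ Fx ρ w := fun c hc => Ge.top_of_comm l.p (a2 hw).1 (fun a b p q =>
    let ⟨_, e⟩ := a5 a p; let ⟨_, f⟩ := a5 b q; comm_mem_Fx e f) (mem_centralizer_singleton_iff.1 hc)
  exact w0 (hv.nofix w fun g => (gen _ a6 (tf w fun o ho => a6 (c2_le ho))).ge (mem_top g))

end

omit [Finite G] in
theorem Ext.Sec.mem_nrm {X : Ext F V G Γ} {C K L : Subgroup G} {σ : G → Γ} (h : X.Sec C σ)
    (hK : K ≤ C) (hn : ∀ a ∈ L, ∀ o ∈ K, a⁻¹ * o * a ∈ K) {c : G} (h1 : c ∈ C) (h2 : c ∈ L) :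
    σ c ∈ (h.mono hK).nrm hn := ⟨by rwa [h.1 c h1], fun k hk => by
  rw [h.1 c h1, ← h.2 k (hK hk) c h1, ← h.2 c h1 _ (hK (hn c h2 k hk))]; congr 1; group⟩

include Ge in
/-- The amalgam lifts to the extension. -/
theorem exists_lift [FiniteDimensional F V] (X : Ext F V G Γ) (hv : VS Pt X.ρ) (l : Ln Pt z s)
    (t1 : τ⁻¹ * z * τ = s * z) (t2 : τ⁻¹ * s * τ = z) (t3 : τ * τ * τ = 1) {d ξ b e : G}
    (d1 : d ∈ O2C z) (d2 : d * τ * d * τ = 1) (d3 : d * d = 1) {U : Subgroup G} (u1 : U ≤ O2C z)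
    (uz : z ∈ U) (us : s ∈ U) (u2 : ∀ u ∈ U, u = 1 ∨ Pt u) (n1 : ∀ u ∈ U, τ⁻¹ * u * τ ∈ U)
    (n2 : ∀ g ∈ [ξ, b, e], g * z = z * g ∧ ∀ u ∈ U, g * u * g⁻¹ ∈ U) (x2 : ¬ Eqv z (ξ * s * ξ⁻¹) s)
    (br : τ * ξ * τ = b * τ * e) (gen : ∀ K : Subgroup G, centralizer {z} ≤ K → τ ∈ K → K = ⊤) :
    ∃ σ t, X.Sec (centralizer {z}) σ ∧ X.π t = τ ∧
      (∀ a ∈ centralizer ({z, s} : Set G), σ a * t = t * σ (τ⁻¹ * a * τ)) ∧ t * t * t = 1 ∧
      σ d * t * σ d * t = 1 ∧ t * σ ξ * t = σ b * t * σ e := by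
  obtain ⟨γ, φ, f⟩ := Ge.fm l.p
  obtain ⟨σ, h⟩ := X.sec_of_quot (ModelCo2.equiv.toMonoidHom.comp γ)
    (ModelCo2.equiv.surjective.comp f.d.surj) (fun a => (map_eq_one_iff _
      ModelCo2.equiv.injective).trans (f.d.ker a))
    (fun a ha => mem_centralizer_singleton_iff.2 (comm_of_mem_O2C ha))
    (two_ne hv.h2 (O2C_isPGroup z)) fun _ _ Y => mm_split Y hv.h2 hv.h3 (hv.d23 l.p)
  have mz : z ∈ closure ({z, s} : Set G) := subset_closure (by simp)
  have ms : s ∈ closure ({z, s} : Set G) := subset_closure (by simp)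
  have nt : τ ∈ normalizer (centralizer ({z, s} : Set G) : Set G) := nm_cent (by
    rintro u (rfl | rfl)
    exacts [t1 ▸ mul_mem ms mz, t2 ▸ mz])
  have nd : d ∈ normalizer (centralizer ({z, s} : Set G) : Set G) := (inv_mem_iff.1 (nm_cent (by
    rintro u (rfl | rfl) <;> rw [inv_inv]
    exacts [(conj_eq_of_comm (comm_of_mem_O2C d1)).symm ▸ mz,
      Eqv.mem mz ms ((Ge.xs l.p).conj d1 l.mem)])))
  have tf := fun v => tau_fix Ge hv l nt t3 d1 d2 (v := v)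
  have hN := h.mono (c2_le (s := s))
  have hn := hn_nm (centralizer ({z, s} : Set G))
  obtain ⟨t, h1, h2, h3⟩ : ∃ t ∈ hN.nrm hn, X.π t = τ ∧ t * t * t = 1 := by
    obtain ⟨γ, rfl⟩ := X.surj τ
    have h1 : X.Sec (centralizer {z, s}) fun o => γ * σ ((X.π γ)⁻¹ * o * X.π γ) * γ⁻¹ :=
      ⟨fun o ho => by rw [map_mul, map_mul, hN.1 _ (hn _ nt o ho), map_inv]; group,
        fun o ho k hk => by
          rw [show (X.π γ)⁻¹ * (o * k) * X.π γ = ((X.π γ)⁻¹ * o * X.π γ) * ((X.π γ)⁻¹ * k * X.π γ) by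
            group, hN.2 _ (hn _ nt o ho) _ (hn _ nt k hk)]; group⟩
    obtain ⟨O, o1, o2, o3, o4⟩ := nn_N Ge hv l
    obtain ⟨v, e1⟩ := h1.conj_nn hN o1 o2 o3 o4
    have e2 : X.π (X.j v * γ) = X.π γ := by simp [X.pi_j]
    have e3 : X.j v * γ ∈ hN.nrm hn := ⟨e2 ▸ nt, fun o ho => by rw [e1 o ho, e2]; group⟩
    generalize X.j v * γ = t at e2 e3
    obtain ⟨w, e4⟩ := (X.ker (t * t * t)).1 (by rw [map_mul, map_mul, e2, t3])
    have e5 := Submodule.neg_mem _ (Submodule.smul_mem _ (3 : F)⁻¹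
      ((hN.j_mem hn).1 (e4 ▸ mul_mem (mul_mem e3 e3) e3)))
    refine ⟨t * X.j _, mul_mem e3 ((hN.j_mem hn).2 e5), by rw [map_mul, X.pi_j, mul_one, e2], ?_⟩
    rw [← pow_three', Commute.mul_pow ((X.comm_iff _ _).2 (e2 ▸ tf _ e5)), pow_three', ← e4, X.j_pow,
      Nat.cast_ofNat, smul_neg, smul_inv_smul₀ hv.h3, X.j_neg, mul_inv_cancel]
  have dz := mem_centralizer_singleton_iff.2 (comm_of_mem_O2C d1)
  refine ⟨σ, t, h, h2, fun a ha => h2 ▸ h1.2 a ha, h3, ?_, ?_⟩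
  · have e1 := h.mem_nrm c2_le hn dz nd
    obtain ⟨w, e2⟩ := (X.ker (σ d * t * σ d * t)).1 (by simp only [map_mul, h.1 d dz, h2, d2])
    have e3 := (hN.j_mem hn).1 (e2 ▸ mul_mem (mul_mem (mul_mem e1 h1) e1) h1)
    have e4 : (σ d)⁻¹ = σ d := inv_eq_of_mul_eq_one_left (by rw [← h.2 d dz d dz, d3, h.one])
    have e5 : (X.j w * t⁻¹) ^ 3 = 1 := by
      rw [e2, mul_inv_cancel_right]
      nth_rw 2 [← e4]
      rw [conj_pow, pow_three', h3]; simp
    rw [Commute.mul_pow (Commute.inv_left ((X.comm_iff _ _).2 (h2 ▸ tf _ e3))).symm, inv_pow,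
      pow_three' t, h3, inv_one, mul_one, X.j_pow] at e5
    rw [← e2, (smul_eq_zero_iff_right (by simpa using hv.h3)).1 (X.inj _ e5), X.j_zero]
  · have kN : centralizer (U : Set G) ≤ centralizer {z, s} := centralizer_le (by
      rintro u (rfl | rfl) <;> assumption)
    have m1 : τ ∈ normalizer (centralizer (U : Set G) : Set G) := nm_cent (by rwa [closure_eq])
    have m2 : ∀ g ∈ [ξ, b, e], g ∈ normalizer (centralizer (U : Set G) : Set G) := fun g hg =>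
      inv_mem_iff.1 (nm_cent (by simpa using (n2 g hg).2))
    have c : ∀ g ∈ [ξ, b, e], g ∈ centralizer {z} := fun g hg =>
      mem_centralizer_singleton_iff.2 (n2 g hg).1
    have m3 := fun g hg => h.mem_nrm (kN.trans c2_le) (hn_nm _) (c g hg) (m2 g hg)
    have m4 : t ∈ (h.mono (kN.trans c2_le)).nrm (hn_nm _) := ⟨h2 ▸ m1, fun o ho => h1.2 o (kN ho)⟩
    obtain ⟨w, e2⟩ := (X.ker ((σ b * t * σ e)⁻¹ * (t * σ ξ * t))).1 (by
      simp only [map_mul, map_inv, h.1 ξ (c ξ (by simp)), h.1 b (c b (by simp)),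
        h.1 e (c e (by simp)), h2, br, inv_mul_cancel])
    have e3 := (Ext.Sec.j_mem _ _).1 (e2 ▸ mul_mem (inv_mem (mul_mem (mul_mem (m3 b (by simp)) m4)
      (m3 e (by simp)))) (mul_mem (mul_mem m4 (m3 ξ (by simp))) m4))
    rw [fix_U Ge hv l t2 tf u1 uz u2 m1 (m2 ξ (by simp)) (n2 ξ (by simp)).1 x2 gen e3, X.j_zero,
      eq_comm, inv_mul_eq_one] at e2
    exact e2.symm

end Cfsg.Agent.Mon.Cx
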