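import Cfsg.Agent.Mon.CxD
import Cfsg.Agent.MonU.BIso
import Cfsg.Agent.MonU.AmL3

/-! Extensions of a group of Baby Monster type by its small module split. -/

set_option autoImplicit false

namespace Cfsg.Agent.Mon.Cx

open Cfsg Cfsg.Spor Cfsg.Agent.TT Cfsg.Agent.MonU Cfsg.Agent.MonU.Am Cfsg.Agent.Mon.Bv Subgroup

variable {G Γ : Type*} [Group G] [Group Γ] [Finite G]

theorem hom_BQ (hG : IsOfBabyMonsterType G) {ι : C → Γ} {τ : Γ} (h : Amal H ι τ)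
    (ht : ι (qC tq) = 1) (π : Γ →* G) (hz : π (ι (qC zq)) ≠ 1) :
    (∀ γ ∈ gen H ι τ, π γ = 1 → γ = 1) ∧ (gen H ι τ).map π = ⊤ := by
  obtain ⟨κ, ρ, m⟩ := exists_mod if1.mon if1.nwc
  obtain ⟨f, f1, -, f3⟩ := m.exists_hom_B if1 h
  have tA := if1.mem_A_of_eqv m.t_eqv Spor.Leech.sqNorm_leechU'
  have mz : qC zq ∈ H := Bq.qC_mem.2 (Bq.E_QH _ _)
  let φ : BQ (κ (qC tq)) →* Γ := QuotientGroup.lift _ f fun x hx => by
    rcases (if1.mem_center tA).1 hx with e | e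
    · rw [show x = 1 from Subtype.ext e]; exact map_one f
    · exact (f1 _ (mem_centralizer_singleton_iff.2 rfl) x e).trans ht
  have hF : Function.Injective (π.comp φ) := by
    have := (if1.isB tA).1
    rcases ((π.comp φ).normal_ker).eq_bot_or_eq_top with e | e
    · exact (MonoidHom.ker_eq_bot_iff _).1 e
    · exact absurd ((congrArg π (f1 _ mz _ rfl)).symm.trans (e.ge (mem_top (QuotientGroup.mk
        ⟨_, mem_centralizer_singleton_iff.2 (m.mem_H.1 mz)⟩)) :)) hz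
  obtain ⟨e1⟩ := BQ_congr tA
  obtain ⟨e2⟩ := equiv_BQ hG
  have hs := (hF.bijective_of_nat_card_le (Nat.card_congr (e2.trans e1).toEquiv).le).2
  rw [← f3]
  refine ⟨?_, eq_top_iff.2 fun g _ => ?_⟩
  · rintro _ ⟨x, rfl⟩ e
    exact (congrArg φ (hF (a₁ := QuotientGroup.mk x) (e.trans (map_one _).symm))).trans (map_one φ)
  · obtain ⟨x, rfl⟩ := hs g
    obtain ⟨x, rfl⟩ := QuotientGroup.mk_surjective x
    exact ⟨_, ⟨x, rfl⟩, rfl⟩

variable {F V : Type*} [Field F] [AddCommGroup V] [Module F V]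

theorem baby_split [FiniteDimensional F V] (hG : IsOfBabyMonsterType G) (X : Ext F V G Γ)
    (hv : ∀ Pt T, Geo Pt T → VS Pt X.ρ) : ∃ s, X.Sec ⊤ s := by
  obtain ⟨ι, R, P, hJ⟩ := Bq.exists_BJ hG
  obtain ⟨τ, a0, ker, rg⟩ := Bq.amal0_of_BJ hJ
  have am := amal_of_cent_H a0 ker fun g hg => rg.ge (mem_centralizer_singleton_iff.2 hg)
  obtain ⟨z0, R0, γ0, φ0, d0, hn⟩ := babyData_of hG
  obtain ⟨T, Ge⟩ := exists_geo d0 hn
  have lx : LX R (ι (qC zq)) := hJ.pair.hQ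
  have pz : IsConj z0 (ι (qC zq)) := by
    obtain ⟨S, hS⟩ := lx.isPGroup.exists_le_sylow
    obtain ⟨S0, hS0⟩ := d0.lx.isPGroup.exists_le_sylow
    obtain ⟨g, rfl⟩ := MulAction.exists_smul_eq G S S0
    refine (isConj_iff.2 ⟨g, (d0.lx.eq_of_comm fun x hx => ?_).resolve_left
      (by simpa using lx.z_ne)⟩).symm
    obtain ⟨y, hy, rfl⟩ := hS0 hx
    exact comm_conj g (lx.comm_of_two_subgroup S.isPGroup' hS y hy)
  generalize IsConj z0 = Pt at Ge pz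
  have mE : ∀ {q : HQ}, q.a = 0 → qC q ∈ H := fun {q} e =>
    Bq.qC_mem.2 (by rw [show q = ⟨0, q.b, q.e⟩ from HQ.ext e rfl rfl]; exact Bq.E_QH _ _)
  have mQ : ∀ {q : HQ}, qC q ∈ H → ι (qC q) ∈ O2C (ι (qC zq)) := fun {q} e =>
    lx.le_O2C ((hJ.memR _).2 ⟨q, Bq.qC_mem.1 e, rfl⟩)
  have mC : ∀ {c}, c ∈ H → ι c ∈ centralizer {ι (qC zq)} := fun hc => rg.le ⟨_, hc, rfl⟩
  have cτ : ∀ {q : HQ}, q.a = 0 → τ⁻¹ * ι (qC q) * τ = ι (qC (bE q)) := fun e =>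
    a0.beta _ _ (beta_E _ e) (mE e) (mE rfl)
  have cc : ∀ {c q}, c ∈ H → qC q ∈ H → ι c * ι (qC q) * (ι c)⁻¹ = ι (qC (cj c q)) :=
    fun {c q} a b => by
      rw [mul_inv_eq_iff_eq_mul, ← a0.mul _ a _ b, qC_cj, ← a0.mul _ (mul_mem (mul_mem a b)
        (inv_mem a)) _ a, inv_mul_cancel_right]
  have mz : ∀ {q : HQ}, q.a = 0 → ι (qC (q * zq)) = ι (qC q) * ι (qC zq) := fun e => by
    rw [map_mul, a0.mul _ (mE e) _ (mE rfl)]
  have t2 := a0.beta _ _ Beta.s (mE rfl) (mE rfl)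
  have pτ : ∀ {q : HQ}, q.a = 0 → Pt (ι (qC q)) → Pt (ι (qC (bE q))) := fun e p => by
    simpa only [inv_inv, cτ e] using Ge.pc p τ⁻¹
  have ps : Pt (ι (qC S0)) := by simpa [← t2, mul_assoc] using Ge.pc pz τ
  have ex : cj xiC S0 = HQ.ofNat 14290944 := by
    rw [xiC, ← ofNat_S0, cjS_spec _ (by decide)]
    exact congrArg _ (by decide +kernel)
  have px := Ge.pc ps (ι xiC)
  rw [cc xi_mem_H (mE rfl), ex] at px
  let J : H →* G := MonoidHom.mk' (fun c => ι c) fun a b => a0.mul _ a.2 _ b.2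
  let U := ((W8.map qC).subgroupOf H).map J
  have mU : ∀ {u}, u ∈ U ↔ ∃ q ∈ W8, ι (qC q) = u := ⟨fun ⟨c, ⟨q, a, b⟩, e⟩ =>
    ⟨q, a, (congrArg ι b).trans e⟩, fun ⟨q, a, b⟩ => ⟨⟨_, mE (bE_W8 a).1⟩, ⟨q, a, rfl⟩, b⟩⟩
  have nn : ∀ {w}, w ∈ [[1148], Br.bW, Br.eW] → evW w ∈ H → ι (evW w) * ι (qC zq) =
      ι (qC zq) * ι (evW w) ∧ ∀ u ∈ U, ι (evW w) * u * (ι (evW w))⁻¹ ∈ U := fun a b =>
    ⟨mem_centralizer_singleton_iff.1 (mC b), fun u hu => by
      obtain ⟨q, c, rfl⟩ := mU.1 hu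
      exact mU.2 ⟨_, cj_W8 a c, (cc b (mE (bE_W8 c).1)).symm⟩⟩
  refine (exists_lift Ge X (hv _ _ Ge)
    ⟨pz, ps, mQ (mE rfl), hJ.pair.ne⟩ ((a0.beta _ _ Beta.z (mE rfl) (mE rfl)).trans
      (by rw [Fr.XOM_eq, mz rfl])) t2 a0.cube (mQ D0_mem_H) a0.inv (by
        rw [← a0.mul _ D0_mem_H _ D0_mem_H, ← map_mul, show D0 * D0 = 1 by decide, map_one]
        exact map_one J) (U := U) (fun u hu => by
      obtain ⟨q, c, rfl⟩ := mU.1 hu
      exact mQ (mE (bE_W8 c).1)) (mU.2 ⟨_, ⟨_, by decide, ofNat_zq⟩, rfl⟩)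
    (mU.2 ⟨_, ⟨_, by decide, ofNat_S0⟩, rfl⟩) (fun u hu => ?_) (fun u hu => by
      obtain ⟨q, c, rfl⟩ := mU.1 hu
      exact mU.2 ⟨_, (bE_W8 c).2, (cτ (bE_W8 c).1).symm⟩) (by
      simp only [List.forall_mem_cons]
      exact ⟨nn (by decide) xi_mem_H, nn (by decide) brB_mem_H, nn (by decide) brE_mem_H, by simp⟩)
    (fun e => ?_) am.braid fun K a b => top_le_iff.1 ?_).elim
    fun σ ⟨t, h, h1, h2, h3, h4, h5⟩ => ?_
  rotate_right
  · obtain ⟨k1, k2⟩ := hom_BQ hG (ι := fun c => σ (ι c)) (τ := t) ⟨⟨fun a ha b hb => by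
      rw [a0.mul a ha b hb, h.2 _ (mC ha) _ (mC hb)], fun n m e a b => by
      rw [mul_assoc, h2 _ (mem_c2.2 ⟨mem_centralizer_singleton_iff.1 (mC a), by
        rw [← a0.mul _ a _ (mE rfl), ← a0.mul _ (mE rfl) _ a,
          mem_centralizer_singleton_iff.1 e.mem_N.1]⟩), a0.beta n m e a b, inv_mul_cancel_left],
      h3, h4⟩, h5⟩ (by rw [(ker _ (mem_centralizer_singleton_iff.2 rfl)).2 (.inr rfl), h.one]) X.π
      (by rw [h.1 _ (mC (mE rfl))]; exact lx.z_ne)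
    obtain ⟨s, hs, -⟩ := Ext.sec_of _ k1
    exact ⟨s, k2 ▸ hs⟩
  · obtain ⟨_, ⟨n, a, rfl⟩, rfl⟩ := mU.1 hu
    have p0 := pτ rfl pz
    have p1 := pτ (by decide +kernel) px
    rw [show bE _ = HQ.ofNat 31068160 by decide +kernel] at p1
    have p2 := pτ (by decide +kernel) p1
    rw [show bE _ = HQ.ofNat 22679552 by decide +kernel] at p2
    rw [show bE _ = HQ.ofNat 8388608 by decide +kernel] at p0
    have e0 : (HQ.ofNat 22679552).a = 0 := by decide +kernel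
    simp only [l8, List.mem_cons, List.not_mem_nil, or_false] at a
    rcases a with rfl | rfl | rfl | rfl | rfl | rfl | rfl | rfl
    · exact .inl (by rw [ofNat_zero, map_one]; exact map_one J)
    · exact .inr (by rw [show HQ.ofNat 16777216 = zq by decide +kernel]; exact pz)
    · exact .inr p0
    · exact .inr (by rw [ofNat_S0]; exact ps)
    · rw [show HQ.ofNat 5902336 = HQ.ofNat 22679552 * zq by decide +kernel, mz e0]
      by_cases e : ι (qC (HQ.ofNat 22679552)) = ι (qC zq)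
      · exact .inl (by rw [e, lx.z_sq])
      · exact .inr (Ge.mul ⟨pz, p2, mQ (mE e0), e⟩).q
    exacts [.inr p2, .inr px, .inr p1]
  · rw [cc xi_mem_H (mE rfl), ex, Eqv, ← mz rfl] at e
    rcases e with e | e <;> rcases Br.eq_or_of_eq a0 (fun c hc => (ker c hc).1)
      (mE (by decide +kernel)) (mE (by decide +kernel)) e with f | f <;>
    · rw [← ofNat_tq] at *
      try rw [← map_mul] at f
      exact absurd (qC_injective f) (by decide +kernel)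
  · rw [← (hom_BQ hG am ((ker _ (mem_centralizer_singleton_iff.2 rfl)).2 (.inr rfl)) (.id G)
      lx.z_ne).2, map_id]
    refine (closure_le _).2 ?_
    rintro _ (⟨c, hc, rfl⟩ | rfl)
    exacts [a (mC hc), b]

end Cfsg.Agent.Mon.Cx
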